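import Cfsg.Agent.H64.PMin.Lattice
import Cfsg.Agent.H91.Overgroup.Small

/-!
# The lattice of the alternating group of degree six
-/

set_option autoImplicit false
set_option maxRecDepth 100000

namespace Cfsg.Agent.H64.PMin

open Cfsg

/-- The partner of a point. -/
def par (i : Fin 6) : Fin 6 := [2, 3, 0, 1, 5, 4].getD i.val 0

/-- Stabiliser of a pair. -/
def pairStab : Subgroup (alternatingGroup (Fin 6)) where
  carrier := {g | ∀ i : Fin 6, 4 ≤ i.val → 4 ≤ ((g : Equiv.Perm (Fin 6)) i).val}
  one_mem' := fun _ h => by simpa using h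
  mul_mem' := fun {a b} ha hb i h => ha _ (hb i h)
  inv_mem' := fun {a} ha i h => by
    revert ha h
    revert i a
    decide +kernel

/-- Stabiliser of a partition into pairs. -/
def partStab : Subgroup (alternatingGroup (Fin 6)) where
  carrier := {g | ∀ i : Fin 6, (g : Equiv.Perm (Fin 6)) (par i) = par ((g : Equiv.Perm (Fin 6)) i)}
  one_mem' := fun _ => rfl
  mul_mem' := fun {a b} ha hb i => by
    show (a : Equiv.Perm (Fin 6)) ((b : Equiv.Perm (Fin 6)) (par i)) = _
    rw [hb i, ha]
    rfl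
  inv_mem' := fun {a} ha i => by
    apply (a : Equiv.Perm (Fin 6)).injective
    exact ((a : Equiv.Perm (Fin 6)).apply_symm_apply (par i)).trans
      ((ha _).trans (congrArg par ((a : Equiv.Perm (Fin 6)).apply_symm_apply i))).symm

instance : DecidablePred (· ∈ pairStab) := fun g =>
  inferInstanceAs (Decidable (∀ i : Fin 6, 4 ≤ i.val → 4 ≤ ((g : Equiv.Perm (Fin 6)) i).val))

instance : DecidablePred (· ∈ partStab) := fun g =>
  inferInstanceAs (Decidable (∀ i : Fin 6, (g : Equiv.Perm (Fin 6)) (par i) = par ((g : Equiv.Perm (Fin 6)) i)))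

theorem alt_six_cards : Fintype.card {g : alternatingGroup (Fin 6) // g ∈ pairStab} = 24 ∧
    Fintype.card {g : alternatingGroup (Fin 6) // g ∈ partStab} = 24 ∧
    Fintype.card {g : alternatingGroup (Fin 6) // g ∈ pairStab ∧ g ∈ partStab} = 8 := by
  decide +kernel

theorem alt_six_escape : ∀ g : alternatingGroup (Fin 6), g ∈ pairStab ∨ g ∈ partStab ∨
    ((∃ u : alternatingGroup (Fin 6), (u ∈ pairStab ∧ u ∈ partStab) ∧ (g * u) ^ 5 = 1) ∧
      ∃ u : alternatingGroup (Fin 6), (u ∈ pairStab ∧ u ∈ partStab) ∧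
        ∃ v : alternatingGroup (Fin 6), (v ∈ pairStab ∧ v ∈ partStab) ∧ (g * u * g * v) ^ 3 = 1 ∧ g * u * g * v ≠ 1) := by
  decide +kernel

theorem alt_six_normalizer : ∀ g : alternatingGroup (Fin 6),
    (∀ u : alternatingGroup (Fin 6), (u ∈ pairStab ∧ u ∈ partStab) → g * u * g⁻¹ ∈ pairStab ∧ g * u * g⁻¹ ∈ partStab) →
      g ∈ pairStab ∧ g ∈ partStab := by
  decide +kernel

/-- The lattice. -/
theorem exists_pars_altSix [Fact (Nat.Prime 2)] : ∃ D : Pars 2 (alternatingGroup (Fin 6)), D.atoms.ncard = 2 := by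
  classical
  haveI : IsSimpleGroup (alternatingGroup (Fin 6)) := alternatingGroup.isSimpleGroup (by simp)
  obtain ⟨c1, c2, c3⟩ := alt_six_cards
  set U₀ : Subgroup (alternatingGroup (Fin 6)) := pairStab ⊓ partStab with hU₀
  have hQa : Nat.card ↥pairStab = 24 := by rw [Nat.card_eq_fintype_card]; exact (Fintype.card_congr (Equiv.refl _)).trans c1
  have hQb : Nat.card ↥partStab = 24 := by rw [Nat.card_eq_fintype_card]; exact (Fintype.card_congr (Equiv.refl _)).trans c2
  have hU : Nat.card ↥U₀ = 8 := by rw [← c3, ← Nat.card_eq_fintype_card]; exact Nat.card_congr (Equiv.refl _)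
  have hG : Nat.card (alternatingGroup (Fin 6)) = 360 := by rw [nat_card_alternatingGroup]; simp [Nat.factorial]
  have hSyl : Nat.card ↥U₀ = 2 ^ (Nat.card (alternatingGroup (Fin 6))).factorization 2 := by
    rw [hU, hG, show (360 : ℕ) = 2 ^ 3 * 45 by norm_num, Nat.factorization_mul (by norm_num) (by norm_num),
      Finsupp.add_apply, Nat.Prime.factorization_pow Nat.prime_two, Finsupp.single_eq_same,
      Nat.factorization_eq_zero_of_not_dvd (by norm_num)]
    norm_num
  have hne : pairStab ≠ partStab := fun h => by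
    have h1 : U₀ = pairStab := by rw [hU₀, ← h, inf_idem]
    rw [h1, hQa] at hU
    omega
  have hnorm : Subgroup.normalizer (U₀ : Set (alternatingGroup (Fin 6))) = U₀ :=
    le_antisymm (fun g hg => alt_six_normalizer g fun u hu => (Subgroup.mem_normalizer_iff.1 hg u).1 hu)
      Subgroup.le_normalizer
  have hlta : U₀ < pairStab := lt_of_le_of_ne inf_le_left fun h => by rw [h, hQa] at hU; omega
  have hltb : U₀ < partStab := lt_of_le_of_ne inf_le_right fun h => by rw [h, hQb] at hU; omega
  have hstep : ∀ Q, U₀ < Q → Q ≠ ⊤ → Q = pairStab ∨ Q = partStab := by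
    intro Q hQ hT
    have hsub : ∀ g ∈ Q, g ∈ pairStab ∨ g ∈ partStab := by
      intro g hg
      by_contra hcon
      push Not at hcon
      rcases alt_six_escape g with h | h | ⟨⟨u, hu, h5⟩, v, hv, w, hw, h3, h3'⟩
      · exact hcon.1 h
      · exact hcon.2 h
      have hgu : g * u ≠ 1 := fun e => hcon.1 (by rw [eq_inv_of_mul_eq_one_left e]; exact inv_mem hu.1)
      haveI : Fact (Nat.Prime 5) := ⟨by norm_num⟩
      haveI : Fact (Nat.Prime 3) := ⟨by norm_num⟩
      have hd5 : 5 ∣ Nat.card ↥Q := by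
        rw [← orderOf_eq_prime h5 hgu]
        exact Subgroup.orderOf_dvd_natCard _ (mul_mem hg (hQ.le hu))
      have hd3 : 3 ∣ Nat.card ↥Q := by
        rw [← orderOf_eq_prime h3 h3']
        exact Subgroup.orderOf_dvd_natCard _ (mul_mem (mul_mem (mul_mem hg (hQ.le hv)) hg) (hQ.le hw))
      have hd8 : 8 ∣ Nat.card ↥Q := hU ▸ Subgroup.card_dvd_of_le hQ.le
      have hd : 120 ∣ Nat.card ↥Q := Nat.Coprime.mul_dvd_of_dvd_of_dvd (by norm_num)
        (Nat.Coprime.mul_dvd_of_dvd_of_dvd (by norm_num) hd8 hd5 : 8 * 5 ∣ _) hd3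
      have h1 := Subgroup.card_mul_index Q
      obtain ⟨k, hk⟩ := hd
      rw [hG, hk] at h1
      have h2 := H91.Overgroup.card_dvd_factorial Q hT
      rw [hG] at h2
      have h3k : k * Q.index = 3 := by linarith
      have h4 : Q.index ≤ 3 := Nat.le_of_dvd (by norm_num) (Dvd.intro_left k h3k)
      have h5' := Nat.le_of_dvd (Nat.factorial_pos _) h2
      have h6 := Nat.factorial_le h4
      norm_num [Nat.factorial] at h6
      omega
    have hle : Q ≤ pairStab ∨ Q ≤ partStab := by
      by_contra hcon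
      push Not at hcon
      obtain ⟨⟨a, ha, ha'⟩, b, hb, hb'⟩ := SetLike.not_le_iff_exists.1 hcon.1, SetLike.not_le_iff_exists.1 hcon.2
      have hab := (hsub a ha).resolve_left ha'
      have hba := (hsub b hb).resolve_right hb'
      rcases hsub (a * b) (mul_mem ha hb) with h | h
      · exact ha' ((Subgroup.mul_mem_cancel_right _ hba).1 h)
      · exact hb' ((Subgroup.mul_mem_cancel_left _ hab).1 h)
    have key : ∀ P : Subgroup (alternatingGroup (Fin 6)), Nat.card ↥P = 24 → Q ≤ P → Q = P := by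
      intro P hP hle
      have h1 := Subgroup.card_dvd_of_le hle
      have h2 : 8 ∣ Nat.card ↥Q := hU ▸ Subgroup.card_dvd_of_le hQ.le
      have h3 : 8 < Nat.card ↥Q := hU ▸ lt_of_le_of_ne (Nat.le_of_dvd Nat.card_pos (Subgroup.card_dvd_of_le hQ.le))
        (fun e => hQ.ne (Subgroup.eq_of_le_of_card_ge hQ.le e.ge))
      rw [hP] at h1
      have h4 := Nat.le_of_dvd (by norm_num) h1
      obtain ⟨r, hr⟩ := h2
      rw [hr] at h1 h3 h4
      obtain rfl : r = 3 := by
        have : r ≤ 3 := by omega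
        interval_cases r <;> omega
      exact Subgroup.eq_of_le_of_card_ge hle (by rw [hP, hr])
    rcases hle with h | h
    · exact Or.inl (key _ hQa h)
    · exact Or.inr (key _ hQb h)
  have hPtop : ∀ P ∈ ({pairStab, partStab} : Set (Subgroup (alternatingGroup (Fin 6)))), P ≠ ⊤ := by
    rintro P (rfl | rfl) h
    · rw [h, Subgroup.card_top, hG] at hQa; omega
    · rw [h, Subgroup.card_top, hG] at hQb; omega
  refine ⟨{ U := Sylow.ofCard U₀ hSyl, B := U₀, B_eq := ?_, B_ne := fun h => ?_,
            atoms := {pairStab, partStab}, lt := ?_, below := ?_, atom := ?_, gen := ?_, proper := ?_ },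
    Set.ncard_pair hne⟩
  · rw [Sylow.coe_ofCard]; exact hnorm.symm
  · rw [h, Subgroup.card_top, hG] at hU; omega
  · rintro P (rfl | rfl) <;> assumption
  · intro Q hQ
    by_cases hT : Q = ⊤
    · exact ⟨pairStab, Or.inl rfl, hT ▸ le_top⟩
    · rcases hstep Q hQ hT with rfl | rfl
      · exact ⟨_, Or.inl rfl, le_rfl⟩
      · exact ⟨_, Or.inr rfl, le_rfl⟩
  · rintro P (rfl | rfl) P' (rfl | rfl) hle <;>
      first
        | rfl
        | exact Subgroup.eq_of_le_of_card_ge hle (by rw [hQa, hQb])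
  · by_contra hT
    have h1 : pairStab ≤ U₀ ⊔ sSup {pairStab, partStab} := le_sup_of_le_right (le_sSup (Or.inl rfl))
    have h2 : partStab ≤ U₀ ⊔ sSup {pairStab, partStab} := le_sup_of_le_right (le_sSup (Or.inr rfl))
    rcases hstep _ (hlta.trans_le h1) hT with h | h
    · exact hne.symm (Subgroup.eq_of_le_of_card_ge (h2.trans h.le) (by rw [hQa, hQb]))
    · exact hne (Subgroup.eq_of_le_of_card_ge (h1.trans h.le) (by rw [hQa, hQb]))
  · intro A hA hne' hT
    obtain ⟨P, hP, hPA⟩ : ∃ P ∈ ({pairStab, partStab} : Set (Subgroup (alternatingGroup (Fin 6)))), P ∉ A := by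
      by_contra hc
      push Not at hc
      exact hne' (hA.antisymm hc)
    rcases hP with rfl | rfl
    · refine hPtop partStab (Or.inr rfl) (top_le_iff.1 (hT.symm.le.trans (sup_le hltb.le (sSup_le fun Q hQ => ?_))))
      rcases hA hQ with rfl | rfl
      · exact absurd hQ hPA
      · exact le_rfl
    · refine hPtop pairStab (Or.inl rfl) (top_le_iff.1 (hT.symm.le.trans (sup_le hlta.le (sSup_le fun Q hQ => ?_))))
      rcases hA hQ with rfl | rfl
      · exact le_rfl
      · exact absurd hQ hPA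

end Cfsg.Agent.H64.PMin
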