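import Cfsg.Agent.H64.PMin.Lattice
import Cfsg.Agent.H91.Overgroup.Basic

/-!
# The lattice of a split pair and criteria against transitivity on it
-/

set_option autoImplicit false

namespace Cfsg.Agent.H64.PMin

open Cfsg Cfsg.Agent.H8 Cfsg.Agent.H91.Overgroup
open scoped Pointwise

variable {p : ℕ} [Fact p.Prime]

namespace Pars

variable {K L : Type*} [Group K] [Group L] [Finite K] (D : Pars p K) (e : K ≃* L)

theorem ncard_transport : (D.transport e).atoms.ncard = D.atoms.ncard :=
  Set.ncard_image_of_injective _ (Subgroup.map_injective e.injective)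

theorem notTrans_transport (h : D.NotTrans) : (D.transport e).NotTrans := by
  obtain ⟨P, hP, Q, hQ, h⟩ := h
  refine ⟨_, ⟨P, hP, rfl⟩, _, ⟨Q, hQ, rfl⟩, fun φ hφ he => ?_⟩
  refine h ((e.trans φ).trans e.symm) ?_ ?_
  · show (D.U : Subgroup K).map ((e.trans φ).trans e.symm).toMonoidHom = D.U
    have hφ' : ((D.U : Subgroup K).map e.toMonoidHom).map φ.toMonoidHom = (D.U : Subgroup K).map e.toMonoidHom := hφ
    rw [show ((e.trans φ).trans e.symm).toMonoidHom = e.symm.toMonoidHom.comp (φ.toMonoidHom.comp e.toMonoidHom)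
      from rfl, ← Subgroup.map_map, ← Subgroup.map_map, hφ', Subgroup.map_map]
    rw [show e.symm.toMonoidHom.comp e.toMonoidHom = MonoidHom.id K from MonoidHom.ext e.symm_apply_apply,
      Subgroup.map_id]
  · rw [show ((e.trans φ).trans e.symm).toMonoidHom = e.symm.toMonoidHom.comp (φ.toMonoidHom.comp e.toMonoidHom)
      from rfl, ← Subgroup.map_map, ← Subgroup.map_map]
    change ((P.map e.toMonoidHom).map φ.toMonoidHom) = Q.map e.toMonoidHom at he
    rw [he, Subgroup.map_map, show e.symm.toMonoidHom.comp e.toMonoidHom = MonoidHom.id K from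
      MonoidHom.ext e.symm_apply_apply, Subgroup.map_id]

end Pars

/-- The consequences of `p`-minimality in terms of any lattice of the socle. -/
theorem pmin_facts {X : Type*} [Group X] [Finite X] (hX : Cfsg.IsPMinimal p X) (K : Subgroup X) [K.Normal]
    (U : Sylow p ↥K) (D₀ : Pars p ↥K) :
    IsCoatom (Subgroup.normalizer (((U : Subgroup ↥K).map K.subtype : Subgroup X) : Set X)) ∧
      ¬ D₀.NotTrans ∧ ∃ e : ℕ, D₀.atoms.ncard = p ^ e ∧ (D₀.atoms.ncard = 1 ∨ K ≠ ⊤) := by
  obtain ⟨D, h1, h2, ⟨g, rfl⟩, e, h3, h4⟩ := pmin_main hX K U D₀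
  rw [D₀.ncard_transport] at h3 h4
  exact ⟨h1, fun h => h2 (D₀.notTrans_transport g h), e, h3, h4⟩

section Split

variable {G : Type*} [Group G]

/-- `P_s P_t = P_t P_s` fails. -/
def NC (P : BNPair G) (s t : G) : Prop := ¬ BN.Cong P (s * t) (t * s)

theorem mem_singleton_iff {P : BNPair G} {s : G} (hs : s ∈ P.S) {g : G} :
    g ∈ P.parabolic {s} ↔ g ∈ P.B ∨ g ∈ BN.cell P s := by
  rw [BN.mem_parabolic_iff_word (Set.singleton_subset_iff.2 hs)]
  constructor
  · rintro ⟨l, hl, hg⟩
    have : l.prod ∈ P.B ∨ l.prod ∈ BN.cell P s := by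
      clear hg
      induction l with
      | nil => exact Or.inl (one_mem _)
      | cons a l ih =>
        obtain rfl : a = s := hl a List.mem_cons_self
        rw [List.prod_cons]
        rcases ih fun x hx => hl x (List.mem_cons_of_mem _ hx) with h | h
        · exact Or.inr (BN.mul_mem_cell_right (BN.self_mem_cell a) h)
        · obtain ⟨b, hb, b', hb', e⟩ := BN.mem_cell.1 h
          rw [e, show a * (b * a * b') = a * b * a * b' by group]
          rcases BN.axiom_left hs (P.subset hs) hb with h1 | h1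
          · refine Or.inl (mul_mem ?_ hb')
            obtain ⟨c, hc, c', hc', e1⟩ := BN.mem_cell.1 h1
            rw [e1]
            exact mul_mem (mul_mem hc (P.sq_mem a hs)) hc'
          · exact Or.inr (BN.mul_mem_cell_right h1 hb')
    rcases this with h | h
    · left
      have h1 : l.prod ∈ BN.cell P 1 := by rw [BN.cell_one]; exact h
      rw [BN.cell_eq_of_mem h1, BN.cell_one] at hg
      exact hg
    · exact Or.inr (BN.cell_eq_of_mem h ▸ hg)
  · rintro (h | h)
    · exact ⟨[], by simp, by simpa [BN.cell_one] using h⟩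
    · exact ⟨[s], by simp, by simpa using h⟩

theorem nc_iff_mul_ne {P : BNPair G} {s t : G} (hs : s ∈ P.S) (ht : t ∈ P.S) :
    NC P s t ↔ (P.parabolic {s} : Set G) * (P.parabolic {t} : Set G) ≠
      (P.parabolic {t} : Set G) * (P.parabolic {s} : Set G) := by
  have hsN := P.subset hs
  have htN := P.subset ht
  constructor
  · intro hnc he
    apply hnc
    have hmem : s * t ∈ (P.parabolic {t} : Set G) * (P.parabolic {s} : Set G) :=
      he ▸ Set.mul_mem_mul (BN.subset_parabolic _ rfl) (BN.subset_parabolic _ rfl)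
    obtain ⟨x, hx, y, hy, e⟩ := Set.mem_mul.1 hmem
    have hst : P.B ≤ P.parabolic {s} := BN.B_le_parabolic _
    have hself : BN.Cong P (s * t) (t * s) → BN.Cong P (s * t) (t * s) := id
    rcases (mem_singleton_iff ht).1 hx with hxB | hxc
    · rcases (mem_singleton_iff hs).1 hy with hyB | hyc
      · exfalso
        have h1 : s * t ∈ P.B := e ▸ mul_mem hxB hyB
        have h2 : t ∈ P.parabolic {s} := by
          have := mul_mem (inv_mem (BN.subset_parabolic ({s} : Set G) rfl)) (hst h1)
          simpa using this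
        obtain rfl : t = s := BN.mem_of_mem_parabolic (Set.singleton_subset_iff.2 hs) ht h2
        exact hnc (BN.Cong.refl _)
      · exfalso
        have h1 : s * t ∈ P.parabolic {s} := e ▸ mul_mem (hst hxB)
          ((mem_singleton_iff hs).2 (Or.inr hyc))
        have h2 : t ∈ P.parabolic {s} := by
          have := mul_mem (inv_mem (BN.subset_parabolic ({s} : Set G) rfl)) h1
          simpa using this
        obtain rfl : t = s := BN.mem_of_mem_parabolic (Set.singleton_subset_iff.2 hs) ht h2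
        exact hnc (BN.Cong.refl _)
    · rcases (mem_singleton_iff hs).1 hy with hyB | hyc
      · exfalso
        have h1 : s * t ∈ P.parabolic {t} := e ▸ mul_mem ((mem_singleton_iff ht).2 (Or.inr hxc))
          (BN.B_le_parabolic _ hyB)
        have h2 : s ∈ P.parabolic {t} := by
          have := mul_mem h1 (inv_mem (BN.subset_parabolic ({t} : Set G) rfl))
          simpa using this
        obtain rfl : s = t := BN.mem_of_mem_parabolic (Set.singleton_subset_iff.2 ht) hs h2
        exact hnc (BN.Cong.refl _)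
      · obtain ⟨a, ha, a', ha', rfl⟩ := BN.mem_cell.1 hxc
        obtain ⟨c, hc, c', hc', rfl⟩ := BN.mem_cell.1 hyc
        have hcs : s * t ∈ BN.cell P (t * (a' * c) * s) :=
          BN.mem_cell.2 ⟨a, ha, c', hc', by rw [← e]; group⟩
        rcases BN.axiom_left ht hsN (mul_mem ha' hc) with h | h
        · rw [BN.cell_eq_of_mem h] at hcs
          exact BN.cong_of_cell_eq (mul_mem hsN htN) (mul_mem htN hsN) (BN.cell_eq_of_mem hcs)
        · exfalso
          rw [BN.cell_eq_of_mem h] at hcs
          have hc2 := BN.cong_of_cell_eq (mul_mem hsN htN) hsN (BN.cell_eq_of_mem hcs)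
          have h1 : t⁻¹ ∈ P.parabolic {s} := by
            have h3 : (s * t)⁻¹ * s ∈ P.parabolic {s} := hst hc2
            simpa using h3
          obtain rfl : t = s :=
            BN.mem_of_mem_parabolic (Set.singleton_subset_iff.2 hs) ht (inv_mem_iff.1 h1)
          exact hnc (BN.Cong.refl _)
  · intro hne hc
    have key : ∀ s t : G, s ∈ P.S → t ∈ P.S → BN.Cong P (s * t) (t * s) →
        (P.parabolic {t} : Set G) * (P.parabolic {s} : Set G) ⊆
          (P.parabolic {s} : Set G) * (P.parabolic {t} : Set G) := by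
      intro s t hs ht hc g hg
      obtain ⟨x, hx, y, hy, rfl⟩ := Set.mem_mul.1 hg
      rcases (mem_singleton_iff ht).1 hx with hxB | hxc
      · exact ⟨x * y, mul_mem (BN.B_le_parabolic _ hxB) hy, 1, one_mem _, mul_one _⟩
      rcases (mem_singleton_iff hs).1 hy with hyB | hyc
      · exact ⟨1, one_mem _, x * y, mul_mem hx (BN.B_le_parabolic _ hyB), one_mul _⟩
      obtain ⟨a, ha, a', ha', rfl⟩ := BN.mem_cell.1 hxc
      obtain ⟨c, hc', c', hc'', rfl⟩ := BN.mem_cell.1 hyc
      have hcs : a * t * a' * (c * s * c') ∈ BN.cell P (t * (a' * c) * s) :=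
        BN.mem_cell.2 ⟨a, ha, c', hc'', by group⟩
      rcases BN.axiom_left ht (P.subset hs) (mul_mem ha' hc') with h | h
      · rw [BN.cell_eq_of_mem h, ← hc.cell_eq] at hcs
        obtain ⟨d, hd, d', hd', e⟩ := BN.mem_cell.1 hcs
        exact ⟨d * s, mul_mem (BN.B_le_parabolic _ hd) (BN.subset_parabolic _ rfl), t * d',
          mul_mem (BN.subset_parabolic _ rfl) (BN.B_le_parabolic _ hd'), by rw [e]; group⟩
      · rw [BN.cell_eq_of_mem h] at hcs
        exact ⟨_, (mem_singleton_iff hs).2 (Or.inr hcs), 1, one_mem _, mul_one _⟩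
    exact hne (Set.Subset.antisymm (key t s ht hs hc.symm) (key s t hs ht hc))

variable [Finite G] {K : Type*} [Group K] [Finite K]
  (D : SplitPair p G) (f : G →* K) (hf : Function.Surjective f) (hk : f.ker ≤ D.P.B ⊓ D.P.N)

/-- The image of a minimal parabolic. -/
def img1 (s : G) : Subgroup K := (D.P.parabolic {s}).map f

include hk in
theorem comap_img {Q : Subgroup G} (hQ : D.P.B ≤ Q) : (Q.map f).comap f = Q :=
  Subgroup.comap_map_eq_self (hk.trans (inf_le_left.trans hQ))

include hk in
theorem img1_inj {s t : G} (hs : s ∈ D.P.S) (ht : t ∈ D.P.S) (h : img1 D f s = img1 D f t) : s = t := by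
  have h' := congrArg (Subgroup.comap f) h
  rw [img1, img1, comap_img D f hk (BN.B_le_parabolic _), comap_img D f hk (BN.B_le_parabolic _)] at h'
  exact Set.singleton_eq_singleton_iff.1
    (BN.parabolic_injective (Set.singleton_subset_iff.2 hs) (Set.singleton_subset_iff.2 ht) h')

/-- The lattice of a split pair. -/
noncomputable def parsOf (hS : D.P.S.Nonempty) : Pars p K where
  U := D.exists_sylow.choose.mapSurjective hf
  B := D.P.B.map f
  B_eq := by
    have hU : ((D.exists_sylow.choose.mapSurjective hf : Sylow p K) : Subgroup K) = D.U.map f :=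
      congrArg (Subgroup.map f) D.exists_sylow.choose_spec
    rw [hU]
    refine le_antisymm ?_ ?_
    · rintro _ ⟨b, hb, rfl⟩
      exact Subgroup.le_normalizer_map _ ⟨b, D.B_le_normalizer hb, rfl⟩
    · intro x hx
      obtain ⟨g, rfl⟩ := hf x
      refine ⟨g, ?_, rfl⟩
      rw [← D.normalizer_eq]
      set R := D.U.map (MulAut.conj g).toMonoidHom with hR
      have hRB : R ≤ D.P.B := by
        rintro _ ⟨u, hu, rfl⟩
        have h1 : f g * f u * (f g)⁻¹ ∈ D.U.map f := (Subgroup.mem_normalizer_iff.1 hx (f u)).1 ⟨u, hu, rfl⟩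
        rw [← map_mul, ← map_inv, ← map_mul] at h1
        exact comap_img D f hk le_rfl ▸ (Subgroup.map_mono D.U_le h1)
      have hsup : IsPGroup p ↥(R ⊔ D.U) :=
        (D.isPGroup.map _).to_sup_of_normal_right' D.isPGroup (hRB.trans D.B_le_normalizer)
      have heq : R ⊔ D.U = D.U := D.eq_of_le hsup le_sup_right (sup_le hRB D.U_le)
      have hle : R ≤ D.U := sup_eq_right.1 heq
      have hRU : R = D.U := Subgroup.eq_of_le_of_card_ge hle (by
        rw [hR, Subgroup.card_map_of_injective (MulAut.conj g).injective])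
      refine Subgroup.mem_normalizer_iff.2 fun u => ⟨fun hu => hle ⟨u, hu, rfl⟩, fun hu => ?_⟩
      rw [← hRU] at hu
      obtain ⟨v, hv, e⟩ := hu
      rwa [show u = v from (MulAut.conj g).injective (by simpa using e.symm)]
  B_ne := fun h => by
    obtain ⟨s, hs⟩ := hS
    have h' := congrArg (Subgroup.comap f) h
    rw [comap_img D f hk le_rfl, Subgroup.comap_top] at h'
    exact BN.s_not_mem_B hs (h'.symm ▸ Subgroup.mem_top s)
  atoms := img1 D f '' D.P.S
  lt := by
    rintro _ ⟨s, hs, rfl⟩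
    refine lt_of_le_of_ne (Subgroup.map_mono (BN.B_le_parabolic _)) fun h => BN.s_not_mem_B hs ?_
    rw [← comap_img D f hk (le_refl D.P.B), h]
    exact ⟨s, BN.subset_parabolic _ rfl, rfl⟩
  below := fun Q hQ => by
    have hle : D.P.B ≤ Q.comap f := Subgroup.map_le_iff_le_comap.1 hQ.le
    obtain ⟨s, hs, hsQ⟩ : ∃ s ∈ D.P.S, s ∈ Q.comap f := by
      by_contra hcon
      push Not at hcon
      refine hQ.ne ?_
      have h1 := BN.eq_parabolic hle
      rw [Set.eq_empty_of_forall_notMem (s := D.P.S ∩ (Q.comap f : Set G)) fun x hx => hcon x hx.1 hx.2] at h1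
      rw [← Subgroup.map_comap_eq_self_of_surjective hf Q, h1]
      simp [BNPair.parabolic]
    exact ⟨_, ⟨s, hs, rfl⟩, Subgroup.map_le_iff_le_comap.2
      (sup_le hle ((Subgroup.closure_le _).2 (Set.singleton_subset_iff.2 hsQ)))⟩
  atom := by
    rintro _ ⟨s, hs, rfl⟩ _ ⟨t, ht, rfl⟩ h
    have h' := Subgroup.comap_mono (f := f) h
    rw [img1, img1, comap_img D f hk (BN.B_le_parabolic _), comap_img D f hk (BN.B_le_parabolic _),
      BN.parabolic_le_iff (Set.singleton_subset_iff.2 ht) (Set.singleton_subset_iff.2 hs)] at h'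
    rw [Set.singleton_subset_singleton.1 h']
  gen := by
    rw [eq_top_iff]
    intro x _
    obtain ⟨g, rfl⟩ := hf x
    have h1 : g ∈ (D.P.B.map f ⊔ sSup (img1 D f '' D.P.S)).comap f := by
      have hg : g ∈ D.P.parabolic D.P.S := BN.parabolic_self (P := D.P) ▸ Subgroup.mem_top g
      refine (sup_le ?_ ((Subgroup.closure_le _).2 ?_)) hg
      · exact Subgroup.map_le_iff_le_comap.1 le_sup_left
      · intro s hs
        have h2 : img1 D f s ≤ D.P.B.map f ⊔ sSup (img1 D f '' D.P.S) :=
          le_sup_of_le_right (le_sSup ⟨s, hs, rfl⟩)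
        exact h2 ⟨s, BN.subset_parabolic _ (Set.mem_singleton s), rfl⟩
    exact h1
  proper := fun A hA hne h => by
    set J : Set G := {s | s ∈ D.P.S ∧ img1 D f s ∈ A} with hJ
    have hle : D.P.B.map f ⊔ sSup A ≤ (D.P.parabolic J).map f := by
      refine sup_le (Subgroup.map_mono (BN.B_le_parabolic _)) (sSup_le fun Q hQ => ?_)
      obtain ⟨s, hs, rfl⟩ := hA hQ
      exact Subgroup.map_mono (BN.parabolic_mono (Set.singleton_subset_iff.2 ⟨hs, hQ⟩))
    rw [h, top_le_iff] at hle
    have hP := congrArg (Subgroup.comap f) hle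
    rw [comap_img D f hk (BN.B_le_parabolic _), Subgroup.comap_top, ← BN.parabolic_self (P := D.P)] at hP
    have hJS := BN.parabolic_injective (fun s hs => hs.1) subset_rfl hP
    refine hne (hA.antisymm ?_)
    rintro _ ⟨s, hs, rfl⟩
    exact ((hJS.symm ▸ hs : s ∈ J)).2

theorem ncard_parsOf (hS : D.P.S.Nonempty) {ι : Type*} [Fintype ι] (σ : ι → G) (hσ : Function.Injective σ)
    (hr : Set.range σ = D.P.S) : (parsOf D f hf hk hS).atoms.ncard = Fintype.card ι := by
  show (img1 D f '' D.P.S).ncard = _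
  rw [Set.InjOn.ncard_image (fun s hs t ht h => img1_inj D f hk hs ht h), ← hr,
    Set.ncard_range_of_injective hσ, Nat.card_eq_fintype_card]

/-- Criterion: two minimal parabolics of different orders. -/
theorem notTrans_of_card (hS : D.P.S.Nonempty) {s t : G} (hs : s ∈ D.P.S) (ht : t ∈ D.P.S)
    (h : Nat.card ↥(D.P.parabolic {s}) ≠ Nat.card ↥(D.P.parabolic {t})) :
    (parsOf D f hf hk hS).NotTrans := by
  refine ⟨_, ⟨s, hs, rfl⟩, _, ⟨t, ht, rfl⟩, fun φ _ he => h ?_⟩
  have e1 : Nat.card ↥(img1 D f s) = Nat.card ↥(img1 D f t) := by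
    rw [← he, Subgroup.card_map_of_injective φ.injective]
  have hh : ∀ Q : Subgroup G, D.P.B ≤ Q → Nat.card ↥Q = Nat.card ↥(Q.map f) * Nat.card ↥f.ker := by
    intro Q hQ
    have h1 : f.ker ≤ Q := hk.trans (inf_le_left.trans hQ)
    rw [Subgroup.card_eq_card_quotient_mul_card_subgroup (f.subgroupMap Q).ker]
    congr 1
    · exact Nat.card_congr (QuotientGroup.quotientKerEquivOfSurjective _
        (f.subgroupMap_surjective Q)).toEquiv
    · rw [show (f.subgroupMap Q).ker = f.ker.subgroupOf Q by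
        ext x; simp [MonoidHom.mem_ker, Subgroup.mem_subgroupOf, Subtype.ext_iff]]
      exact Nat.card_congr (Subgroup.subgroupOfEquivOfLe h1).toEquiv
  rw [hh _ (BN.B_le_parabolic _), hh _ (BN.B_le_parabolic _)]
  exact congrArg (· * _) e1

/-- Criterion: two minimal parabolics of different degree. -/
theorem notTrans_of_degree (hS : D.P.S.Nonempty) {s a b t : G} (hs : s ∈ D.P.S) (ha : a ∈ D.P.S)
    (hb : b ∈ D.P.S) (ht : t ∈ D.P.S) (hab : a ≠ b) (hsa : NC D.P s a) (hsb : NC D.P s b)
    (hone : ∀ c ∈ D.P.S, ∀ d ∈ D.P.S, NC D.P t c → NC D.P t d → c = d) :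
    (parsOf D f hf hk hS).NotTrans := by
  refine ⟨_, ⟨s, hs, rfl⟩, _, ⟨t, ht, rfl⟩, fun φ hφ he => ?_⟩
  have hatom : ∀ x ∈ D.P.S, ∃ y ∈ D.P.S, (img1 D f x).map φ.toMonoidHom = img1 D f y := fun x hx => by
    obtain ⟨y, hy, e⟩ := (parsOf D f hf hk hS).map_atom hφ (P := img1 D f x) ⟨x, hx, rfl⟩
    exact ⟨y, hy, e.symm⟩
  have hpull : ∀ x y : G, (img1 D f x : Set K) * (img1 D f y : Set K) =
      f '' ((D.P.parabolic {x} : Set G) * (D.P.parabolic {y} : Set G)) := fun x y => by
    rw [img1, img1, Subgroup.coe_map, Subgroup.coe_map, Set.image_mul]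
  have hsat : ∀ x y : G, f ⁻¹' (f '' ((D.P.parabolic {x} : Set G) * (D.P.parabolic {y} : Set G))) =
      (D.P.parabolic {x} : Set G) * (D.P.parabolic {y} : Set G) := fun x y => by
    refine Set.Subset.antisymm ?_ (Set.subset_preimage_image _ _)
    rintro g ⟨z, ⟨u, hu, v, hv, rfl⟩, e⟩
    refine ⟨u, hu, v * ((u * v)⁻¹ * g), mul_mem hv (BN.B_le_parabolic _ (hk ?_).1), by group⟩
    rw [MonoidHom.mem_ker, map_mul, map_inv, e, inv_mul_cancel]
  have hinv : ∀ x ∈ D.P.S, ∀ y ∈ D.P.S, ∀ x' ∈ D.P.S, ∀ y' ∈ D.P.S,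
      (img1 D f x).map φ.toMonoidHom = img1 D f x' → (img1 D f y).map φ.toMonoidHom = img1 D f y' →
      NC D.P x y → NC D.P x' y' := by
    intro x hx y hy x' hx' y' hy' e1 e2 hnc
    rw [nc_iff_mul_ne hx' hy']
    rw [nc_iff_mul_ne hx hy] at hnc
    intro heq
    apply hnc
    have h1 : (img1 D f x' : Set K) * (img1 D f y' : Set K) = (img1 D f y' : Set K) * (img1 D f x' : Set K) := by
      rw [hpull, hpull, heq]
    rw [← e1, ← e2, Subgroup.coe_map, Subgroup.coe_map, ← Set.image_mul, ← Set.image_mul] at h1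
    have h2 := φ.injective.image_injective h1
    rw [hpull, hpull] at h2
    rw [← hsat x y, ← hsat y x, h2]
  obtain ⟨c, hc, ec⟩ := hatom a ha
  obtain ⟨d, hd, ed⟩ := hatom b hb
  obtain rfl := hone c hc d hd (hinv s hs a ha t ht c hc he ec hsa) (hinv s hs b hb t ht d hd he ed hsb)
  exact hab (img1_inj D f hk ha hb (Subgroup.map_injective φ.injective (ec.trans ed.symm)))

end Split

end Cfsg.Agent.H64.PMin
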