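import Cfsg.Agent.H64.PMin.Criteria
import Cfsg.Agent.H91.Overgroup.Models

/-!
# Degrees in the diagrams of the classical families
-/

set_option autoImplicit false

namespace Cfsg.Agent.H64.PMin

open Cfsg Cfsg.Agent.H8 Cfsg.Agent.H91.Overgroup
open Cfsg.Agent.H2.St (Tri Mono)
open Cfsg.Agent.H92 (sw)

variable {G : Type*} [Group G] {N : ℕ} {F : Type*} [Field F] {p : ℕ} [Fact p.Prime]

/-- The criterion of degrees through a faithful permutation representation of the simple reflections. -/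
theorem notTrans_perm [Finite G] {K : Type*} [Group K] [Finite K] (D : SplitPair p G) (f : G →* K)
    (hf : Function.Surjective f) (hk : f.ker ≤ D.P.B ⊓ D.P.N) (hS : D.P.S.Nonempty)
    {κ α : Type*} (σ : κ → G) (hσ : Function.Injective σ) (hr : Set.range σ = D.P.S) (π : κ → Equiv.Perm α)
    (hcong : ∀ i j, BN.Cong D.P (σ i * σ j) (σ j * σ i) ↔ π i * π j = π j * π i)
    {m a b e n : κ} (hab : a ≠ b) (h1 : π m * π a ≠ π a * π m) (h2 : π m * π b ≠ π b * π m)
    (hone : ∀ c, π e * π c ≠ π c * π e → c = n) : (parsOf D f hf hk hS).NotTrans := by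
  have hmem : ∀ i, σ i ∈ D.P.S := fun i => hr ▸ Set.mem_range_self i
  refine notTrans_of_degree D f hf hk hS (hmem m) (hmem a) (hmem b) (hmem e) (fun h => hab (hσ h))
    (fun h => h1 ((hcong _ _).1 h)) (fun h => h2 ((hcong _ _).1 h)) ?_
  intro c hc d hd hc' hd'
  rw [← hr] at hc hd
  obtain ⟨i, rfl⟩ := hc
  obtain ⟨j, rfl⟩ := hd
  rw [hone i fun h => hc' ((hcong _ _).2 h), hone j fun h => hd' ((hcong _ _).2 h)]

/-- Congruence of monomial elements. -/
theorem cong_mono (P : BNPair G) (toM : G →* Matrix (Fin N) (Fin N) F) (hB : ∀ g, g ∈ P.B ↔ Tri toM g)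
    (htri : ∀ g σ, Mono toM g σ → Tri toM g → σ = 1) (hone : ∀ g, Mono toM g 1 → Tri toM g)
    {g h : G} {σ τ : Equiv.Perm (Fin N)} (hg : Mono toM g σ) (hh : Mono toM h τ) :
    BN.Cong P g h ↔ σ = τ := by
  have hm : Mono toM (g⁻¹ * h) (σ.symm * τ) := (Mono.mono_inv hg).mono_mul hh
  rw [BN.Cong, hB]
  constructor
  · intro h'
    exact inv_mul_eq_one.1 (htri _ _ hm h')
  · rintro rfl
    refine hone _ ?_
    rwa [show σ.symm * σ = 1 from inv_mul_cancel σ] at hm

section RootGen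

open Cfsg.Agent.H4.Steinberg

variable {κ : Type} (R : RootGen G N F κ)

theorem cong_gen (i j : κ) :
    BN.Cong R.pair (R.s i * R.s j) (R.s j * R.s i) ↔ R.π i * R.π j = R.π j * R.π i :=
  cong_mono R.pair R.toM (fun _ => Iff.rfl) (fun _ _ => R.mono_tri)
    (fun _ h => R.torus_le_borel (R.mono_one_mem h)) (R.mono_mul (R.weyl i) (R.weyl j))
    (R.mono_mul (R.weyl j) (R.weyl i))

theorem s_injective : Function.Injective R.s := fun i j h => R.π_inj
  ((cong_mono R.pair R.toM (fun _ => Iff.rfl) (fun _ _ => R.mono_tri)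
    (fun _ h => R.torus_le_borel (R.mono_one_mem h)) (R.weyl i) (R.weyl j)).1 (h ▸ BN.Cong.refl _))

end RootGen

section RootData

open Cfsg.Agent.H2.St

variable {κ : Type} (R : RootData G N F κ)

theorem cong_data (i j : κ) :
    BN.Cong R.pair (R.φ i sw * R.φ j sw) (R.φ j sw * R.φ i sw) ↔ R.π i * R.π j = R.π j * R.π i :=
  cong_mono R.pair R.toM (fun _ => Iff.rfl) (fun _ _ => R.mono_tri)
    (fun _ h => R.torus_le_borel (R.mono_one_mem h)) (R.mono_mul (R.weyl i) (R.weyl j))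
    (R.mono_mul (R.weyl j) (R.weyl i))

theorem data_injective : Function.Injective (fun k => R.φ k sw) := fun i j h => R.π_inj
  ((cong_mono R.pair R.toM (fun _ => Iff.rfl) (fun _ _ => R.mono_tri)
    (fun _ h => R.torus_le_borel (R.mono_one_mem h)) (R.weyl i) (R.weyl j)).1
      ((congrArg (fun x => BN.Cong R.pair (R.φ i sw) x) h).mp (BN.Cong.refl _)))

variable (S : RootSys G N F κ)

theorem cong_sys (i j : κ) :
    BN.Cong S.pair (S.φ i sw * S.φ j sw) (S.φ j sw * S.φ i sw) ↔ S.π i * S.π j = S.π j * S.π i :=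
  cong_mono S.pair S.toM (fun _ => Iff.rfl) (fun _ _ => S.mono_tri)
    (fun _ h => S.torus_le_borel (S.mono_one_mem h)) (S.mono_mul (S.weyl i) (S.weyl j))
    (S.mono_mul (S.weyl j) (S.weyl i))

theorem sys_injective : Function.Injective (fun k => S.φ k sw) := fun i j h => S.π_inj
  ((cong_mono S.pair S.toM (fun _ => Iff.rfl) (fun _ _ => S.mono_tri)
    (fun _ h => S.torus_le_borel (S.mono_one_mem h)) (S.weyl i) (S.weyl j)).1
      ((congrArg (fun x => BN.Cong S.pair (S.φ i sw) x) h).mp (BN.Cong.refl _)))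

end RootData

variable [Fintype F] [CharP F p] [Finite G] {K : Type*} [Group K] [Finite K]

theorem ncard_bc {l : ℕ} (hl : 0 < l) (D : H4.Steinberg.BCData G N F l) (f : G →* K)
    (hf : Function.Surjective f) (hk : f.ker ≤ (bcPairOf (p := p) hl D).P.B ⊓ (bcPairOf (p := p) hl D).P.N) :
    (parsOf (bcPairOf (p := p) hl D) f hf hk ⟨_, ⟨0, hl⟩, rfl⟩).atoms.ncard = l :=
  (ncard_parsOf (bcPairOf (p := p) hl D) f hf hk ⟨_, ⟨0, hl⟩, rfl⟩ D.rootGen.s (s_injective _) rfl).trans
    (Fintype.card_fin l)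

theorem notTrans_bc {l : ℕ} (hl : 3 ≤ l) (D : H4.Steinberg.BCData G N F l) (f : G →* K)
    (hf : Function.Surjective f) (hk : f.ker ≤ (bcPairOf (p := p) (by omega : 0 < l) D).P.B ⊓
      (bcPairOf (p := p) (by omega : 0 < l) D).P.N) :
    (parsOf (bcPairOf (p := p) (by omega : 0 < l) D) f hf hk ⟨_, ⟨0, by omega⟩, rfl⟩).NotTrans := by
  have hN := D.shape.two_le
  have hne : ∀ (x y : Equiv.Perm (Fin N)) (i : Fin N), (x (y i)).val ≠ (y (x i)).val → x * y ≠ y * x :=
    fun x y i h e => h (congrArg Fin.val (Equiv.congr_fun e i))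
  refine notTrans_perm (bcPairOf (p := p) (by omega : 0 < l) D) f hf hk _ D.rootGen.s (s_injective _) rfl
    D.shape.perm (cong_gen D.rootGen) (m := ⟨1, by omega⟩) (a := ⟨0, by omega⟩) (b := ⟨2, by omega⟩)
    (e := ⟨0, by omega⟩) (n := ⟨1, by omega⟩) (by simp) ?_ ?_ ?_
  · refine hne _ _ ⟨0, by omega⟩ ?_
    have e0 : D.shape.perm ⟨0, by omega⟩ ⟨0, by omega⟩ = ⟨1, by omega⟩ := Fin.ext (by
      rw [H4.Steinberg.Shape.perm_val, if_pos (show 0 + 1 < l by omega), if_pos rfl])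
    have e1 : D.shape.perm ⟨1, by omega⟩ ⟨0, by omega⟩ = ⟨0, by omega⟩ := Fin.ext (by
      rw [H4.Steinberg.Shape.perm_val]; split_ifs <;> simp_all <;> omega)
    rw [e0, e1, e0]
    simp only [H4.Steinberg.Shape.perm_val]
    split_ifs <;> simp_all <;> omega
  · refine hne _ _ ⟨1, by omega⟩ ?_
    have e1 : D.shape.perm ⟨1, by omega⟩ ⟨1, by omega⟩ = ⟨2, by omega⟩ := Fin.ext (by
      rw [H4.Steinberg.Shape.perm_val, if_pos (show 1 + 1 < l by omega), if_pos rfl])
    have e2 : D.shape.perm ⟨2, by omega⟩ ⟨1, by omega⟩ = ⟨1, by omega⟩ := Fin.ext (by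
      rw [H4.Steinberg.Shape.perm_val]; split_ifs <;> simp_all <;> omega)
    rw [e2, e1]
    simp only [H4.Steinberg.Shape.perm_val]
    split_ifs <;> simp_all <;> omega
  · intro c hc
    by_contra hne'
    apply hc
    have hc1 : c.val ≠ 1 := fun e => hne' (Fin.ext e)
    have := c.2
    have := D.shape.le_two
    by_cases hc0 : c.val = 0
    · rw [show c = ⟨0, by omega⟩ from Fin.ext hc0]
    refine Equiv.Perm.Disjoint.commute fun i => ?_
    have := i.2
    by_cases h0 : i.val = 0 ∨ i.val = 1 ∨ i.val + 1 = N ∨ i.val + 2 = N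
    · right
      apply Fin.ext
      rw [H4.Steinberg.Shape.perm_val]
      (try dsimp only at *)
      split_ifs <;> omega
    · left
      apply Fin.ext
      rw [H4.Steinberg.Shape.perm_val]
      (try dsimp only at *)
      split_ifs <;> omega

theorem ncard_sl (M : ℕ) (f : Matrix.SpecialLinearGroup (Fin (M + 1 + 1)) F →* K)
    (hf : Function.Surjective f) (hk : f.ker ≤ (slPairOf (F := F) (p := p) M).P.B ⊓ (slPairOf (F := F) (p := p) M).P.N) :
    (parsOf (slPairOf (F := F) (p := p) M) f hf hk ⟨_, 0, rfl⟩).atoms.ncard = M + 1 :=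
  (ncard_parsOf (slPairOf (F := F) (p := p) M) f hf hk ⟨_, 0, rfl⟩ _ (data_injective (H2.St.slData (M + 1) F))
    rfl).trans (Fintype.card_fin _)

theorem notTrans_sl (M : ℕ) (hM : 2 ≤ M) (f : Matrix.SpecialLinearGroup (Fin (M + 1 + 1)) F →* K)
    (hf : Function.Surjective f) (hk : f.ker ≤ (slPairOf (F := F) (p := p) M).P.B ⊓ (slPairOf (F := F) (p := p) M).P.N) :
    (parsOf (slPairOf (F := F) (p := p) M) f hf hk ⟨_, 0, rfl⟩).NotTrans := by
  refine notTrans_perm (slPairOf (F := F) (p := p) M) f hf hk _ _ (data_injective (H2.St.slData (M + 1) F)) rfl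
    (fun k : Fin (M + 1) => Equiv.swap k.castSucc k.succ) (cong_data (H2.St.slData (M + 1) F))
    (m := ⟨1, by omega⟩) (a := ⟨0, by omega⟩) (b := ⟨2, by omega⟩) (e := ⟨0, by omega⟩) (n := ⟨1, by omega⟩)
    (by simp) ?_ ?_ ?_
  · intro e
    have := congrArg Fin.val (Equiv.congr_fun e ⟨0, by omega⟩)
    simp [H4.Steinberg.Shape.swap_val] at this
  · intro e
    have := congrArg Fin.val (Equiv.congr_fun e ⟨1, by omega⟩)
    simp [H4.Steinberg.Shape.swap_val] at this
  · intro c hc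
    by_contra hne'
    apply hc
    have hc1 : c.val ≠ 1 := fun e => hne' (Fin.ext e)
    have := c.2
    by_cases hc0 : c.val = 0
    · rw [show c = ⟨0, by omega⟩ from Fin.ext hc0]
    refine Equiv.Perm.Disjoint.commute fun i => ?_
    have := i.2
    by_cases h0 : i.val ≤ 1
    · right
      apply Fin.ext
      simp only [H4.Steinberg.Shape.swap_val, Fin.val_castSucc, Fin.val_succ]
      (try dsimp only at *)
      split_ifs <;> omega
    · left
      apply Fin.ext
      simp only [H4.Steinberg.Shape.swap_val, Fin.val_castSucc, Fin.val_succ]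
      (try dsimp only at *)
      split_ifs <;> omega

theorem ncard_sp (M : ℕ) [Finite (Matrix.symplecticGroup (Fin (M + 1)) F)]
    (f : Matrix.symplecticGroup (Fin (M + 1)) F →* K)
    (hf : Function.Surjective f) (hk : f.ker ≤ (spPairOf (F := F) (p := p) M).P.B ⊓ (spPairOf (F := F) (p := p) M).P.N) :
    (parsOf (spPairOf (F := F) (p := p) M) f hf hk ⟨_, 0, rfl⟩).atoms.ncard = M + 1 :=
  (ncard_parsOf (spPairOf (F := F) (p := p) M) f hf hk ⟨_, 0, rfl⟩ _ (data_injective (H2.St.spData M F))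
    rfl).trans (Fintype.card_fin _)

theorem notTrans_sp (M : ℕ) (hM : 2 ≤ M) [Finite (Matrix.symplecticGroup (Fin (M + 1)) F)]
    (f : Matrix.symplecticGroup (Fin (M + 1)) F →* K)
    (hf : Function.Surjective f) (hk : f.ker ≤ (spPairOf (F := F) (p := p) M).P.B ⊓ (spPairOf (F := F) (p := p) M).P.N) :
    (parsOf (spPairOf (F := F) (p := p) M) f hf hk ⟨_, 0, rfl⟩).NotTrans := by
  refine notTrans_perm (spPairOf (F := F) (p := p) M) f hf hk _ _ (data_injective (H2.St.spData M F)) rfl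
    (fun k : Fin (M + 1) => H2.St.spPerm M k) ?_
    (m := ⟨1, by omega⟩) (a := ⟨0, by omega⟩) (b := ⟨2, by omega⟩) (e := ⟨0, by omega⟩) (n := ⟨1, by omega⟩)
    (by simp) ?_ ?_ ?_
  · intro i j
    refine (cong_data (H2.St.spData M F) i j).trans ?_
    show (H2.St.spIdx (M + 1)).permCongr (H2.St.spPerm M i) * (H2.St.spIdx (M + 1)).permCongr (H2.St.spPerm M j) =
      (H2.St.spIdx (M + 1)).permCongr (H2.St.spPerm M j) * (H2.St.spIdx (M + 1)).permCongr (H2.St.spPerm M i) ↔ _
    rw [← Equiv.permCongr_mul, ← Equiv.permCongr_mul]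
    exact (Equiv.permCongr _).injective.eq_iff
  · intro e
    have := Equiv.congr_fun e (.inl ⟨0, by omega⟩)
    simp [H2.St.spPerm, show 1 + 1 < M + 1 by omega, show 0 < M by omega, Equiv.swap_apply_def, Fin.ext_iff] at this
  · intro e
    have := Equiv.congr_fun e (.inl ⟨1, by omega⟩)
    by_cases h2 : 2 + 1 < M + 1 <;>
      simp [H2.St.spPerm, show 1 + 1 < M + 1 by omega, h2, Equiv.swap_apply_def, Fin.ext_iff] at this
  · intro c hc
    by_contra hne'
    apply hc
    have hc1 : c.val ≠ 1 := fun e => hne' (Fin.ext e)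
    have := c.2
    by_cases hc0 : c.val = 0
    · rw [show c = ⟨0, by omega⟩ from Fin.ext hc0]
    refine Equiv.Perm.Disjoint.commute fun x => ?_
    have hc2 : 2 ≤ c.val := by omega
    rcases x with j | j <;> by_cases h0 : j.val ≤ 1
    all_goals first
      | (right
         rw [H2.St.spPerm]
         split_ifs with hcl <;>
           simp only [Equiv.sumCongr_apply, Sum.map_inl, Sum.map_inr, Equiv.swap_apply_def, Sum.inl.injEq,
             Sum.inr.injEq, Fin.ext_iff, reduceCtorEq, if_false] <;>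
           (try split_ifs) <;> first | rfl | omega)
      | (left
         rw [H2.St.spPerm, dif_pos (show 0 + 1 < M + 1 by omega)]
         simp only [Equiv.sumCongr_apply, Sum.map_inl, Sum.map_inr, Equiv.swap_apply_def, Sum.inl.injEq,
             Sum.inr.injEq, Fin.ext_iff, reduceCtorEq, if_false] <;>
           (try split_ifs) <;> first | rfl | omega)

open Cfsg.Agent.H2.St.Plus in
theorem ncard_plus (M : ℕ) (hq : Nat.card F ≠ 2 ∨ Module.finrank F (Fin (M + 2) ⊕ Fin (M + 2) → F) ≠ 4)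
    [Finite (commutator (H5.orth (H5.qPlus (M + 2) F)))] (f : commutator (H5.orth (H5.qPlus (M + 2) F)) →* K)
    (hf : Function.Surjective f) (hk : f.ker ≤ (plusPairOf (p := p) M hq).P.B ⊓ (plusPairOf (p := p) M hq).P.N) :
    (parsOf (plusPairOf (p := p) M hq) f hf hk ⟨_, 0, rfl⟩).atoms.ncard = M + 2 :=
  (ncard_parsOf (plusPairOf (p := p) M hq) f hf hk ⟨_, 0, rfl⟩ _ (sys_injective (plusData M F hq))
    rfl).trans (Fintype.card_fin _)

open Cfsg.Agent.H2.St.Plus in
theorem notTrans_plus (M : ℕ) (hM : 2 ≤ M)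
    (hq : Nat.card F ≠ 2 ∨ Module.finrank F (Fin (M + 2) ⊕ Fin (M + 2) → F) ≠ 4)
    [Finite (commutator (H5.orth (H5.qPlus (M + 2) F)))] (f : commutator (H5.orth (H5.qPlus (M + 2) F)) →* K)
    (hf : Function.Surjective f) (hk : f.ker ≤ (plusPairOf (p := p) M hq).P.B ⊓ (plusPairOf (p := p) M hq).P.N) :
    (parsOf (plusPairOf (p := p) M hq) f hf hk ⟨_, 0, rfl⟩).NotTrans := by
  refine notTrans_perm (plusPairOf (p := p) M hq) f hf hk _ _ (sys_injective (plusData M F hq)) rfl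
    (fun k : Fin (M + 2) => perm k) (cong_sys (plusData M F hq))
    (m := ⟨1, by omega⟩) (a := ⟨0, by omega⟩) (b := ⟨2, by omega⟩) (e := ⟨0, by omega⟩) (n := ⟨1, by omega⟩)
    (by simp) ?_ ?_ ?_
  · intro e
    obtain ⟨a1, a2, -, a4, a5⟩ := pos_facts (⟨1, by omega⟩ : Fin (M + 2))
    obtain ⟨b1, b2, -, b4, b5⟩ := pos_facts (⟨0, by omega⟩ : Fin (M + 2))
    have h := congrArg Fin.val (Equiv.congr_fun e ⟨0, by omega⟩)
    have f1 : perm (⟨0, by omega⟩ : Fin (M + 2)) ⟨0, by omega⟩ = p1 (⟨1, by omega⟩ : Fin (M + 2)) := by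
      rw [show (⟨0, by omega⟩ : Fin (M + 2 + (M + 2))) = p1 (⟨0, by omega⟩ : Fin (M + 2)) from
        Fin.ext (by simp only at *; omega), perm_p1]
      exact Fin.ext (by simp only at *; omega)
    have f2 : perm (⟨1, by omega⟩ : Fin (M + 2)) ⟨0, by omega⟩ = ⟨0, by omega⟩ := by
      rcases perm_val (⟨1, by omega⟩ : Fin (M + 2)) ⟨0, by omega⟩ with ⟨x, y⟩ | ⟨x, y⟩ | ⟨x, y⟩ | ⟨x, y⟩ | ⟨-, -, -, -, y⟩
      all_goals first | exact y | (have := congrArg Fin.val x; simp only at *; omega)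
    rw [Equiv.Perm.mul_apply, Equiv.Perm.mul_apply, f1, f2, f1, perm_p1] at h
    omega
  · intro e
    obtain ⟨a1, a2, -, a4, a5⟩ := pos_facts (⟨1, by omega⟩ : Fin (M + 2))
    obtain ⟨b1, b2, -, b4, b5⟩ := pos_facts (⟨2, by omega⟩ : Fin (M + 2))
    have h := congrArg Fin.val (Equiv.congr_fun e ⟨1, by omega⟩)
    have e1 : (⟨1, by omega⟩ : Fin (M + 2 + (M + 2))) = p1 (⟨1, by omega⟩ : Fin (M + 2)) :=
      Fin.ext (by simp only at *; omega)
    have f1 : perm (⟨1, by omega⟩ : Fin (M + 2)) ⟨1, by omega⟩ = p1 (⟨2, by omega⟩ : Fin (M + 2)) := by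
      rw [e1, perm_p1]
      exact Fin.ext (by simp only at *; omega)
    have f2 : perm (⟨2, by omega⟩ : Fin (M + 2)) ⟨1, by omega⟩ = ⟨1, by omega⟩ := by
      rcases perm_val (⟨2, by omega⟩ : Fin (M + 2)) ⟨1, by omega⟩ with ⟨x, y⟩ | ⟨x, y⟩ | ⟨x, y⟩ | ⟨x, y⟩ | ⟨-, -, -, -, y⟩
      all_goals first | exact y | (have := congrArg Fin.val x; simp only at *; omega)
    rw [Equiv.Perm.mul_apply, Equiv.Perm.mul_apply, f2, f1, perm_p1] at h
    simp only at *
    omega
  · intro c hc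
    by_contra hne'
    apply hc
    have hc1 : c.val ≠ 1 := fun e => hne' (Fin.ext e)
    have := c.2
    by_cases hc0 : c.val = 0
    · rw [show c = ⟨0, by omega⟩ from Fin.ext hc0]
    obtain ⟨a1, a2, -, a4, a5⟩ := pos_facts (⟨0, by omega⟩ : Fin (M + 2))
    obtain ⟨b1, b2, -, b4, b5⟩ := pos_facts c
    refine Equiv.Perm.Disjoint.commute fun i => ?_
    rcases perm_val (⟨0, by omega⟩ : Fin (M + 2)) i with ⟨u, -⟩ | ⟨u, -⟩ | ⟨u, -⟩ | ⟨u, -⟩ | ⟨-, -, -, -, v⟩
    all_goals first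
      | exact Or.inl v
      | (refine Or.inr ?_
         rcases perm_val c i with ⟨x, -⟩ | ⟨x, -⟩ | ⟨x, -⟩ | ⟨x, -⟩ | ⟨-, -, -, -, y⟩
         all_goals first
           | exact y
           | (have := congrArg Fin.val u; have := congrArg Fin.val x; simp only at *; omega))

end Cfsg.Agent.H64.PMin
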