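import Cfsg.Agent.H64.PMin.Degree
import Cfsg.Agent.H64.Chev.AutMain
import Cfsg.Agent.H46.TwistOrder
import Cfsg.Agent.H70.F4Out.Cells

/-!
# The exceptional families
-/

set_option autoImplicit false
set_option maxRecDepth 100000

namespace Cfsg.Agent.H64.PMin

open Cfsg Cfsg.Lie Cfsg.Agent.H8 Cfsg.Agent.H46 Cfsg.Agent.H91.Overgroup
open scoped Matrix MatrixGroups

variable {F : Type*} [Field F] [Fintype F] {p : ℕ} [Fact p.Prime] [CharP F p]

section Chev

variable {D : ChevalleyDatum} (G : Good D)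

/-- A simple reflection. -/
noncomputable def refl (i : Fin D.rank) : ↥(D.group F) := ⟨G.ng (D.simple i) 1, G.ng_mem_group _ _⟩

theorem range_refl (hr : 0 < D.rank) : Set.range (refl (F := F) G) = (chevPairOf G hr (F := F) p).P.S := by
  ext n
  constructor
  · rintro ⟨i, rfl⟩
    exact ⟨i, i.2, G.coe_ng _ _⟩
  · rintro ⟨i, hi, hn⟩
    exact ⟨⟨i, hi⟩, Subtype.ext (G.eq_ng hn).symm⟩

theorem cong_chev (hr : 0 < D.rank) {g h : ↥(D.group F)} (hg : (g : GL D.Idx F) ∈ D.monomialSubgroup F)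
    (hh : (h : GL D.Idx F) ∈ D.monomialSubgroup F) :
    BN.Cong (chevPairOf G hr (F := F) p).P g h ↔ G.perm (g : GL D.Idx F) = G.perm (h : GL D.Idx F) := by
  show ((g⁻¹ * h : ↥(D.group F)) : GL D.Idx F) ∈ D.borelSubgroup F ↔ _
  rw [Subgroup.coe_mul, Subgroup.coe_inv]
  have hm := mul_mem (inv_mem hg) hh
  constructor
  · intro h'
    have hd : (g : GL D.Idx F)⁻¹ * (h : GL D.Idx F) ∈ D.diagonalSubgroup F := by
      rw [← G.borel_inf_monomial]; exact ⟨h', hm⟩
    have e := G.perm_diagonal hd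
    rwa [G.perm_mul (inv_mem hg) hh, G.perm_inv hg, inv_mul_eq_one] at e
  · intro e
    have : (g : GL D.Idx F)⁻¹ * (h : GL D.Idx F) ∈ D.diagonalSubgroup F :=
      (G.perm_eq_one_iff hm).1 (by rw [G.perm_mul (inv_mem hg) hh, G.perm_inv hg, e, inv_mul_cancel])
    exact Subgroup.mem_sup_right this

theorem refl_mem (i : Fin D.rank) : (refl (F := F) G i : GL D.Idx F) ∈ D.monomialSubgroup F :=
  G.ng_mem_monomial (G.simple_lt i.2)

theorem perm_refl (i : Fin D.rank) : G.perm (refl (F := F) G i : GL D.Idx F) = G.sPerm i := G.perm_ng_simple i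

theorem refl_injective (hr : 0 < D.rank) : Function.Injective (refl (F := F) G) := fun i j h => by
  refine Good.sPerm_injective G ?_
  show G.sPerm i = G.sPerm j
  rw [← perm_refl (F := F) G i, ← perm_refl (F := F) G j, h]

theorem cong_refl (hr : 0 < D.rank) (i j : Fin D.rank) :
    BN.Cong (chevPairOf G hr (F := F) p).P (refl G i * refl G j) (refl G j * refl G i) ↔
      G.sPerm i * G.sPerm j = G.sPerm j * G.sPerm i := by
  rw [cong_chev G hr (by rw [Subgroup.coe_mul]; exact mul_mem (refl_mem G i) (refl_mem G j))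
    (by rw [Subgroup.coe_mul]; exact mul_mem (refl_mem G j) (refl_mem G i)), Subgroup.coe_mul, Subgroup.coe_mul,
    G.perm_mul (refl_mem G i) (refl_mem G j), G.perm_mul (refl_mem G j) (refl_mem G i), perm_refl, perm_refl]

/-- The pair of simple reflections commute on roots. -/
def commB (D : ChevalleyDatum) (i j : ℕ) : Bool :=
  (List.range D.nroots).all fun r => D.reflectRoot i (D.reflectRoot j r) == D.reflectRoot j (D.reflectRoot i r)

theorem commB_iff (i j : Fin D.rank) :
    commB D i j = true ↔ G.sPerm i * G.sPerm j = G.sPerm j * G.sPerm i := by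
  simp only [commB, List.all_eq_true, List.mem_range, beq_iff_eq]
  constructor
  · intro h
    exact Equiv.ext fun r => Fin.ext (h r r.2)
  · intro h r hr
    exact congrArg Fin.val (Equiv.congr_fun h ⟨r, hr⟩)

/-- The degree check of a diagram. -/
def degB (D : ChevalleyDatum) (m a b e n : ℕ) : Bool :=
  decide (m < D.rank ∧ a < D.rank ∧ b < D.rank ∧ e < D.rank ∧ n < D.rank ∧ a ≠ b) && !commB D m a &&
    !commB D m b && (List.range D.rank).all fun c => commB D e c || c == n

theorem notTrans_chev {K : Type*} [Group K] [Finite K] (hr : 0 < D.rank) (f : ↥(D.group F) →* K)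
    (hf : Function.Surjective f) (hk : f.ker ≤ (chevPairOf G hr (F := F) p).P.B ⊓ (chevPairOf G hr (F := F) p).P.N)
    (hS : (chevPairOf G hr (F := F) p).P.S.Nonempty) {m a b e n : ℕ} (hdeg : degB D m a b e n = true) :
    (parsOf (chevPairOf G hr (F := F) p) f hf hk hS).NotTrans := by
  simp only [degB, Bool.and_eq_true, decide_eq_true_eq, Bool.not_eq_true', List.all_eq_true, List.mem_range,
    Bool.or_eq_true, beq_iff_eq] at hdeg
  obtain ⟨⟨⟨⟨h1, h2, h3, h4, h5, hab⟩, hma⟩, hmb⟩, hone⟩ := hdeg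
  refine notTrans_perm (chevPairOf G hr (F := F) p) f hf hk hS (refl G) (refl_injective G hr) (range_refl G hr)
    G.sPerm (cong_refl G hr) (m := ⟨m, h1⟩) (a := ⟨a, h2⟩) (b := ⟨b, h3⟩) (e := ⟨e, h4⟩) (n := ⟨n, h5⟩)
    (fun h => hab (congrArg Fin.val h)) ?_ ?_ ?_
  · intro h; rw [← commB_iff G ⟨m, h1⟩ ⟨a, h2⟩, hma] at h; exact Bool.false_ne_true h
  · intro h; rw [← commB_iff G ⟨m, h1⟩ ⟨b, h3⟩, hmb] at h; exact Bool.false_ne_true h
  · intro c hc
    rcases hone c c.2 with h | h
    · exact absurd ((commB_iff G ⟨e, h4⟩ c).1 h) hc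
    · exact Fin.ext h

theorem degB_F4 : degB chevF4 1 0 2 0 1 = true := by decide +kernel
theorem degB_E6 : degB chevE6 3 2 4 0 2 = true := by decide +kernel
theorem degB_E7 : degB chevE7 3 2 4 0 2 = true := by decide +kernel
theorem degB_E8 : degB chevE8 3 2 4 0 2 = true := by decide +kernel

end Chev

open Cfsg.Agent.H64.AutChev in
theorem notTrans_G2 (hp : p = 2) (hq : 3 ≤ Fintype.card F)
    (hk : (MonoidHom.id ↥(chevG2.group F)).ker ≤ (chevPairOf goodG2 (by decide +kernel) (F := F) p).P.B ⊓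
      (chevPairOf goodG2 (by decide +kernel) (F := F) p).P.N)
    (hS : (chevPairOf goodG2 (by decide +kernel) (F := F) p).P.S.Nonempty) :
    (parsOf (chevPairOf goodG2 (by decide +kernel) (F := F) p) (MonoidHom.id ↥(chevG2.group F))
      Function.surjective_id hk hS).NotTrans := by
  subst hp
  have hchar : CharP F 2 := by assumption
  have hr : 0 < chevG2.rank := by decide +kernel
  set D := chevPairOf goodG2 hr (F := F) 2 with hD
  set s : Fin chevG2.rank := ⟨0, by decide +kernel⟩ with hs0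
  set l : Fin chevG2.rank := ⟨1, by decide +kernel⟩ with hl1
  have hsl : s ≠ l := by decide
  have hmemS : ∀ i, refl (F := F) goodG2 i ∈ D.P.S := fun i => range_refl (F := F) (p := 2) goodG2 hr ▸ Set.mem_range_self i
  refine ⟨_, ⟨refl goodG2 s, hmemS s, rfl⟩, _, ⟨refl goodG2 l, hmemS l, rfl⟩, fun θ hθ he => ?_⟩
  simp only [img1, Subgroup.map_id] at he
  have hfix : (D.U).map θ.toMonoidHom = D.U := by
    have e : ((parsOf D (MonoidHom.id ↥(chevG2.group F)) Function.surjective_id hk hS).U : Subgroup _) = D.U := by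
      show Subgroup.map (MonoidHom.id ↥(chevG2.group F)) (D.exists_sylow.choose : Subgroup _) = _
      rw [Subgroup.map_id, D.exists_sylow.choose_spec]
    have := hθ
    unfold Pars.Fixes at this
    rwa [e] at this
  haveI : CharP F (ringChar F) := ringChar.charP F
  haveI : Fact (ringChar F).Prime := ⟨CharP.char_is_prime F (ringChar F)⟩
  obtain ⟨x, hU, hV⟩ := normalise goodG2 θ
  have hxB : x ∈ D.P.B := by
    rw [← D.normalizer_eq, Subgroup.mem_normalizer_iff]
    have hsub : ∀ K : Subgroup (GL chevG2.Idx F), K ≤ chevG2.group F →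
        (im (θ.trans (MulAut.conj x)) K).subgroupOf (chevG2.group F) =
          ((K.subgroupOf (chevG2.group F)).map θ.toMonoidHom).map (MulAut.conj x).toMonoidHom := fun K _ => by
      rw [im, Subgroup.subgroupOf, Subgroup.comap_map_eq_self_of_injective Subtype.val_injective,
        Subgroup.map_map]
      rfl
    have hle : chevG2.posUnipotent F ≤ chevG2.group F :=
      fun v hv => goodG2.borel_le_group (Subgroup.mem_sup_left hv)
    have e : (D.U.map θ.toMonoidHom).map (MulAut.conj x).toMonoidHom = D.U := by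
      rw [show D.U = (chevG2.posUnipotent F).subgroupOf (chevG2.group F) from rfl, ← hsub _ hle, hU]
    rw [hfix] at e
    intro u
    constructor
    · intro hu
      exact e ▸ (⟨u, hu, rfl⟩ : x * u * x⁻¹ ∈ D.U.map (MulAut.conj x).toMonoidHom)
    · intro hu
      rw [← e] at hu
      obtain ⟨v, hv, ev⟩ := hu
      rwa [show u = v from (MulAut.conj x).injective (by simpa using ev.symm)]
  set θ' := θ.trans (MulAut.conj x) with hθ'
  obtain ⟨π, f, A⟩ := exists_acts goodG2 hr θ' hU hV
  have hdec := Chev.chkDec_of_mem (D := chevG2) (by simp)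
  have hP : ∀ i t, goodG2.xG (chevG2.neg (chevG2.simple i)) t ∈ D.P.parabolic {refl (F := F) goodG2 i} →
      True := fun _ _ _ => trivial
  -- the negative root group of a node lies in its parabolic
  have hneg : ∀ (i : Fin chevG2.rank) (t : F),
      goodG2.xG (chevG2.neg (chevG2.simple i)) t ∈ D.P.parabolic {refl (F := F) goodG2 i} := by
    intro i t
    set P := D.P.parabolic {refl (F := F) goodG2 i}
    have hB : ∀ u, goodG2.xG (chevG2.simple i) u ∈ P := fun u => BN.B_le_parabolic _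
      (show goodG2.xG (chevG2.simple i) u ∈ (chevG2.borelSubgroup F).subgroupOf (chevG2.group F) from
        goodG2.xg_mem_borel (goodG2.isPosRoot_simple i.2) u)
    by_cases ht : t = 0
    · subst ht
      have : goodG2.xG (chevG2.neg (chevG2.simple i)) (0 : F) = 1 :=
        Subtype.ext ((goodG2.xg_eq_one_iff (goodG2.neg_lt (goodG2.simple_lt i.2)) (0 : F)).2 rfl)
      rw [this]
      exact one_mem _
    set a : F := -t⁻¹ with ha
    have hna : (⟨goodG2.ng (chevG2.simple i) a, goodG2.ng_mem_group _ _⟩ : ↥(chevG2.group F)) ∈ P := by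
      have e := goodG2.ng_eq_hg_mul (r := chevG2.simple i) a
      have hh : (⟨goodG2.ng (chevG2.simple i) a, goodG2.ng_mem_group _ _⟩ : ↥(chevG2.group F)) *
          (refl (F := F) goodG2 i)⁻¹ ∈ (chevG2.borelSubgroup F).subgroupOf (chevG2.group F) := by
        rw [Subgroup.mem_subgroupOf, Subgroup.coe_mul, Subgroup.coe_inv]
        show goodG2.ng (chevG2.simple i) a * (goodG2.ng (chevG2.simple i) 1)⁻¹ ∈ _
        rw [e, mul_inv_cancel_right]
        exact Subgroup.mem_sup_right (goodG2.hg_mem_diagonal (goodG2.simple_lt i.2) (neg_ne_zero.2 (inv_ne_zero ht)))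
      have := mul_mem ((BN.B_le_parabolic (P := D.P) {refl (F := F) goodG2 i}) hh)
        (BN.subset_parabolic (P := D.P) _ (Set.mem_singleton (refl (F := F) goodG2 i)))
      rwa [inv_mul_cancel_right] at this
    have e2 : goodG2.xG (chevG2.neg (chevG2.simple i)) t =
        (goodG2.xG (chevG2.simple i) a)⁻¹ * ⟨goodG2.ng (chevG2.simple i) a, goodG2.ng_mem_group _ _⟩ *
          (goodG2.xG (chevG2.simple i) a)⁻¹ := by
      apply Subtype.ext
      show goodG2.xg (chevG2.neg (chevG2.simple i)) t =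
        (goodG2.xg (chevG2.simple i) a)⁻¹ * goodG2.ng (chevG2.simple i) a * (goodG2.xg (chevG2.simple i) a)⁻¹
      rw [Good.ng, show -a⁻¹ = t by rw [ha, inv_neg, neg_neg, inv_inv]]
      group
    rw [e2]
    exact mul_mem (mul_mem (inv_mem (hB a)) hna) (inv_mem (hB a))
  have key : ∀ z : Fin chevG2.rank, z ≠ l → z = s := by
    rintro ⟨v, hv⟩ hne
    have : v < 2 := hv
    interval_cases v
    · rfl
    · exact absurd rfl hne
  have key' : ∀ z : Fin chevG2.rank, z ≠ s → z = l := fun z hz => by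
    by_contra h
    exact hz (key z h)
  have hπl : π s = l := by
    by_contra hne
    have hπs : π s = s := by
      exact key _ hne
    have hm : θ' (goodG2.xG (chevG2.neg (chevG2.simple s)) 1) ∈ D.P.parabolic {refl (F := F) goodG2 l} := by
      have h1 : θ (goodG2.xG (chevG2.neg (chevG2.simple s)) 1) ∈ D.P.parabolic {refl (F := F) goodG2 l} :=
        he ▸ (⟨_, hneg s 1, rfl⟩ : θ _ ∈ (D.P.parabolic {refl (F := F) goodG2 s}).map θ.toMonoidHom)
      exact mul_mem (mul_mem (BN.B_le_parabolic _ hxB) h1) (inv_mem (BN.B_le_parabolic _ hxB))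
    rw [A.neg, hπs] at hm
    set u : F := -(f s (-(1 : F)⁻¹))⁻¹ with hu
    have hu0 : u ≠ 0 := neg_ne_zero.2 (inv_ne_zero (A.map_ne_zero s (by simp)))
    set a : F := -u⁻¹ with ha
    have hB : goodG2.xG (chevG2.simple s) a ∈ D.P.parabolic {refl (F := F) goodG2 l} := BN.B_le_parabolic _
      (show goodG2.xG (chevG2.simple s) a ∈ (chevG2.borelSubgroup F).subgroupOf (chevG2.group F) from
        goodG2.xg_mem_borel (goodG2.isPosRoot_simple s.2) a)
    have hn : (⟨goodG2.ng (chevG2.simple s) a, goodG2.ng_mem_group _ _⟩ : ↥(chevG2.group F)) ∈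
        D.P.parabolic {refl (F := F) goodG2 l} := by
      have e2 : (⟨goodG2.ng (chevG2.simple s) a, goodG2.ng_mem_group _ _⟩ : ↥(chevG2.group F)) =
          goodG2.xG (chevG2.simple s) a * goodG2.xG (chevG2.neg (chevG2.simple s)) u * goodG2.xG (chevG2.simple s) a := by
        apply Subtype.ext
        show goodG2.ng (chevG2.simple s) a = goodG2.xg _ a * goodG2.xg _ u * goodG2.xg _ a
        rw [Good.ng, show -a⁻¹ = u by rw [ha, inv_neg, neg_neg, inv_inv]]
      rw [e2]
      exact mul_mem (mul_mem hB hm) hB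
    have hs' : refl (F := F) goodG2 s ∈ D.P.parabolic {refl (F := F) goodG2 l} := by
      have hh : refl (F := F) goodG2 s * (⟨goodG2.ng (chevG2.simple s) a, goodG2.ng_mem_group _ _⟩ :
          ↥(chevG2.group F))⁻¹ ∈ (chevG2.borelSubgroup F).subgroupOf (chevG2.group F) := by
        rw [Subgroup.mem_subgroupOf, Subgroup.coe_mul, Subgroup.coe_inv]
        show goodG2.ng (chevG2.simple s) 1 * (goodG2.ng (chevG2.simple s) a)⁻¹ ∈ _
        rw [goodG2.ng_eq_hg_mul (r := chevG2.simple s) a, mul_inv_rev, mul_inv_cancel_left]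
        exact Subgroup.mem_sup_right (inv_mem (goodG2.hg_mem_diagonal (goodG2.simple_lt s.2)
          (neg_ne_zero.2 (inv_ne_zero hu0))))
      have := mul_mem ((BN.B_le_parabolic (P := D.P) {refl (F := F) goodG2 l}) hh) hn
      rwa [inv_mul_cancel_right] at this
    exact hsl (refl_injective goodG2 hr (BN.mem_of_mem_parabolic (Set.singleton_subset_iff.2 (hmemS l)) (hmemS s) hs'))
  have hπs : π l = s := by
    have : π l ≠ l := fun e => hsl (π.injective (hπl.trans e.symm))
    exact key _ this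
  obtain ⟨χ, hχ, f', A', h1⟩ := A.normalise_one hdec
  have ha : chevG2.cartan l (chevG2.simple s) = -1 := by decide +kernel
  have hb : chevG2.cartan (π l) (chevG2.simple (π s)) = -((3 : ℕ) : ℤ) := by rw [hπl, hπs]; decide +kernel
  obtain ⟨hpw, -⟩ := A'.edge_pow h1 ha hb (by norm_num)
  have h2 : (2 : F) = 0 := by exact_mod_cast @CharP.cast_eq_zero F _ 2 hchar
  rcases two_or_three_eq_zero A' h1 hpw with h3 | ⟨-, h01⟩
  · exact one_ne_zero (show (1 : F) = 0 by linear_combination h3 - h2)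
  · classical
    have hsub : (Finset.univ : Finset F) ⊆ {0, 1} := fun t _ => by rcases h01 t with h | h <;> simp [h]
    have h4 := (Finset.card_le_card hsub).trans Finset.card_le_two
    rw [Finset.card_univ] at h4
    omega

section Twisted

/-- The order of a minimal parabolic of a twisted group. -/
theorem card_parabolic_twist {Γ ι : Type*} [Group Γ] (T : H47.TwistData Γ ι) [Finite ↥T.G1]
    (hinj : ∀ i j, (T.nS i)⁻¹ * T.nS j ∈ T.H → i = j) (hne : ∀ j, ∃ x ∈ T.X1 j, x ≠ 1) (j : ι) (s : ↥T.G1)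
    (hs : (s : Γ) = T.nS j) :
    Nat.card ↥((T.bnPair hinj hne).parabolic {s}) = Nat.card ↥T.B1 * (1 + Nat.card ↥(T.X1 j)) := by
  set P := T.bnPair hinj hne with hP
  have hsS : s ∈ P.S := ⟨j, hs⟩
  have hset : (P.parabolic {s} : Set ↥T.G1) = (P.B : Set ↥T.G1) ∪ BN.cell P s :=
    Set.ext fun g => mem_singleton_iff hsS
  have hdisj : Disjoint (P.B : Set ↥T.G1) (BN.cell P s) := Set.disjoint_left.2 fun g hg hg' => by
    obtain ⟨a, ha, b, hb, rfl⟩ := BN.mem_cell.1 hg'
    exact BN.s_not_mem_B hsS ((Subgroup.mul_mem_cancel_left _ ha).1 ((Subgroup.mul_mem_cancel_right _ hb).1 hg))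
  have hB : Nat.card ↥P.B = Nat.card ↥T.B1 := Nat.card_congr (Subgroup.subgroupOfEquivOfLe T.B1_le_G1).toEquiv
  have hcell : Nat.card ↥(BN.cell P s) = Nat.card ↥(T.cell (T.nS j)) := by
    refine Nat.card_congr (Equiv.ofBijective (fun g => ⟨((g : ↥T.G1) : Γ), ?_⟩) ⟨fun g h e =>
      Subtype.ext (Subtype.ext (congrArg (fun z : ↥(T.cell (T.nS j)) => (z : Γ)) e)), fun g => ?_⟩)
    · obtain ⟨a, ha, b, hb, e⟩ := BN.mem_cell.1 g.2
      exact (T.mem_cell_iff (T.nS_mem_N0 j)).2 ⟨a, ha, b, hb, by rw [← hs, ← Subgroup.coe_mul, ← Subgroup.coe_mul, e]⟩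
    · obtain ⟨a, ha, b, hb, e⟩ := (T.mem_cell_iff (T.nS_mem_N0 j)).1 g.2
      refine ⟨⟨⟨a, T.B1_le_G1 ha⟩ * s * ⟨b, T.B1_le_G1 hb⟩,
        BN.mem_cell.2 ⟨⟨a, T.B1_le_G1 ha⟩, ha, ⟨b, T.B1_le_G1 hb⟩, hb, rfl⟩⟩, Subtype.ext ?_⟩
      show a * (s : Γ) * b = g
      rw [hs, e]
  show Nat.card (P.parabolic {s} : Set ↥T.G1) = _
  rw [hset, Nat.card_coe_set_eq, Set.ncard_union_eq hdisj, ← Nat.card_coe_set_eq, ← Nat.card_coe_set_eq]
  show Nat.card ↥P.B + Nat.card ↥(BN.cell P s) = _
  rw [hB, hcell, T.card_cell (T.nS_mem_N0 j), H70.F4Out.U1w_nS T hne]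
  ring

theorem perm_orbit {D : ChevalleyDatum} {T : GraphData D} {G : Good D} (h : T.Ok G) (C : CoxData G) (f : F →+* F)
    (hm : 0 < T.m) (i j : Fin T.m) (si sj : ↥(T.tdata h C f).G1)
    (hi : (si : GL D.Idx F) = (T.tdata h C f).nS i) (hj : (sj : GL D.Idx F) = (T.tdata h C f).nS j) :
    BN.Cong (graphPairOf (F := F) p h C f hm).P (si * sj) (sj * si) ↔
      ((T.orb i).map G.sPerm).prod * ((T.orb j).map G.sPerm).prod =
        ((T.orb j).map G.sPerm).prod * ((T.orb i).map G.sPerm).prod := by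
  have hmi : (si : GL D.Idx F) ∈ D.monomialSubgroup F := hi ▸ (T.tdata h C f).N0_le_N ((T.tdata h C f).nS_mem_N0 i)
  have hmj : (sj : GL D.Idx F) ∈ D.monomialSubgroup F := hj ▸ (T.tdata h C f).N0_le_N ((T.tdata h C f).nS_mem_N0 j)
  have hpi : G.perm (si : GL D.Idx F) = ((T.orb i).map G.sPerm).prod := by
    rw [hi, T.tdata_nS h C f, T.perm_nPar_one h]
  have hpj : G.perm (sj : GL D.Idx F) = ((T.orb j).map G.sPerm).prod := by
    rw [hj, T.tdata_nS h C f, T.perm_nPar_one h]
  have hm' := mul_mem (inv_mem (mul_mem hmi hmj)) (mul_mem hmj hmi)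
  show ((si * sj)⁻¹ * (sj * si) : ↥(T.tdata h C f).G1) ∈ (T.twistBN h C f).B ↔ _
  have hB : (T.twistBN h C f).B = (D.borelSubgroup F ⊓ (T.tdata h C f).G1).subgroupOf (T.tdata h C f).G1 := by
    rw [T.inf_B_G1 h C f]; rfl
  rw [hB, Subgroup.mem_subgroupOf, Subgroup.mem_inf, Subgroup.coe_mul, Subgroup.coe_inv, Subgroup.coe_mul,
    Subgroup.coe_mul, and_iff_left (mul_mem (inv_mem (mul_mem si.2 sj.2)) (mul_mem sj.2 si.2)), ← hpi, ← hpj,
    ← G.perm_mul hmi hmj, ← G.perm_mul hmj hmi]
  constructor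
  · intro h'
    have hd := Subgroup.mem_inf.2 ⟨h', hm'⟩
    rw [G.borel_inf_monomial] at hd
    have e := G.perm_diagonal hd
    rwa [G.perm_mul (inv_mem (mul_mem hmi hmj)) (mul_mem hmj hmi), G.perm_inv (mul_mem hmi hmj), inv_mul_eq_one] at e
  · intro e
    exact Subgroup.mem_sup_right ((G.perm_eq_one_iff hm').1 (by
      rw [G.perm_mul (inv_mem (mul_mem hmi hmj)) (mul_mem hmj hmi), G.perm_inv (mul_mem hmi hmj), e, inv_mul_cancel]))

/-- The reflection of an orbit. -/
noncomputable def orbRefl {D : ChevalleyDatum} {T : GraphData D} {G : Good D} (h : T.Ok G) (C : CoxData G)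
    (f : F →+* F) (j : Fin T.m) : ↥(T.tdata h C f).G1 :=
  ⟨(T.tdata h C f).nS j, (T.tdata h C f).N0_le_G1 ((T.tdata h C f).nS_mem_N0 j)⟩

theorem range_orbRefl {D : ChevalleyDatum} {T : GraphData D} {G : Good D} (h : T.Ok G) (C : CoxData G)
    (f : F →+* F) (hm : 0 < T.m) : Set.range (orbRefl h C f) = (graphPairOf (F := F) p h C f hm).P.S := by
  ext n
  constructor
  · rintro ⟨j, rfl⟩; exact ⟨j, rfl⟩
  · rintro ⟨j, hj⟩; exact ⟨j, Subtype.ext hj.symm⟩

theorem orbRefl_injective {D : ChevalleyDatum} {T : GraphData D} {G : Good D} (h : T.Ok G) (C : CoxData G)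
    (f : F →+* F) : Function.Injective (orbRefl h C f) := fun i j e => by
  refine T.nS_inj h C f i j ?_
  rw [show (T.tdata h C f).nS i = (T.tdata h C f).nS j from congrArg Subtype.val e, inv_mul_cancel]
  exact one_mem _

theorem e6_orbits : ∀ p ∈ [((1 : Fin graphE6.m), (0 : Fin graphE6.m), true), (1, 2, true), (0, 2, false),
    (0, 3, false), (0, 0, false)],
    decide (((graphE6.orb p.1).map goodE6.sPerm).prod * ((graphE6.orb p.2.1).map goodE6.sPerm).prod =
      ((graphE6.orb p.2.1).map goodE6.sPerm).prod * ((graphE6.orb p.1).map goodE6.sPerm).prod) = !p.2.2 := by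
  decide +kernel

theorem notTrans_twE6 {K : Type*} [Group K] [Finite K] (f : F →+* F) (φ : ↥(graphE6.tdata okE6 coxE6 f).G1 →* K)
    (hf : Function.Surjective φ)
    (hk : φ.ker ≤ (graphPairOf (F := F) p okE6 coxE6 f (by decide)).P.B ⊓
      (graphPairOf (F := F) p okE6 coxE6 f (by decide)).P.N)
    (hS : (graphPairOf (F := F) p okE6 coxE6 f (by decide)).P.S.Nonempty) :
    (parsOf (graphPairOf (F := F) p okE6 coxE6 f (by decide)) φ hf hk hS).NotTrans := by
  have E := e6_orbits
  simp only [List.forall_mem_cons, List.not_mem_nil, IsEmpty.forall_iff, implies_true, and_true, Bool.not_true,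
    Bool.not_false, decide_eq_false_iff_not, decide_eq_true_eq] at E
  refine notTrans_perm (graphPairOf (F := F) p okE6 coxE6 f (by decide)) φ hf hk hS (orbRefl okE6 coxE6 f)
    (orbRefl_injective okE6 coxE6 f) (range_orbRefl okE6 coxE6 f (by decide))
    (fun j => ((graphE6.orb j).map goodE6.sPerm).prod)
    (fun i j => perm_orbit okE6 coxE6 f (by decide) i j _ _ rfl rfl)
    (m := 1) (a := 0) (b := 2) (e := 0) (n := 1) (by decide) E.1 E.2.1 ?_
  intro c hc
  rcases c with ⟨v, hv⟩
  have : v < 4 := hv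
  interval_cases v
  · exact absurd rfl hc
  · rfl
  · exact absurd E.2.2.1 hc
  · exact absurd E.2.2.2 hc

end Twisted

end Cfsg.Agent.H64.PMin
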