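import Cfsg.Prelude.Def_LocalEven
import Mathlib

/-!
# Socles which occur in no `p`-minimal group
-/

set_option autoImplicit false

namespace Cfsg.Agent.H64.PMin

open Cfsg

/-- Two proper overgroups of a Sylow subgroup which generate and are fixed by all its stabilising automorphisms. -/
def Excluded (p : ℕ) (K : Type*) [Group K] : Prop :=
  ∃ (U : Sylow p K) (Q₁ Q₂ : Subgroup K), (U : Subgroup K) ≤ Q₁ ∧ (U : Subgroup K) ≤ Q₂ ∧ Q₁ ≠ ⊤ ∧ Q₂ ≠ ⊤ ∧
    Q₁ ⊔ Q₂ = ⊤ ∧ Subgroup.normalizer ((U : Subgroup K) : Set K) ≠ ⊤ ∧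
    ∀ φ : MulAut K, (U : Subgroup K).map φ.toMonoidHom = U →
      Q₁.map φ.toMonoidHom = Q₁ ∧ Q₂.map φ.toMonoidHom = Q₂

theorem excluded_congr {p : ℕ} [Fact p.Prime] {K L : Type*} [Group K] [Group L] [Finite K] (e : K ≃* L)
    (h : Excluded p K) : Excluded p L := by
  obtain ⟨U, Q₁, Q₂, h1, h2, h3, h4, h5, h6, h7⟩ := h
  have hinj : Function.Injective (Subgroup.map e.toMonoidHom) := Subgroup.map_injective e.injective
  have htop : (⊤ : Subgroup K).map e.toMonoidHom = ⊤ := Subgroup.map_top_of_surjective _ e.surjective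
  refine ⟨U.mapSurjective (f := e.toMonoidHom) e.surjective, Q₁.map e.toMonoidHom, Q₂.map e.toMonoidHom,
    Subgroup.map_mono h1, Subgroup.map_mono h2, fun h => h3 (hinj (h.trans htop.symm)),
    fun h => h4 (hinj (h.trans htop.symm)), by rw [← Subgroup.map_sup, h5, htop], ?_, ?_⟩
  · show Subgroup.normalizer (((U : Subgroup K).map e.toMonoidHom : Subgroup L) : Set L) ≠ ⊤
    rw [← Subgroup.map_equiv_normalizer_eq]
    exact fun h => h6 (hinj (h.trans htop.symm))
  · intro φ hφ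
    change ((U : Subgroup K).map e.toMonoidHom).map φ.toMonoidHom = (U : Subgroup K).map e.toMonoidHom at hφ
    have hc : ∀ Q : Subgroup K, Q.map ((e.trans φ).trans e.symm).toMonoidHom = Q →
        (Q.map e.toMonoidHom).map φ.toMonoidHom = Q.map e.toMonoidHom := by
      intro Q hQ
      conv_rhs => rw [← hQ]
      rw [show ((e.trans φ).trans e.symm).toMonoidHom = e.symm.toMonoidHom.comp (φ.toMonoidHom.comp e.toMonoidHom)
        from rfl, ← Subgroup.map_map, ← Subgroup.map_map, Subgroup.map_map _ e.toMonoidHom e.symm.toMonoidHom,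
        show e.toMonoidHom.comp e.symm.toMonoidHom = MonoidHom.id L from MonoidHom.ext e.apply_symm_apply,
        Subgroup.map_id]
    obtain ⟨a, b⟩ := h7 ((e.trans φ).trans e.symm) (by
      rw [show ((e.trans φ).trans e.symm).toMonoidHom = e.symm.toMonoidHom.comp (φ.toMonoidHom.comp e.toMonoidHom)
        from rfl, ← Subgroup.map_map, ← Subgroup.map_map, hφ, Subgroup.map_map,
        show e.symm.toMonoidHom.comp e.toMonoidHom = MonoidHom.id K from MonoidHom.ext e.symm_apply_apply,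
        Subgroup.map_id])
    exact ⟨hc _ a, hc _ b⟩

variable {p : ℕ} [Fact p.Prime] {X : Type*} [Group X] [Finite X]

/-- Such a group is not the socle of a `p`-minimal group. -/
theorem false_of_excluded (hX : Cfsg.IsPMinimal p X) (K : Subgroup X) [K.Normal] (h : Excluded p ↥K) : False := by
  obtain ⟨U, Q₁, Q₂, hU1, hU2, hQ1, hQ2, hgen, hN, hinv⟩ := h
  set N := Subgroup.normalizer (((U : Subgroup ↥K).map K.subtype : Subgroup X) : Set X) with hNdef
  obtain ⟨S, hS⟩ := (U.2.map K.subtype).exists_le_sylow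
  have hinf : (S : Subgroup X).subgroupOf K = (U : Subgroup ↥K) := by
    refine U.3 (S.2.comap_subtype) fun u hu => ?_
    exact hS ⟨u, hu, rfl⟩
  obtain ⟨M, ⟨hMc, hSM⟩, huniq⟩ := (hX S).2
  have key : ∀ H : Subgroup X, (S : Subgroup X) ≤ H → H ≠ ⊤ → H ≤ M := by
    intro H hSH hH
    rcases eq_top_or_exists_le_coatom H with h | ⟨C, hC, hHC⟩
    · exact absurd h hH
    · exact huniq C ⟨hC, hSH.trans hHC⟩ ▸ hHC
  have hfix : ∀ s ∈ (S : Subgroup X), (U : Subgroup ↥K).map (MulAut.conjNormal (H := K) s).toMonoidHom = U := by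
    intro s hs
    refine Subgroup.eq_of_le_of_card_ge ?_ (le_of_eq (Subgroup.card_map_of_injective
      (MulAut.conjNormal (H := K) s).injective).symm)
    rintro _ ⟨u, hu, rfl⟩
    rw [← hinf, Subgroup.mem_subgroupOf, MulEquiv.coe_toMonoidHom, MulAut.conjNormal_apply]
    exact mul_mem (mul_mem hs (hS ⟨u, hu, rfl⟩)) (inv_mem hs)
  have hQM : ∀ Q : Subgroup ↥K, (U : Subgroup ↥K) ≤ Q → Q ≠ ⊤ →
      (∀ s ∈ (S : Subgroup X), Q.map (MulAut.conjNormal (H := K) s).toMonoidHom = Q) → Q.map K.subtype ≤ M := by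
    intro Q hUQ hQ hQs
    have hnorm : (S : Subgroup X) ≤ Subgroup.normalizer ((Q.map K.subtype : Subgroup X) : Set X) := by
      have h1 : ∀ s ∈ (S : Subgroup X), ∀ x ∈ Q.map K.subtype, s * x * s⁻¹ ∈ Q.map K.subtype := by
        rintro s hs _ ⟨r, hr, rfl⟩
        exact ⟨MulAut.conjNormal s r, hQs s hs ▸ ⟨r, hr, rfl⟩, MulAut.conjNormal_apply s r⟩
      intro s hs
      exact Subgroup.mem_normalizer_iff.2 fun x => ⟨h1 s hs x, fun hx => by
        simpa [mul_assoc] using h1 s⁻¹ (inv_mem hs) _ hx⟩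
    refine le_sup_left.trans (key (Q.map K.subtype ⊔ (S : Subgroup X)) le_sup_right fun htop => hQ ?_)
    rw [eq_top_iff]
    intro k _
    have hk : (k : X) ∈ ((Q.map K.subtype ⊔ (S : Subgroup X) : Subgroup X) : Set X) := by
      rw [htop]; trivial
    rw [Subgroup.coe_mul_of_right_le_normalizer_left _ _ hnorm] at hk
    obtain ⟨_, ⟨r, hr, rfl⟩, s, hs, e⟩ := Set.mem_mul.1 hk
    have hsK : s ∈ K := by
      have : (r : X)⁻¹ * k ∈ K := mul_mem (inv_mem r.2) k.2
      rwa [← e, Subgroup.coe_subtype, inv_mul_cancel_left] at this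
    have hs' : (⟨s, hsK⟩ : ↥K) ∈ Q := hUQ (by rw [← hinf]; exact hs)
    rw [show k = r * ⟨s, hsK⟩ from Subtype.ext e.symm]
    exact mul_mem hr hs'
  have h1 : (⊤ : Subgroup ↥K) ≤ M.subgroupOf K := by
    rw [← hgen]
    exact sup_le ((Subgroup.map_le_iff_le_comap).1 (hQM Q₁ hU1 hQ1 fun s hs => (hinv _ (hfix s hs)).1))
      ((Subgroup.map_le_iff_le_comap).1 (hQM Q₂ hU2 hQ2 fun s hs => (hinv _ (hfix s hs)).2))
  have hKM : K ≤ M := fun x hx => h1 (Subgroup.mem_top (⟨x, hx⟩ : ↥K))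
  refine hMc.1 (eq_top_iff.2 ?_)
  rw [← Sylow.normalizer_sup_eq_top U]
  refine sup_le (key N (fun s hs => ?_) fun htop => hN ?_) hKM
  · refine Subgroup.mem_normalizer_iff.2 fun x => ?_
    have h1 : ∀ s ∈ (S : Subgroup X), ∀ x ∈ (U : Subgroup ↥K).map K.subtype,
        s * x * s⁻¹ ∈ (U : Subgroup ↥K).map K.subtype := by
      rintro s hs _ ⟨u, hu, rfl⟩
      exact ⟨MulAut.conjNormal s u, hfix s hs ▸ ⟨u, hu, rfl⟩, MulAut.conjNormal_apply s u⟩
    exact ⟨h1 s hs x, fun hx => by simpa [mul_assoc] using h1 s⁻¹ (inv_mem hs) _ hx⟩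
  · rw [eq_top_iff]
    intro k _
    rw [Subgroup.mem_normalizer_iff]
    intro u
    have hk : (k : X) ∈ N := htop ▸ Subgroup.mem_top _
    constructor
    · intro hu
      obtain ⟨v, hv, e⟩ := (Subgroup.mem_normalizer_iff.1 hk (u : X)).1 ⟨u, hu, rfl⟩
      rwa [show k * u * k⁻¹ = v from Subtype.ext e.symm]
    · intro hu
      obtain ⟨v, hv, e⟩ := (Subgroup.mem_normalizer_iff.1 hk (u : X)).2 ⟨_, hu, rfl⟩
      rwa [show u = v from Subtype.ext e.symm]

end Cfsg.Agent.H64.PMin
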