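import Cfsg.Agent.H64.PMin.Lattice
import Cfsg.Agent.H91.Overgroup.Small

/-!
# The lattice of a simple group of order 504 in characteristic three
-/

set_option autoImplicit false

namespace Cfsg.Agent.H64.PMin

open Cfsg Cfsg.Agent.H91.Overgroup

variable {K : Type*} [Group K] [Finite K]

/-- No subgroup of index seven. -/
theorem index_ne_seven [IsSimpleGroup K] (hcard : Nat.card K = 504) (M : Subgroup K) : M.index ≠ 7 := by
  classical
  intro h7
  have hM : M ≠ ⊤ := fun h => by rw [h, Subgroup.index_top] at h7; omega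
  letI := Fintype.ofFinite (K ⧸ M)
  set f := MulAction.toPermHom K (K ⧸ M) with hf
  have hinj : Function.Injective f := by
    rw [← MonoidHom.ker_eq_bot_iff]
    rcases IsSimpleGroup.eq_bot_or_eq_top_of_normal f.ker (MonoidHom.normal_ker _) with h | h
    · exact h
    · refine absurd ?_ hM
      rw [eq_top_iff]
      intro g _
      have h0 : g ∈ f.ker := h.symm ▸ Subgroup.mem_top g
      have h1 : g • (QuotientGroup.mk 1 : K ⧸ M) = QuotientGroup.mk 1 := by
        have h' : f g = 1 := h0
        exact congrArg (fun e : Equiv.Perm (K ⧸ M) => e (QuotientGroup.mk 1)) h'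
      simpa using inv_mem (QuotientGroup.eq.1 h1)
  have hrange : Nat.card ↥f.range = 504 := by
    rw [← hcard]
    exact (Nat.card_congr (MonoidHom.ofInjective hinj).toEquiv).symm
  have hle : f.range ≤ alternatingGroup (K ⧸ M) := by
    rintro _ ⟨g, rfl⟩
    rw [Equiv.Perm.mem_alternatingGroup]
    set s := Equiv.Perm.sign.comp f
    rcases IsSimpleGroup.eq_bot_or_eq_top_of_normal s.ker (MonoidHom.normal_ker _) with h | h
    · have h2 := Subgroup.card_dvd_of_injective _ ((MonoidHom.ker_eq_bot_iff s).1 h)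
      rw [hcard, Nat.card_eq_fintype_card, Fintype.card_units_int] at h2
      norm_num at h2
    · exact MonoidHom.mem_ker.1 (h ▸ Subgroup.mem_top g : g ∈ s.ker)
  have hα : Nat.card (K ⧸ M) = 7 := h7
  haveI : Nontrivial (K ⧸ M) := Finite.one_lt_card_iff_nontrivial.1 (by rw [hα]; omega)
  have hA : Nat.card (alternatingGroup (K ⧸ M)) = 2520 := by
    rw [nat_card_alternatingGroup, hα]; rfl
  haveI : IsSimpleGroup (alternatingGroup (K ⧸ M)) := alternatingGroup.isSimpleGroup (by rw [hα]; omega)
  set R := f.range.subgroupOf (alternatingGroup (K ⧸ M)) with hR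
  have hRcard : Nat.card ↥R = 504 := by
    rw [hR, Nat.card_congr (Subgroup.subgroupOfEquivOfLe hle).toEquiv, hrange]
  have h1 := Subgroup.card_mul_index R
  rw [hRcard, hA] at h1
  have h2 := card_dvd_factorial R (fun h => by rw [h, Subgroup.card_top, hA] at hRcard; omega)
  rw [hA, show R.index = 5 by omega] at h2
  norm_num [Nat.factorial] at h2

/-- The lattice. -/
theorem exists_pars_504 [Fact (Nat.Prime 3)] [IsSimpleGroup K] (hcard : Nat.card K = 504) :
    ∃ D : Pars 3 K, D.atoms.ncard = 1 := by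
  classical
  obtain ⟨S⟩ : Nonempty (Sylow 3 K) := inferInstance
  set B := Subgroup.normalizer ((S : Subgroup K) : Set K) with hB
  have hfac : Nat.card K = 3 ^ 2 * 56 := by rw [hcard]; norm_num
  have hS9 : Nat.card ↥(S : Subgroup K) = 9 := by
    rw [S.card_eq_multiplicity, hfac, Nat.factorization_mul (by norm_num) (by norm_num), Finsupp.add_apply,
      Nat.Prime.factorization_pow Nat.prime_three, Finsupp.single_eq_same,
      Nat.factorization_eq_zero_of_not_dvd (by norm_num)]
    rfl
  have hsmall : ∀ Q : Subgroup K, (S : Subgroup K) ≤ Q → Q ≠ ⊤ →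
      ∃ k, Nat.card ↥Q = 9 * k ∧ k ∈ ({1, 2, 4, 7} : Finset ℕ) := by
    intro Q hSQ hT
    obtain ⟨k, hk, -, hcQ, hidx⟩ := card_overgroup (p := 3) (a := 2) (k₀ := 56) (by norm_num) hfac S hSQ
    refine ⟨k, by rw [hcQ]; norm_num, ?_⟩
    have hdvd := card_dvd_factorial Q hT
    rw [hcard] at hdvd
    have h7 := index_ne_seven hcard Q
    have hk' : k ∈ Nat.divisors 56 := Nat.mem_divisors.2 ⟨hk, by norm_num⟩
    rw [show Nat.divisors 56 = ({1, 2, 4, 7, 8, 14, 28, 56} : Finset ℕ) by decide +kernel] at hk'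
    simp only [Finset.mem_insert, Finset.mem_singleton] at hk' ⊢
    rcases hk' with rfl | rfl | rfl | rfl | rfl | rfl | rfl | rfl
    · simp
    · simp
    · simp
    · simp
    · exact absurd (by omega : Q.index = 7) h7
    · rw [show Q.index = 4 by omega] at hdvd; norm_num [Nat.factorial] at hdvd
    · rw [show Q.index = 2 by omega] at hdvd; norm_num [Nat.factorial] at hdvd
    · rw [show Q.index = 1 by omega] at hdvd; norm_num [Nat.factorial] at hdvd
  have hBne : B ≠ ⊤ := by
    intro h
    haveI : (S : Subgroup K).Normal := Subgroup.normalizer_eq_top_iff.1 h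
    rcases IsSimpleGroup.eq_bot_or_eq_top_of_normal (S : Subgroup K) inferInstance with h' | h'
    · rw [h', Subgroup.card_bot] at hS9; omega
    · rw [h', Subgroup.card_top, hcard] at hS9; omega
  obtain ⟨kB, hkB, hkB'⟩ := hsmall B Subgroup.le_normalizer hBne
  have hmod : ∀ Q : Subgroup K, B ≤ Q → (B.relIndex Q) % 3 = 1 := by
    intro Q hQ
    have hSQ : (S : Subgroup K) ≤ Q := Subgroup.le_normalizer.trans hQ
    set S' : Sylow 3 ↥Q := S.subtype hSQ
    have h1 := card_sylow_modEq_one 3 ↥Q
    rw [S'.card_eq_index_normalizer] at h1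
    have h2 : Subgroup.normalizer (S' : Set ↥Q) = B.subgroupOf Q := by
      ext x
      show x ∈ Subgroup.normalizer ((S' : Subgroup ↥Q) : Set ↥Q) ↔ x ∈ B.subgroupOf Q
      rw [Subgroup.mem_subgroupOf, hB, Subgroup.mem_normalizer_iff, Subgroup.mem_normalizer_iff]
      constructor
      · intro h u
        refine ⟨fun hu => (h ⟨u, hSQ hu⟩).1 hu, fun hu => ?_⟩
        have hu' : u ∈ Q := by
          have := mul_mem (mul_mem (inv_mem x.2) (hSQ hu)) x.2
          simpa [mul_assoc] using this
        exact (h ⟨u, hu'⟩).2 hu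
      · intro h u
        exact h (u : K)
    rw [h2] at h1
    exact h1
  have htop : ∀ Q, B < Q → Q = ⊤ := by
    intro Q hQ
    by_contra hT
    obtain ⟨k, hk, hk'⟩ := hsmall Q (Subgroup.le_normalizer.trans hQ.le) hT
    have h1 := hmod ⊤ le_top
    rw [Subgroup.relIndex_top_right] at h1
    have h2 := hmod Q hQ.le
    have h3 := Subgroup.card_mul_index B
    rw [hkB, hcard] at h3
    have h4 := Subgroup.relIndex_mul_relIndex (⊥ : Subgroup K) B Q bot_le hQ.le
    rw [Subgroup.relIndex_bot_left, Subgroup.relIndex_bot_left, hkB, hk] at h4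
    have h5 : B.relIndex Q ≠ 1 := fun e => hQ.ne (le_antisymm hQ.le (Subgroup.relIndex_eq_one.1 e))
    simp only [Finset.mem_insert, Finset.mem_singleton] at hkB' hk'
    rcases hkB' with rfl | rfl | rfl | rfl <;> rcases hk' with rfl | rfl | rfl | rfl <;> omega
  refine ⟨{ U := S, B := B, B_eq := rfl, B_ne := hBne, atoms := {⊤}, lt := ?_, below := ?_, atom := ?_,
            gen := ?_, proper := ?_ }, Set.ncard_singleton _⟩
  · rintro P rfl; exact lt_top_iff_ne_top.2 hBne
  · intro Q hQ; exact ⟨⊤, rfl, (htop Q hQ).ge⟩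
  · rintro P rfl P' rfl -; rfl
  · simp
  · intro A hA hne h
    rcases Set.subset_singleton_iff_eq.1 hA with rfl | rfl
    · rw [sSup_empty, sup_bot_eq] at h; exact hBne h
    · exact hne rfl

end Cfsg.Agent.H64.PMin
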