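import Cfsg.Agent.H64.PMin.Degree

/-!
# The two parabolic indices of a unitary group of rank two differ
-/

set_option autoImplicit false

namespace Cfsg.Agent.H64.PMin

open Cfsg Cfsg.Agent.H8 Cfsg.Agent.H91.Overgroup Cfsg.Agent.H4.Steinberg Cfsg.Agent.H3
open Cfsg.Agent.H2.St (Tri Mono)

variable {p : ℕ} [Fact p.Prime]

section Cells

variable {G : Type*} [Group G] [Finite G] {N : ℕ} {F : Type*} [Field F] {κ : Type} (R : RootGen G N F κ)

/-- Conjugates of pair-free triangular elements. -/
theorem conj_mem_borel {k : κ} {g : G} (hg : Tri R.toM g)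
    (h0 : ∀ i j, i < j → R.π k j < R.π k i → R.toM g i j = 0) : R.s k * g * (R.s k)⁻¹ ∈ R.borel := by
  intro i j hij
  have hn : Mono R.toM (R.s k)⁻¹ (R.π k).symm := R.mono_inv (R.weyl k)
  have e := R.conj_entry hn g i j
  rw [inv_inv] at e
  rw [e]
  have hsym : ∀ a, (R.π k).symm a = R.π k a := fun a => by
    rw [Equiv.symm_apply_eq, R.π_invol]
  rw [hsym, hsym]
  suffices R.toM g (R.π k i) (R.π k j) = 0 by rw [this, mul_zero, zero_mul]
  rcases lt_trichotomy (R.π k i) (R.π k j) with h | h | h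
  · exact h0 _ _ h (by rw [R.π_invol, R.π_invol]; exact hij)
  · exact absurd ((R.π k).injective h) (ne_of_gt (show j < i from hij))
  · exact hg h

/-- Upper bound on a minimal parabolic. -/
theorem card_parabolic_le (k : κ) :
    Nat.card ↥(R.pair.parabolic {R.s k}) ≤ Nat.card ↥R.borel * (1 + Nat.card ↥(R.X k)) := by
  have hs : R.s k ∈ R.pair.S := ⟨k, rfl⟩
  haveI : Finite ↥(R.X k) := Subtype.finite
  have key : ∀ g ∈ BN.cell R.pair (R.s k), ∃ b : ↥R.borel, ∃ x : ↥(R.X k), g = (b : G) * R.s k * x := by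
    intro g hg
    obtain ⟨a, ha, b, hb, rfl⟩ := BN.mem_cell.1 hg
    obtain ⟨x, hx, hz⟩ := R.split k b hb
    have hbx : Tri R.toM (b * x⁻¹) := R.borel.mul_mem (show b ∈ R.borel from hb) (inv_mem (R.x_mem hx))
    exact ⟨⟨a * (R.s k * (b * x⁻¹) * (R.s k)⁻¹), R.borel.mul_mem ha (conj_mem_borel R hbx hz)⟩, ⟨x, hx⟩, by group⟩
  rw [mul_add, mul_one, ← Nat.card_prod]
  calc Nat.card ↥(R.pair.parabolic {R.s k})
      = Nat.card ((R.borel : Set G) ∪ BN.cell R.pair (R.s k) : Set G) := by
        refine Nat.card_congr (Equiv.subtypeEquivRight fun g => ?_)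
        exact mem_singleton_iff hs
    _ ≤ Nat.card ↥R.borel + Nat.card (BN.cell R.pair (R.s k)) := by
        simp only [Nat.card_coe_set_eq]
        exact (Set.ncard_union_le _ _).trans le_rfl
    _ ≤ Nat.card ↥R.borel + Nat.card (↥R.borel × ↥(R.X k)) := by
        refine Nat.add_le_add_left ?_ _
        refine Nat.card_le_card_of_surjective (fun z : ↥R.borel × ↥(R.X k) =>
          (⟨(z.1 : G) * R.s k * (z.2 : G), ?_⟩ : BN.cell R.pair (R.s k))) ?_
        · exact BN.mem_cell.2 ⟨_, z.1.2, _, R.x_mem z.2.2, rfl⟩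
        · rintro ⟨g, hg⟩
          obtain ⟨b, x, e⟩ := key g hg
          exact ⟨(b, x), Subtype.ext e.symm⟩

/-- Lower bound on a minimal parabolic. -/
theorem le_card_parabolic (k : κ) {ι : Type*} [Finite ι] (x : ι → G) (hx : ∀ i, x i ∈ R.X k)
    (hinj : ∀ i j, R.s k * (x i * (x j)⁻¹) * (R.s k)⁻¹ ∈ R.borel → i = j) :
    Nat.card ↥R.borel * (1 + Nat.card ι) ≤ Nat.card ↥(R.pair.parabolic {R.s k}) := by
  have hs : R.s k ∈ R.pair.S := ⟨k, rfl⟩
  rw [mul_add, mul_one, ← Nat.card_prod, ← Nat.card_sum]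
  refine Nat.card_le_card_of_injective (fun z => Sum.elim
    (fun b : ↥R.borel => (⟨(b : G), BN.B_le_parabolic (P := R.pair) _ b.2⟩ : ↥(R.pair.parabolic {R.s k})))
    (fun z : ↥R.borel × ι => ⟨(z.1 : G) * R.s k * x z.2, mul_mem (mul_mem (BN.B_le_parabolic (P := R.pair) _ z.1.2)
      (BN.subset_parabolic _ (Set.mem_singleton _))) (BN.B_le_parabolic (P := R.pair) _ (R.x_mem (hx z.2)))⟩) z) ?_
  have hno : ∀ (b c : ↥R.borel) (i : ι), (b : G) ≠ (c : G) * R.s k * x i := fun b c i e => by
    refine BN.s_not_mem_B hs ?_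
    show R.s k ∈ R.borel
    rw [show R.s k = (c : G)⁻¹ * b * (x i)⁻¹ by rw [e]; group]
    exact mul_mem (mul_mem (inv_mem c.2) b.2) (inv_mem (R.x_mem (hx i)))
  rintro (b | ⟨b, i⟩) (c | ⟨c, j⟩) e
  · simp only [Sum.elim_inl, Subtype.mk.injEq] at e
    rw [Subtype.ext e]
  · simp only [Sum.elim_inl, Sum.elim_inr, Subtype.mk.injEq] at e
    exact absurd e (hno b c j)
  · simp only [Sum.elim_inl, Sum.elim_inr, Subtype.mk.injEq] at e
    exact absurd e.symm (hno c b i)
  · simp only [Sum.elim_inr, Subtype.mk.injEq] at e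
    obtain rfl : i = j := hinj i j (by
      rw [show R.s k * (x i * (x j)⁻¹) * (R.s k)⁻¹ = (b : G)⁻¹ * c by
        calc R.s k * (x i * (x j)⁻¹) * (R.s k)⁻¹ = (b : G)⁻¹ * ((b : G) * R.s k * x i) * (x j)⁻¹ * (R.s k)⁻¹ := by
              group
          _ = _ := by rw [e]; group]
      exact mul_mem (inv_mem b.2) c.2)
    rw [Subtype.ext (mul_right_cancel (mul_right_cancel e))]

/-- Coordinates of a root element are invariant along a fibre of the cell map. -/
theorem entry_eq {k : κ} {x x' : G} (hx : x ∈ R.X k) (hx' : x' ∈ R.X k)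
    (h : R.s k * (x * x'⁻¹) * (R.s k)⁻¹ ∈ R.borel) {a j : Fin N} (haj : a < j)
    (hflip : ∀ l, a < l → l ≤ j → R.π k l < R.π k a ∨ R.toM x' l j = 0) : R.toM x a j = R.toM x' a j := by
  set g := x * x'⁻¹ with hg
  have hgT : Tri R.toM g := R.borel.mul_mem (R.x_mem hx) (inv_mem (R.x_mem hx'))
  have hz : ∀ l, a < l → R.π k l < R.π k a → R.toM g a l = 0 := by
    intro l hal hl
    have hn : Mono R.toM (R.s k)⁻¹ (R.π k).symm := R.mono_inv (R.weyl k)
    have e := R.conj_entry hn g (R.π k a) (R.π k l)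
    rw [inv_inv, Equiv.symm_apply_apply, Equiv.symm_apply_apply] at e
    have h0 : R.toM (R.s k * g * (R.s k)⁻¹) (R.π k a) (R.π k l) = 0 := h hl
    rw [e] at h0
    rcases mul_eq_zero.1 h0 with h1 | h1
    · refine (mul_eq_zero.1 h1).resolve_left fun h2 => ?_
      have := R.mono_entry (R.weyl k) a
      exact this h2
    · have := R.mono_entry hn (R.π k l)
      rw [Equiv.symm_apply_apply] at this
      exact absurd h1 this
  have hd : R.toM g a a = 1 := by
    rw [hg, map_mul, Matrix.mul_apply, Finset.sum_eq_single a]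
    · rw [R.x_diag k x hx, one_mul]
      have e := congrFun (congrFun (R.toM_mul_inv x') a) a
      rw [Matrix.mul_apply, Finset.sum_eq_single a, R.x_diag k x' hx', one_mul, Matrix.one_apply_eq] at e
      · exact e
      · intro l _ hl
        rcases lt_or_gt_of_ne hl with h1 | h1
        · rw [R.x_mem hx' h1, zero_mul]
        · rw [R.tri_inv (R.x_mem hx') h1, mul_zero]
      · simp
    · intro l _ hl
      rcases lt_or_gt_of_ne hl with h1 | h1
      · rw [R.x_mem hx h1, zero_mul]
      · rw [R.tri_inv (R.x_mem hx') h1, mul_zero]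
    · simp
  conv_lhs => rw [show x = g * x' by rw [hg, inv_mul_cancel_right]]
  rw [map_mul, Matrix.mul_apply, Finset.sum_eq_single a]
  · rw [hd, one_mul]
  · intro l _ hl
    rcases lt_or_gt_of_ne hl with h1 | h1
    · rw [hgT h1, zero_mul]
    · rcases le_or_gt l j with h2 | h2
      · rcases hflip l h1 h2 with h3 | h3
        · rw [hz l h1 h3, zero_mul]
        · rw [h3, mul_zero]
      · rw [R.x_mem hx' h2, mul_zero]
  · simp

end Cells

variable {F : Type} [Field F] [Fintype F] [CharP F p] {n q : ℕ}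

theorem notTrans_psu_two (hF : Fintype.card F = q ^ 2) (hn : n = 4 ∨ n = 5) (f : UFrame n F q) {K : Type*} [Group K]
    [Finite K] (φ : SU n F q →* K) (hf : Function.Surjective φ)
    (hk : φ.ker ≤ (bcPairOf (p := p) (by omega : 0 < n / 2) (f.data hF (by omega))).P.B ⊓
      (bcPairOf (p := p) (by omega : 0 < n / 2) (f.data hF (by omega))).P.N)
    (hS : (bcPairOf (p := p) (by omega : 0 < n / 2) (f.data hF (by omega))).P.S.Nonempty) :
    (parsOf (bcPairOf (p := p) (by omega : 0 < n / 2) (f.data hF (by omega))) φ hf hk hS).NotTrans := by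
  classical
  have hq2 : 2 ≤ q := two_le_q hF
  set R := (f.data hF (by omega : 2 ≤ n)).rootGen with hR
  haveI : Finite (SU n F q) := inferInstance
  let k0 : Fin (n / 2) := ⟨0, by omega⟩
  let k1 : Fin (n / 2) := ⟨1, by omega⟩
  refine notTrans_of_card _ φ hf hk hS (s := R.s k0) (t := R.s k1) ⟨k0, rfl⟩ ⟨k1, rfl⟩ ?_
  show Nat.card ↥(R.pair.parabolic {R.s k0}) ≠ Nat.card ↥(R.pair.parabolic {R.s k1})
  have hsame : ∀ (k : Fin (n / 2)) {g g' : SU n F q} {c a : F},
      IsRt g (f.v ((UFrame.uShape n).pk k)) (c • f.wv k) a → IsRt g' (f.v ((UFrame.uShape n).pk k)) (c • f.wv k) a →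
      g = g' := fun k g g' c a h h' => f.toM_inj (by ext i j; rw [f.rt_entry hF h, f.rt_entry hF h'])
  have hcardF : Nat.card F = q ^ 2 := by rw [Nat.card_eq_fintype_card, hF]
  have hBpos : 0 < Nat.card ↥R.borel := Nat.card_pos
  -- node 0
  have hk0 : k0.val + 1 < n / 2 := by show 0 + 1 < n / 2; omega
  have hk1 : ¬ k1.val + 1 < n / 2 := by show ¬ 1 + 1 < n / 2; omega
  have hX0 : Nat.card ↥(f.X k0) ≤ q ^ 2 := by
    rw [← hcardF]
    refine Nat.card_le_card_of_injective (fun g => g.2.choose) ?_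
    intro g g' e
    obtain ⟨a, h1, -, h⟩ := g.2.choose_spec
    obtain ⟨a', h1', -, h'⟩ := g'.2.choose_spec
    simp only at e
    rw [h1 hk0, e] at h
    rw [h1' hk0] at h'
    exact Subtype.ext (hsame k0 h h')
  -- node 1
  rcases hn with rfl | rfl
  · -- `SU₄`
    have hwv : f.wv k1 = 0 := by
      rw [UFrame.wv, dif_neg hk1, dif_neg (by omega)]
    have hX1 : Nat.card ↥(f.X k1) ≤ q := by
      have hex : ∀ g : ↥(f.X k1), ∃ a : F, a + a ^ q = 0 ∧
          IsRt (g : SU 4 F q) (f.v ((UFrame.uShape 4).pk k1)) ((0 : F) • f.wv k1) a := by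
        rintro ⟨g, c, a, -, h2, h3⟩
        have e : (0 : F) • f.wv k1 = c • f.wv k1 := by rw [hwv, smul_zero, smul_zero]
        refine ⟨a, ?_, ?_⟩
        · rw [← e, zero_smul, hermForm_zero_left hF, add_zero] at h2
          exact h2
        · show IsRt g _ _ a
          rw [e]
          exact h3
      choose A hA1 hA2 using hex
      refine le_trans (Nat.card_le_card_of_injective (fun g => (⟨A g, hA1 g⟩ : {a : F // a + a ^ q = 0}))
        fun g g' e => ?_) (card_trace_zero hF).le
      simp only [Subtype.mk.injEq] at e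
      exact Subtype.ext (hsame k1 (e ▸ hA2 g) (hA2 g'))
    intro he
    have hex : ∀ c : F, ∃ g ∈ f.X k0, IsRt g (f.v ((UFrame.uShape 4).pk k0)) (c • f.wv k0) 0 := fun c =>
      f.exists_X hF k0 (fun _ => rfl) (by
        rw [hermForm_smul_left hF, hermForm_smul_right hF, f.wv_self hF, if_pos hk0]
        simp [zero_pow (show q ≠ 0 by omega)])
    choose g hg hgr using hex
    have hlow := le_card_parabolic R k0 g hg ?_
    · have hup := card_parabolic_le R k1
      rw [hcardF] at hlow
      rw [← he] at hup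
      have := Nat.le_of_mul_le_mul_left (hlow.trans (hup.trans (Nat.mul_le_mul_left _
        (Nat.add_le_add_left hX1 1)))) hBpos
      nlinarith
    · intro c c' h
      have hc := And.intro (hg c) (hgr c)
      have hc' := And.intro (hg c') (hgr c')
      have e := entry_eq R (a := ⟨0, by omega⟩) (j := ⟨1, by omega⟩) hc.1 hc'.1 h (by simp [Fin.lt_def]) ?_
      · have e' : f.toM _ _ _ = f.toM _ _ _ := e
        rw [f.rt_entry hF hc.2, f.rt_entry hF hc'.2, UFrame.wv, dif_pos hk0] at e'
        simp [hermForm_smul_right hF, f.gram, Fin.ext_iff, Fin.val_rev, Shape.pk_val, Shape.nx_val, hk0, k0] at e'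
        calc c = (c ^ q) ^ q := (pow_q_pow_q hF c).symm
          _ = (c' ^ q) ^ q := by rw [e']
          _ = c' := pow_q_pow_q hF c'
      · intro l hl hl'
        left
        simp only [Fin.lt_def, Fin.le_def] at hl hl' ⊢
        show ((UFrame.uShape 4).perm k0 l).val < ((UFrame.uShape 4).perm k0 ⟨0, by omega⟩).val
        rw [Shape.perm_val, Shape.perm_val]
        simp only [k0]
        split_ifs <;> omega
  · -- `SU₅`
    intro he
    have hw : ∀ c : F, ∃ a : F, a + a ^ q + hermForm 5 F q (c • f.wv k1) (c • f.wv k1) = 0 := fun c => by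
      obtain ⟨a, ha⟩ := exists_trace_eq hF (a := -hermForm 5 F q (c • f.wv k1) (c • f.wv k1))
        (by rw [← conjQ_apply hF, map_neg, conjQ_apply, hermForm_pow_q hF])
      exact ⟨a, by linear_combination ha⟩
    obtain ⟨a₀, ha₀', ha₀⟩ := exists_trace_zero_ne_zero hF
    choose A hA using hw
    have hext : ∀ z : Option F, ∃ g ∈ f.X k1, IsRt g (f.v ((UFrame.uShape 5).pk k1))
        ((z.getD 0) • f.wv k1) (z.elim (A 0 + a₀) A) := by
      intro z
      refine f.exists_X hF k1 (fun h => absurd h hk1) ?_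
      cases z with
      | none =>
        simp only [Option.getD_none, Option.elim_none]
        rw [← conjQ_apply hF (A 0 + a₀), map_add, conjQ_apply, conjQ_apply]
        linear_combination hA 0 + ha₀
      | some c => exact hA c
    choose g hg hgr using hext
    have hlow := le_card_parabolic R k1 g hg ?_
    · have hup := card_parabolic_le R k0
      rw [← he] at hlow
      have h3 : Nat.card (Option F) = q ^ 2 + 1 := by rw [Finite.card_option, hcardF]
      rw [h3] at hlow
      have := Nat.le_of_mul_le_mul_left (hlow.trans (hup.trans (Nat.mul_le_mul_left _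
        (Nat.add_le_add_left hX0 1)))) hBpos
      omega
    · intro z z' h
      have hw2 : f.wv k1 = f.v ⟨2, by omega⟩ := by
        rw [UFrame.wv, dif_neg hk1, dif_pos (by omega)]
      have hflip : ∀ j : Fin 5, 1 < j.val → j.val ≤ 3 → ∀ l : Fin 5, (⟨1, by omega⟩ : Fin 5) < l → l ≤ j →
          R.π k1 l < R.π k1 ⟨1, by omega⟩ ∨ R.toM (g z') l j = 0 := by
        intro j hj hj' l hl hl'
        left
        simp only [Fin.lt_def, Fin.le_def] at hl hl' ⊢
        show ((UFrame.uShape 5).perm k1 l).val < ((UFrame.uShape 5).perm k1 ⟨1, by omega⟩).val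
        rw [Shape.perm_val, Shape.perm_val]
        simp only [k1]
        split_ifs <;> omega
      have e2 : f.toM (g z) ⟨1, by omega⟩ ⟨2, by omega⟩ = f.toM (g z') ⟨1, by omega⟩ ⟨2, by omega⟩ :=
        entry_eq R (hg z) (hg z') h (by simp [Fin.lt_def]) (hflip ⟨2, by omega⟩ (by simp) (by simp))
      have e3 : f.toM (g z) ⟨1, by omega⟩ ⟨3, by omega⟩ = f.toM (g z') ⟨1, by omega⟩ ⟨3, by omega⟩ :=
        entry_eq R (hg z) (hg z') h (by simp [Fin.lt_def]) (hflip ⟨3, by omega⟩ (by simp) (by simp))
      rw [f.rt_entry hF (hgr z), f.rt_entry hF (hgr z'), hw2] at e2 e3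
      simp [hermForm_smul_right hF, hermForm_smul_left hF, f.gram, Fin.ext_iff, Fin.val_rev, Shape.pk_val, k1] at e2 e3
      have e2' : z.getD 0 = z'.getD 0 := by
        calc z.getD 0 = ((z.getD 0) ^ q) ^ q := (pow_q_pow_q hF _).symm
          _ = ((z'.getD 0) ^ q) ^ q := by rw [e2]
          _ = z'.getD 0 := pow_q_pow_q hF _
      cases z with
      | none =>
        cases z' with
        | none => rfl
        | some c =>
          simp only [Option.getD_none, Option.getD_some] at e2'
          subst e2'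
          simp only [Option.elim_none, Option.elim_some] at e3
          exact absurd (by linear_combination e3) ha₀'
      | some c =>
        cases z' with
        | none =>
          simp only [Option.getD_none, Option.getD_some] at e2'
          subst e2'
          simp only [Option.elim_none, Option.elim_some] at e3
          exact absurd (by linear_combination -e3) ha₀'
        | some c' =>
          simp only [Option.getD_some] at e2'
          rw [e2']

end Cfsg.Agent.H64.PMin
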