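import Cfsg.Agent.H64.PMin.Special
import Cfsg.Agent.H64.PMin.Degree
import Cfsg.Agent.H64.PMin.Unitary
import Cfsg.Agent.H64.PMin.AltSix
import Cfsg.Agent.H64.PMin.PSLEight
import Cfsg.Agent.H91.Overgroup.Models
import Cfsg.Agent.H46.TwistOrder
import Cfsg.Agent.H1.PSLSimple
import Cfsg.Agent.H6.Basic
import Cfsg.Prelude.Def_AlmostLie

/-!
# The lattices of all the families of groups of Lie type
-/

set_option autoImplicit false
set_option maxRecDepth 100000

namespace Cfsg.Agent.H64.PMin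

open Cfsg Cfsg.Lie Cfsg.Agent.H46 Cfsg.Agent.H91.Overgroup Cfsg.Agent.H65.Twist

/-- The three groups of rank two in the list. -/
def Listed (K : Type*) [Group K] : Prop :=
  (∃ (F : Type) (_ : Field F) (_ : Fintype F) (_ : CharP F 2),
      Nonempty (K ≃* Matrix.ProjectiveSpecialLinearGroup (Fin 3) F)) ∨
    (∃ (F : Type) (_ : Field F) (_ : Fintype F) (_ : CharP F 2), 4 ≤ Fintype.card F ∧ Nonempty (K ≃* Cfsg.PSp 2 F)) ∨
    Nonempty (K ≃* ↥(alternatingGroup (Fin 6)))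

/-- What a lattice has to show. -/
def Outcome (p : ℕ) (K : Type*) [Group K] : Prop :=
  Excluded p K ∨ ∃ D : Pars p K, D.NotTrans ∨ (D.atoms.ncard = 1 ∧ Cfsg.IsLieRankOneChar p K) ∨
    (D.atoms.ncard = 2 ∧ (p = 2 → Listed K))

variable {p : ℕ} [Fact p.Prime]

theorem Pars.outcome_of_iso {K L : Type*} [Group K] [Group L] [Finite L] (e : K ≃* L) (D : Pars p L)
    (h : D.NotTrans ∨ (D.atoms.ncard = 1 ∧ Cfsg.IsLieRankOneChar p K) ∨ (D.atoms.ncard = 2 ∧ (p = 2 → Listed K))) :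
    Outcome p K := by
  refine Or.inr ⟨D.transport e.symm, ?_⟩
  rw [D.ncard_transport]
  exact h.imp_left (D.notTrans_transport e.symm)

section Models

variable {F : Type} [Field F] [Fintype F] [CharP F p]

theorem center_le_sl (M : ℕ) : Subgroup.center (Matrix.SpecialLinearGroup (Fin (M + 1 + 1)) F) ≤
    (slPairOf (F := F) (p := p) M).P.B ⊓ (slPairOf (F := F) (p := p) M).P.N := by
  classical
  intro g hg
  show g ∈ (H2.St.slData (M + 1) F).borel ⊓ (H2.St.slData (M + 1) F).monomialGrp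
  rw [H2.St.RootData.borel_inf_monomial]
  intro i j hij
  rw [Matrix.SpecialLinearGroup.mem_center_iff] at hg
  obtain ⟨r, -, hr⟩ := hg
  show (g : Matrix _ _ F) i j = 0
  rw [← hr, Matrix.scalar_apply, Matrix.diagonal_apply_ne _ hij]

theorem center_le_sp (M : ℕ) [Finite (Matrix.symplecticGroup (Fin (M + 1)) F)] :
    Subgroup.center (Matrix.symplecticGroup (Fin (M + 1)) F) ≤
      (spPairOf (F := F) (p := p) M).P.B ⊓ (spPairOf (F := F) (p := p) M).P.N := by
  classical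
  intro g hg
  show g ∈ (H2.St.spData M F).borel ⊓ (H2.St.spData M F).monomialGrp
  rw [H2.St.RootData.borel_inf_monomial]
  intro i j hij
  rw [H2.mem_center_iff_eq (by omega : 1 ≤ M + 1)] at hg
  obtain ⟨x, rfl⟩ := (H2.St.spIdx (M + 1)).surjective i
  obtain ⟨y, rfl⟩ := (H2.St.spIdx (M + 1)).surjective j
  have hxy : x ≠ y := fun e => hij (by rw [e])
  show H2.St.spMat (M + 1) F g (H2.St.spIdx (M + 1) x) (H2.St.spIdx (M + 1) y) = 0
  rw [H2.St.spMat_apply]
  rcases hg with h | h <;> rw [h] <;> simp [Matrix.one_apply_ne hxy]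

theorem ker_mk_le_bc {G : Type*} [Group G] [Finite G] {N l : ℕ} (hl : 0 < l) {E : Type} [Field E] [CharP E p]
    [Fintype E] (D : H4.Steinberg.BCData G N E l) :
    (QuotientGroup.mk' (Subgroup.center G)).ker ≤ (bcPairOf (p := p) hl D).P.B ⊓ (bcPairOf (p := p) hl D).P.N := by
  rw [QuotientGroup.ker_mk']
  intro g hg
  show g ∈ D.rootGen.borel ⊓ D.rootGen.monomialGrp
  rw [H4.Steinberg.RootGen.borel_inf_monomial]
  exact D.rootGen.center_le_torus hg

variable {K : Type*} [Group K] [Finite K]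

theorem outcome_psl (n : ℕ) (hn : 2 ≤ n) (h4 : n = 2 → 4 ≤ Fintype.card F)
    (e : K ≃* Matrix.ProjectiveSpecialLinearGroup (Fin n) F) : Outcome p K := by
  classical
  obtain ⟨M, rfl⟩ : ∃ M, n = M + 1 + 1 := ⟨n - 2, by omega⟩
  have hk := (QuotientGroup.ker_mk' (Subgroup.center (Matrix.SpecialLinearGroup (Fin (M + 1 + 1)) F))).le.trans
    (center_le_sl (p := p) M)
  have hc := ncard_sl (p := p) M _ (QuotientGroup.mk'_surjective _) hk
  rcases Nat.lt_or_ge M 2 with hM | hM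
  · refine Pars.outcome_of_iso e (parsOf (slPairOf (F := F) (p := p) M) _ (QuotientGroup.mk'_surjective _) hk
      ⟨_, 0, rfl⟩) (Or.inr ?_)
    rw [hc]
    rcases Nat.lt_or_ge M 1 with hM1 | hM1
    · obtain rfl : M = 0 := by omega
      exact Or.inl ⟨rfl, Or.inl ⟨F, inferInstance, inferInstance, inferInstance, h4 rfl, ⟨e⟩⟩⟩
    · obtain rfl : M = 1 := by omega
      refine Or.inr ⟨rfl, fun hp => Or.inl ?_⟩
      subst hp
      exact ⟨F, inferInstance, inferInstance, inferInstance, ⟨e⟩⟩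
  · exact Pars.outcome_of_iso e _ (Or.inl (notTrans_sl (p := p) M hM _ (QuotientGroup.mk'_surjective _) hk))

theorem outcome_psp (m : ℕ) (hm : 2 ≤ m) (h3 : m = 2 → 3 ≤ Fintype.card F) (e : K ≃* Cfsg.PSp m F) :
    Outcome p K := by
  classical
  obtain ⟨M, rfl⟩ : ∃ M, m = M + 1 := ⟨m - 1, by omega⟩
  haveI : Finite (Matrix.symplecticGroup (Fin (M + 1)) F) := Subtype.finite
  haveI : Finite (Matrix.symplecticGroup (Fin (M + 1)) F ⧸ Subgroup.center (Matrix.symplecticGroup (Fin (M + 1)) F)) :=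
    inferInstance
  have hk := (QuotientGroup.ker_mk' (Subgroup.center (Matrix.symplecticGroup (Fin (M + 1)) F))).le.trans
    (center_le_sp (p := p) M)
  have hc := ncard_sp (p := p) M _ (QuotientGroup.mk'_surjective _) hk
  rcases Nat.lt_or_ge M 2 with hM | hM
  · obtain rfl : M = 1 := by omega
    refine Pars.outcome_of_iso e _ (Or.inr (Or.inr ⟨hc, fun hp => Or.inr (Or.inl ?_)⟩))
    subst hp
    refine ⟨F, inferInstance, inferInstance, inferInstance, ?_, ⟨e⟩⟩
    obtain ⟨k, hk2, hcard⟩ := FiniteField.card F 2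
    have h := h3 rfl
    rw [hcard] at h ⊢
    rcases Nat.lt_or_ge (k : ℕ) 2 with hlt | hge
    · interval_cases (k : ℕ) <;> omega
    · exact le_trans (by norm_num) (Nat.pow_le_pow_right two_pos hge)
  · exact Pars.outcome_of_iso e _ (Or.inl (notTrans_sp (p := p) M hM _ (QuotientGroup.mk'_surjective _) hk))

theorem outcome_psu {n q : ℕ} (hF : Fintype.card F = q ^ 2) (hn : 3 ≤ n) (hne : ¬ (n = 3 ∧ q = 2))
    (e : K ≃* Cfsg.PSU n F q) : Outcome p K := by
  classical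
  obtain ⟨f⟩ := H4.Steinberg.exists_uFrame (n := n) hF
  have hl : 0 < n / 2 := by omega
  haveI : Finite (SU n F q ⧸ Subgroup.center (SU n F q)) := inferInstance
  have hk := ker_mk_le_bc (p := p) hl (f.data hF (by omega : 2 ≤ n))
  have hc := ncard_bc (p := p) hl (f.data hF (by omega : 2 ≤ n)) _ (QuotientGroup.mk'_surjective _) hk
  rcases Nat.lt_or_ge n 4 with h4 | h4
  · obtain rfl : n = 3 := by omega
    exact Pars.outcome_of_iso e _ (Or.inr (Or.inl ⟨hc, Or.inr (Or.inl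
      ⟨F, inferInstance, inferInstance, inferInstance, q, hF, fun hq => hne ⟨rfl, hq⟩, ⟨e⟩⟩)⟩))
  rcases Nat.lt_or_ge n 6 with h6 | h6
  · exact Pars.outcome_of_iso e _ (Or.inl (notTrans_psu_two (p := p) hF (by omega) f _
      (QuotientGroup.mk'_surjective _) hk ⟨_, ⟨0, hl⟩, rfl⟩))
  · exact Pars.outcome_of_iso e _ (Or.inl (notTrans_bc (p := p) (by omega : 3 ≤ n / 2)
      (f.data hF (by omega : 2 ≤ n)) _ (QuotientGroup.mk'_surjective _) hk))

theorem outcome_omega_odd (m : ℕ) (hm : 3 ≤ m) (hodd : Odd (Fintype.card F))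
    (e : K ≃* Cfsg.POmega F (Cfsg.quadFormOdd m F)) : Outcome p K := by
  classical
  have h2 : (2 : F) ≠ 0 := by
    refine Ring.two_ne_zero fun h => ?_
    exact (Nat.not_even_iff_odd.2 hodd)
      (Nat.even_iff.2 (FiniteField.even_card_of_char_two h))
  haveI : Finite (H4.Steinberg.OddDim.Vec m F) := Pi.finite
  haveI : Finite (H5.orth (H5.qOdd m F)) :=
    Finite.of_injective (fun g => ((g.1 : (H4.Steinberg.OddDim.Vec m F) ≃ₗ[F] (H4.Steinberg.OddDim.Vec m F)) :
      H4.Steinberg.OddDim.Vec m F → H4.Steinberg.OddDim.Vec m F))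
      (fun _ _ h => Subtype.ext (LinearEquiv.ext (congrFun h)))
  have hk := ker_mk_le_bc (p := p) (by omega : 0 < m) (H4.Steinberg.OddDim.data (m := m) h2 (by omega))
  exact Pars.outcome_of_iso (e.trans (H5.pomegaEquiv (H5.qOdd m F) (H5.coe_qOdd m))) _
    (Or.inl (notTrans_bc (p := p) hm _ _ (QuotientGroup.mk'_surjective _) hk))

theorem outcome_omega_minus (m : ℕ) (hm : 3 ≤ m) (a b : F)
    (hab : ∀ z₁ z₂ : F, z₁ ^ 2 + a * z₁ * z₂ + b * z₂ ^ 2 = 0 → z₁ = 0 ∧ z₂ = 0)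
    (e : K ≃* Cfsg.POmega F (Cfsg.quadFormMinus m F a b)) : Outcome p K := by
  classical
  haveI : Finite (H4.Steinberg.Minus.Idx m → F) := Pi.finite
  haveI : Finite (H5.orth (H5.qMinus m F a b)) :=
    Finite.of_injective (fun g => ((g.1 : (H4.Steinberg.Minus.Idx m → F) ≃ₗ[F] (H4.Steinberg.Minus.Idx m → F)) :
      (H4.Steinberg.Minus.Idx m → F) → (H4.Steinberg.Minus.Idx m → F)))
      (fun _ _ h => Subtype.ext (LinearEquiv.ext (congrFun h)))
  obtain ⟨f, hp, hcard⟩ := FiniteField.card F p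
  have hf : 2 * (f : ℕ) ≠ 0 := by have := f.pos; omega
  letI : Fintype (GaloisField p (2 * f)) := Fintype.ofFinite _
  have hK : Fintype.card (GaloisField p (2 * f)) = Fintype.card F ^ 2 := by
    rw [← Nat.card_eq_fintype_card, GaloisField.card p _ hf, hcard, ← pow_mul, mul_comm 2]
  obtain ⟨E⟩ := H5.nonempty_quadExt (F := F) (K := GaloisField p (2 * f)) rfl hK a b hab
  have hk := ker_mk_le_bc (p := p) (by omega : 0 < m)
    (H4.Steinberg.Minus.data (m := m) E hK hab (by omega) rfl)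
  exact Pars.outcome_of_iso (e.trans (H5.pomegaEquiv (H5.qMinus m F a b) (H5.coe_qMinus m a b))) _
    (Or.inl (notTrans_bc (p := p) hm _ _ (QuotientGroup.mk'_surjective _) hk))

theorem outcome_omega_plus (m : ℕ) (hm : 4 ≤ m) (e : K ≃* Cfsg.POmega F (Cfsg.quadFormPlus m F)) :
    Outcome p K := by
  classical
  haveI : Finite (Fin m ⊕ Fin m → F) := Pi.finite
  haveI : Finite (H5.orth (H5.qPlus m F)) :=
    Finite.of_injective (fun g => ((g.1 : (Fin m ⊕ Fin m → F) ≃ₗ[F] (Fin m ⊕ Fin m → F)) :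
      (Fin m ⊕ Fin m → F) → (Fin m ⊕ Fin m → F)))
      (fun a b h => Subtype.ext (LinearEquiv.ext (congrFun h)))
  obtain ⟨M, rfl⟩ : ∃ M, m = M + 2 := ⟨m - 2, by omega⟩
  have hq : Nat.card F ≠ 2 ∨ Module.finrank F (Fin (M + 2) ⊕ Fin (M + 2) → F) ≠ 4 :=
    Or.inr (by simp; omega)
  have hk : (QuotientGroup.mk' (Subgroup.center _)).ker ≤
      (plusPairOf (F := F) (p := p) M hq).P.B ⊓ (plusPairOf (F := F) (p := p) M hq).P.N := by
    rw [QuotientGroup.ker_mk']
    intro g hg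
    show g ∈ (H2.St.Plus.plusData M F hq).borel ⊓ (H2.St.Plus.plusData M F hq).monomialGrp
    rw [H2.St.RootSys.borel_inf_monomial]
    exact (H2.St.Plus.plusData M F hq).center_le_torus hg
  exact Pars.outcome_of_iso (e.trans (H5.pomegaEquiv (H5.qPlus (M + 2) F) (H5.coe_qPlus (M + 2)))) _
    (Or.inl (notTrans_plus (p := p) M (by omega) hq _ (QuotientGroup.mk'_surjective _) hk))

theorem ker_id_le {G : Type*} [Group G] (H : Subgroup G) : (MonoidHom.id G).ker ≤ H := fun x hx => by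
  rw [MonoidHom.mem_ker, MonoidHom.id_apply] at hx
  subst hx
  exact one_mem _

theorem chev_nonempty {D : ChevalleyDatum} (G : Good D) (hr : 0 < D.rank) :
    (chevPairOf G hr (F := F) p).P.S.Nonempty :=
  range_refl (F := F) (p := p) G hr ▸ ⟨_, ⟨0, hr⟩, rfl⟩

theorem outcome_exceptional {D : ChevalleyDatum} (G : Good D) (hr : 0 < D.rank) {m a b x n : ℕ}
    (hdeg : degB D m a b x n = true) (e : K ≃* ↥(D.group F)) : Outcome p K := by
  haveI : Finite ↥(D.group F) := Finite.of_equiv K e.toEquiv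
  exact Pars.outcome_of_iso e _ (Or.inl (notTrans_chev (p := p) G hr _ Function.surjective_id (ker_id_le _)
    (chev_nonempty G hr) hdeg))

theorem outcome_G2 (hq : 3 ≤ Fintype.card F) (e : K ≃* ↥(chevG2.group F)) : Outcome p K := by
  classical
  have hr : 0 < chevG2.rank := by decide +kernel
  haveI : Finite ↥(chevG2.group F) := Finite.of_equiv K e.toEquiv
  by_cases hp : p = 2
  · exact Pars.outcome_of_iso e _ (Or.inl (notTrans_G2 (p := p) hp hq (ker_id_le _) (chev_nonempty goodG2 hr)))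
  · refine Pars.outcome_of_iso e _ (Or.inr (Or.inr ⟨ncard_parsOf (chevPairOf goodG2 hr (F := F) p) _
      Function.surjective_id (ker_id_le _) (chev_nonempty goodG2 hr) (refl goodG2) (refl_injective goodG2 hr)
      (range_refl goodG2 hr) |>.trans ?_, fun h => absurd h hp⟩))
    rw [Fintype.card_fin]
    rfl

end Models

section Twisted

variable {L : Type} [Field L] [Fintype L] [CharP L p] {K : Type*} [Group K] [Finite K]

theorem graph_nonempty {D : ChevalleyDatum} {T : GraphData D} {G : Good D} (h : T.Ok G) (C : CoxData G)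
    (f : L →+* L) (hm : 0 < T.m) : (graphPairOf (F := L) p h C f hm).P.S.Nonempty :=
  range_orbRefl (p := p) h C f hm ▸ ⟨_, ⟨0, hm⟩, rfl⟩

theorem outcome_E6 {q : ℕ} (hq : IsPrimePow q) (hc : Fintype.card L = q ^ 2) (e : K ≃* ↥(twistedE6 L q)) :
    Outcome p K := by
  obtain ⟨f, hf⟩ := exists_qFrob hq (by norm_num : 0 < 2) hc
  let e' : K ≃* ↥(graphE6.tdata okE6 coxE6 f).G1 := e.trans (MulEquiv.subgroupCongr (twistedE6_eq f hf hc))
  haveI : Finite ↥(graphE6.tdata okE6 coxE6 f).G1 := Finite.of_equiv K e'.toEquiv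
  exact Pars.outcome_of_iso e' _ (Or.inl (notTrans_twE6 (p := p) f _ Function.surjective_id (ker_id_le _)
    (graph_nonempty okE6 coxE6 f (by decide))))

theorem lenD4_ne : graphD4.len (0 : Fin 2) ≠ graphD4.len (1 : Fin 2) := by decide +kernel

theorem outcome_D4 {q : ℕ} (hq : IsPrimePow q) (hc : Fintype.card L = q ^ 3) (e : K ≃* ↥(twistedD4 L q)) :
    Outcome p K := by
  classical
  obtain ⟨f, hf⟩ := exists_qFrob hq (by norm_num : 0 < 3) hc
  let e' : K ≃* ↥(tdD4 f).G1 := e.trans (MulEquiv.subgroupCongr (twistedD4_eq f hf hc))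
  haveI : Finite ↥(tdD4 f).G1 := Finite.of_equiv K e'.toEquiv
  have hm : 0 < graphD4.m := by decide
  refine Pars.outcome_of_iso e' _ (Or.inl (notTrans_of_card (graphPairOf (F := L) p okD4 coxD4 f hm) _
    Function.surjective_id (ker_id_le _) (graph_nonempty okD4 coxD4 f hm)
    (s := orbRefl okD4 coxD4 f (0 : Fin 2)) (t := orbRefl okD4 coxD4 f (1 : Fin 2))
    (range_orbRefl (p := p) okD4 coxD4 f hm ▸ Set.mem_range_self _)
    (range_orbRefl (p := p) okD4 coxD4 f hm ▸ Set.mem_range_self _) ?_))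
  show Nat.card ↥((graphD4.twistBN okD4 coxD4 f).parabolic {orbRefl okD4 coxD4 f (0 : Fin 2)}) ≠
    Nat.card ↥((graphD4.twistBN okD4 coxD4 f).parabolic {orbRefl okD4 coxD4 f (1 : Fin 2)})
  unfold GraphData.twistBN
  rw [card_parabolic_twist (graphD4.tdata okD4 coxD4 f) _ _ (0 : Fin 2) _ rfl,
    card_parabolic_twist (graphD4.tdata okD4 coxD4 f) _ _ (1 : Fin 2) _ rfl,
    hX_D4 f hf hc 0, hX_D4 f hf hc 1]
  intro h
  haveI : Finite ↥(graphD4.tdata okD4 coxD4 f).B1 :=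
    Finite.of_injective _ (Subgroup.inclusion_injective (graphD4.tdata okD4 coxD4 f).B1_le_G1)
  have h2 := Nat.eq_of_mul_eq_mul_left Nat.card_pos h
  exact lenD4_ne (Nat.pow_right_injective hq.two_le (add_left_cancel h2))

end Twisted

/-- The groups of type `²F₄`. -/
theorem outcome_F4 [Fact (Nat.Prime 2)] {F : Type} [Field F] [Fintype F] {m : ℕ}
    (hF : Fintype.card F = 2 ^ (2 * m + 1)) {K : Type*} [Group K] [Finite K]
    (e : K ≃* ↥(twistedF4 F (2 ^ m))) : Outcome 2 K := by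
  classical
  haveI : CharP F 2 := charP_of_card_eq_prime_pow hF
  haveI : Finite ↥(twistedF4 F (2 ^ m)) := Finite.of_equiv K e.toEquiv
  set T := f4Setup F (m := m) hF with hT
  set g := g1Equiv T (twistedF4 F (2 ^ m)) twistedF4_le rfl with hg
  refine Pars.outcome_of_iso e _ (Or.inl (notTrans_of_card (f4PairOf hF) _ Function.surjective_id (ker_id_le _)
    ⟨_, ⟨⟨T.nS 0, T.data.N0_le_G1 (T.data.nS_mem_N0 0)⟩, ⟨0, rfl⟩, rfl⟩⟩
    (s := g ⟨T.nS 0, T.data.N0_le_G1 (T.data.nS_mem_N0 0)⟩) (t := g ⟨T.nS 1, T.data.N0_le_G1 (T.data.nS_mem_N0 1)⟩)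
    ⟨_, ⟨0, rfl⟩, rfl⟩ ⟨_, ⟨1, rfl⟩, rfl⟩ ?_))
  show Nat.card ↥((mapBN (T.data.bnPair (f4_hinj hF) (f4_hne hF)) g).parabolic
      {g ⟨T.nS 0, T.data.N0_le_G1 (T.data.nS_mem_N0 0)⟩}) ≠
    Nat.card ↥((mapBN (T.data.bnPair (f4_hinj hF) (f4_hne hF)) g).parabolic
      {g ⟨T.nS 1, T.data.N0_le_G1 (T.data.nS_mem_N0 1)⟩})
  intro h
  have h := (card_parabolic_f4 hF 0 ⟨T.nS 0, T.data.N0_le_G1 (T.data.nS_mem_N0 0)⟩ rfl).symm.trans
    (h.trans (card_parabolic_f4 hF 1 ⟨T.nS 1, T.data.N0_le_G1 (T.data.nS_mem_N0 1)⟩ rfl))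
  haveI : Finite ↥(f4Setup F (m := m) hF).data.G1 :=
    Finite.of_equiv _ (g1Equiv (f4Setup F (m := m) hF) (twistedF4 F (2 ^ m)) twistedF4_le rfl).symm.toEquiv
  haveI : Finite ↥(f4Setup F (m := m) hF).data.B1 :=
    Finite.of_injective _ (Subgroup.inclusion_injective (f4Setup F (m := m) hF).data.B1_le_G1)
  have h2 := Nat.eq_of_mul_eq_mul_left Nat.card_pos h
  have h3 := Nat.pow_right_injective (Fintype.one_lt_card : 1 < Fintype.card F) (add_left_cancel h2)
  simp [f4Len] at h3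

/-- The Suzuki groups. -/
theorem outcome_suzuki [Fact (Nat.Prime 2)] {F : Type} [Field F] [Fintype F] {m : ℕ} (hm : 1 ≤ m)
    (hF : Fintype.card F = 2 ^ (2 * m + 1)) {K : Type*} [Group K] [Finite K]
    (e : K ≃* ↥(Cfsg.Lie.Sz F (2 ^ (m + 1)))) : Outcome 2 K := by
  have H := H7.SzHyp.of_fintype hm hF
  haveI := H.finite_Sz
  refine Pars.outcome_of_iso (e.trans H.lieEquiv.symm) (parsOf (szPairOf H) (MonoidHom.id _) Function.surjective_id
    (ker_id_le _) ⟨H.ws, rfl⟩) (Or.inr (Or.inl ⟨?_,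
    Or.inr (Or.inr (Or.inl ⟨rfl, F, inferInstance, inferInstance, m, hm, hF, ⟨e⟩⟩))⟩))
  exact (ncard_parsOf (szPairOf H) (MonoidHom.id _) Function.surjective_id (ker_id_le _) ⟨H.ws, rfl⟩
    (fun _ : Fin 1 => H.ws) (fun _ _ _ => Subsingleton.elim _ _) (Set.range_const.trans rfl)).trans
      (Fintype.card_fin 1)

/-- The Ree groups. -/
theorem outcome_ree [Fact (Nat.Prime 3)] {F : Type} [Field F] [Fintype F] {m : ℕ} (hm : 1 ≤ m)
    (hF : Fintype.card F = 3 ^ (2 * m + 1)) {K : Type*} [Group K] [Finite K]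
    (e : K ≃* ↥(twistedG2 F (3 ^ m))) : Outcome 3 K := by
  classical
  haveI : CharP F 3 := charP_of_card_eq_prime_pow hF
  haveI : Finite ↥(twistedG2 F (3 ^ m)) := Finite.of_equiv K e.toEquiv
  set T := reeSetup F (m := m) hF with hT
  have hone : (reePairOf hF).P.S = {g1Equiv T (twistedG2 F (3 ^ m)) twistedG2_le rfl
      ⟨T.nS default, T.data.N0_le_G1 (T.data.nS_mem_N0 default)⟩} := by
    ext x
    constructor
    · rintro ⟨a, ⟨j, ha⟩, rfl⟩
      rw [show j = default from Subsingleton.elim _ _] at ha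
      exact congrArg _ (Subtype.ext ha)
    · rintro rfl
      exact ⟨_, ⟨default, rfl⟩, rfl⟩
  refine Pars.outcome_of_iso e (parsOf (reePairOf hF) (MonoidHom.id _) Function.surjective_id (ker_id_le _)
    ⟨_, hone.symm.subset (Set.mem_singleton _)⟩) (Or.inr (Or.inl ⟨?_,
    Or.inr (Or.inr (Or.inr ⟨rfl, Or.inl ⟨F, inferInstance, inferInstance, m, hm, hF, ⟨e⟩⟩⟩))⟩))
  exact (ncard_parsOf (reePairOf hF) (MonoidHom.id _) Function.surjective_id (ker_id_le _)
    ⟨_, hone.symm.subset (Set.mem_singleton _)⟩ (fun _ : Fin 1 => g1Equiv T (twistedG2 F (3 ^ m)) twistedG2_le rfl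
      ⟨T.nS default, T.data.N0_le_G1 (T.data.nS_mem_N0 default)⟩)
    (fun _ _ _ => Subsingleton.elim _ _) (Set.range_const.trans hone.symm)).trans (Fintype.card_fin 1)

set_option maxHeartbeats 1600000 in
/-- The Tits group. -/
theorem outcome_tits [Fact (Nat.Prime 2)] {K : Type*} [Group K] [Finite K] (e : K ≃* TitsGroup) : Outcome 2 K := by
  haveI : Finite TitsGroup := Finite.of_equiv K e.toEquiv
  exact Or.inl (excluded_congr (K := TitsGroup) e.symm excluded_tits)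

set_option maxHeartbeats 800000 in
/-- Every family. -/
theorem outcome_of_chev_simple {K : Type*} [Group K] [Finite K] (hK : Cfsg.IsChevSimple p K) : Outcome p K := by
  classical
  rcases hK with h | ⟨rfl, h⟩ | ⟨rfl, F, _, _, hF, ⟨e⟩⟩
  · rcases h with ⟨F, _, _, _, n, hn, hq, ⟨e⟩⟩ | ⟨F, _, _, _, m, hm, hq, ⟨e⟩⟩ |
      ⟨F, _, _, _, n, q, hF, hn, hne, ⟨e⟩⟩ | ⟨F, _, _, _, m, hm, hodd, ⟨e⟩⟩ | ⟨F, _, _, _, m, hm, ⟨e⟩⟩ |
      ⟨F, _, _, _, m, a, b, hm, hab, ⟨e⟩⟩ | ⟨F, _, _, _, he⟩ | ⟨L, _, _, _, q, hq, he⟩ |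
      ⟨rfl, F, _, _, m, hm, hF, ⟨e⟩⟩ | ⟨rfl, F, _, _, m, hm, hF, ⟨e⟩⟩ | ⟨rfl, F, _, _, m, hm, hF, ⟨e⟩⟩
    · exact outcome_psl n hn hq e
    · exact outcome_psp m hm hq e
    · exact outcome_psu hF hn hne e
    · exact outcome_omega_odd m hm hodd e
    · exact outcome_omega_plus m hm e
    · exact outcome_omega_minus (m - 1) (by omega) a b hab e
    · rcases he with ⟨h3, ⟨e⟩⟩ | ⟨⟨e⟩⟩ | ⟨⟨e⟩⟩ | ⟨⟨e⟩⟩ | ⟨⟨e⟩⟩
      · exact outcome_G2 h3 e
      · exact outcome_exceptional goodF4 (by decide +kernel) degB_F4 e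
      · exact outcome_exceptional goodE6 (by decide +kernel) degB_E6 e
      · exact outcome_exceptional goodE7 (by decide +kernel) degB_E7 e
      · exact outcome_exceptional goodE8 (by decide +kernel) degB_E8 e
    · rcases he with ⟨hc, ⟨e⟩⟩ | ⟨hc, ⟨e⟩⟩
      · exact outcome_E6 hq hc e
      · exact outcome_D4 hq hc e
    · exact outcome_suzuki hm hF e
    · exact outcome_F4 hF e
    · exact outcome_ree hm hF e
  · rcases h with ⟨⟨e⟩⟩ | ⟨F, _, _, hF, ⟨e⟩⟩ | ⟨⟨e⟩⟩
    · obtain ⟨D, hD⟩ := exists_pars_altSix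
      exact Pars.outcome_of_iso e D (Or.inr (Or.inr ⟨hD, fun _ => Or.inr (Or.inr ⟨e⟩)⟩))
    · haveI : Finite (Cfsg.PSU 3 F 3) := Finite.of_equiv K e.toEquiv
      exact Or.inl (excluded_congr e.symm (excluded_psu_three_three hF))
    · exact outcome_tits e
  · have hex : ∃ a : F, a ≠ 0 ∧ a ^ 2 ≠ 1 := by
      by_contra hc
      push Not at hc
      have hsub : (Finset.univ : Finset F) ⊆ {0, 1, -1} := fun a _ => by
        rcases eq_or_ne a 0 with h | h
        · simp [h]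
        · rcases sq_eq_one_iff.1 (hc a h) with h | h <;> simp [h]
      have h1 := (Finset.card_le_card hsub).trans Finset.card_le_three
      rw [Finset.card_univ, hF] at h1
      omega
    haveI : IsSimpleGroup (Matrix.ProjectiveSpecialLinearGroup (Fin 2) F) := H1.isSimpleGroup_PSL (Or.inr hex)
    obtain ⟨D, hD⟩ := exists_pars_504 (K := Matrix.ProjectiveSpecialLinearGroup (Fin 2) F) (by
      rw [H6.card_psl2 (F := F) hF, show Nat.gcd 2 (8 - 1) = 1 from rfl]
      norm_num)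
    exact Pars.outcome_of_iso e D (Or.inr (Or.inl ⟨hD,
      Or.inr (Or.inr (Or.inr ⟨rfl, Or.inr ⟨F, inferInstance, inferInstance, hF, ⟨e⟩⟩⟩))⟩))

/-- The theorem. -/
theorem lie_socle {X : Type*} [Group X] [Finite X] (hX : Cfsg.IsPMinimal p X) (K : Subgroup X) [K.Normal]
    (hK : Cfsg.IsChevSimple p ↥K) (U : Sylow p ↥K) :
    IsCoatom (Subgroup.normalizer (((U : Subgroup ↥K).map K.subtype : Subgroup X) : Set X)) ∧
      (Cfsg.IsLieRankOneChar p ↥K ∨ (p = 2 ∧ K ≠ ⊤ ∧ Listed ↥K)) := by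
  rcases outcome_of_chev_simple hK with h | ⟨D, hD⟩
  · exact (false_of_excluded hX K h).elim
  · obtain ⟨h1, h2, n, h3, h4⟩ := pmin_facts hX K U D
    refine ⟨h1, ?_⟩
    rcases hD with h | ⟨-, h⟩ | ⟨h, hlist⟩
    · exact absurd h h2
    · exact Or.inl h
    · have hp : p = 2 := by
        rw [h] at h3
        have hd : p ∣ 2 := by
          rcases Nat.eq_zero_or_pos n with h0 | h0
          · rw [h0, pow_zero] at h3; omega
          · exact h3 ▸ dvd_pow_self p (by omega)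
        exact (Nat.prime_dvd_prime_iff_eq Fact.out Nat.prime_two).1 hd
      exact Or.inr ⟨hp, h4.resolve_left (by omega), hlist hp⟩

end Cfsg.Agent.H64.PMin
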