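import Cfsg.Prelude.Def_LocalEven
import Mathlib

/-!
# Minimal overgroups of a Sylow normaliser in a `p`-minimal group
-/

set_option autoImplicit false

namespace Cfsg.Agent.H64.PMin

open Cfsg

variable {p : ℕ}

/-- The minimal proper overgroups of the normaliser `B` of a Sylow `p`-subgroup, forming a Boolean lattice. -/
structure Pars (p : ℕ) (K : Type*) [Group K] where
  /-- the Sylow subgroup -/
  U : Sylow p K
  /-- its normaliser -/
  B : Subgroup K
  B_eq : B = Subgroup.normalizer ((U : Subgroup K) : Set K)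
  B_ne : B ≠ ⊤
  /-- the atoms -/
  atoms : Set (Subgroup K)
  lt : ∀ P ∈ atoms, B < P
  below : ∀ Q, B < Q → ∃ P ∈ atoms, P ≤ Q
  atom : ∀ P ∈ atoms, ∀ P' ∈ atoms, P' ≤ P → P' = P
  gen : B ⊔ sSup atoms = ⊤
  proper : ∀ A, A ⊆ atoms → A ≠ atoms → B ⊔ sSup A ≠ ⊤

variable {K : Type*} [Group K]

namespace Pars

variable (D : Pars p K)

/-- An automorphism fixes `U`. -/
def Fixes (φ : MulAut K) : Prop := (D.U : Subgroup K).map φ.toMonoidHom = D.U

/-- No automorphism fixing `U` maps one given atom to another. -/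
def NotTrans : Prop :=
  ∃ P ∈ D.atoms, ∃ Q ∈ D.atoms, ∀ φ : MulAut K, D.Fixes φ → P.map φ.toMonoidHom ≠ Q

theorem U_le_B : (D.U : Subgroup K) ≤ D.B := D.B_eq ▸ Subgroup.le_normalizer

theorem map_B {φ : MulAut K} (h : D.Fixes φ) : D.B.map φ.toMonoidHom = D.B := by
  rw [D.B_eq, Subgroup.map_equiv_normalizer_eq, h]

theorem map_atom {φ : MulAut K} (h : D.Fixes φ) {P : Subgroup K} (hP : P ∈ D.atoms) :
    P.map φ.toMonoidHom ∈ D.atoms := by
  have hinj : Function.Injective (Subgroup.map φ.toMonoidHom) := Subgroup.map_injective φ.injective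
  have hlt : D.B < P.map φ.toMonoidHom := by
    rw [← D.map_B h]
    exact lt_of_le_of_ne (Subgroup.map_mono (D.lt P hP).le) fun e => (D.lt P hP).ne (hinj e)
  obtain ⟨P', hP', hle⟩ := D.below _ hlt
  have hlt' : D.B < P'.comap φ.toMonoidHom := by
    have e : D.B.comap φ.toMonoidHom = D.B := by
      conv_lhs => rw [← D.map_B h]
      exact Subgroup.comap_map_eq_self_of_injective φ.injective _
    rw [← e]
    refine lt_of_le_of_ne (Subgroup.comap_mono (D.lt P' hP').le) fun e' => (D.lt P' hP').ne ?_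
    exact Subgroup.comap_injective φ.surjective e'
  obtain ⟨P'', hP'', hle'⟩ := D.below _ hlt'
  have hP''P : P'' ≤ P := hle'.trans ((Subgroup.comap_mono hle).trans
    (Subgroup.comap_map_eq_self_of_injective φ.injective P).le)
  obtain rfl := D.atom P hP P'' hP'' hP''P
  have : P''.map φ.toMonoidHom ≤ P' := (Subgroup.map_le_iff_le_comap).2 hle'
  rwa [le_antisymm this hle]

/-- Transport by an isomorphism. -/
noncomputable def transport {L : Type*} [Group L] [Finite K] [Fact p.Prime] (e : K ≃* L) : Pars p L :=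
  let hmap : Function.Injective (Subgroup.map e.toMonoidHom) := Subgroup.map_injective e.injective
  let hinv : ∀ Q : Subgroup L, (Q.comap e.toMonoidHom).map e.toMonoidHom = Q := fun Q =>
    Subgroup.map_comap_eq_self_of_surjective e.surjective Q
  { U := D.U.mapSurjective (f := e.toMonoidHom) e.surjective
    B := D.B.map e.toMonoidHom
    B_eq := by
      rw [D.B_eq, Subgroup.map_equiv_normalizer_eq]
      rfl
    B_ne := fun h => D.B_ne (hmap (h.trans (Subgroup.map_top_of_surjective _ e.surjective).symm))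
    atoms := Subgroup.map e.toMonoidHom '' D.atoms
    lt := by
      rintro _ ⟨P, hP, rfl⟩
      exact lt_of_le_of_ne (Subgroup.map_mono (D.lt P hP).le) fun h => (D.lt P hP).ne (hmap h)
    below := fun Q hQ => by
      have : D.B < Q.comap e.toMonoidHom := by
        refine lt_of_le_of_ne ((Subgroup.map_le_iff_le_comap).1 hQ.le) fun h => hQ.ne ?_
        rw [h, hinv]
      obtain ⟨P, hP, hle⟩ := D.below _ this
      exact ⟨_, ⟨P, hP, rfl⟩, (Subgroup.map_le_iff_le_comap).2 hle⟩
    atom := by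
      rintro _ ⟨P, hP, rfl⟩ _ ⟨P', hP', rfl⟩ h
      rw [D.atom P hP P' hP' ((Subgroup.map_le_map_iff_of_injective e.injective).1 h)]
    gen := by
      have := congrArg (Subgroup.map e.toMonoidHom) D.gen
      rw [Subgroup.map_sup, Subgroup.map_top_of_surjective _ e.surjective, sSup_eq_iSup,
        Subgroup.map_iSup] at this
      simp only [Subgroup.map_iSup] at this
      rwa [sSup_image]
    proper := fun A hA hne h => by
      refine D.proper (D.atoms ∩ Subgroup.map e.toMonoidHom ⁻¹' A) Set.inter_subset_left ?_ ?_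
      · intro h'
        refine hne (hA.antisymm ?_)
        rintro _ ⟨P, hP, rfl⟩
        have : P ∈ D.atoms ∩ Subgroup.map e.toMonoidHom ⁻¹' A := h'.symm ▸ hP
        exact this.2
      · apply hmap
        rw [Subgroup.map_top_of_surjective _ e.surjective, eq_top_iff, ← h, Subgroup.map_sup]
        refine sup_le le_sup_left (sSup_le fun Q hQ => le_sup_of_le_right ?_)
        obtain ⟨P, hP, rfl⟩ := hA hQ
        exact Subgroup.map_mono (le_sSup (show P ∈ D.atoms ∩ Subgroup.map e.toMonoidHom ⁻¹' A from ⟨hP, hQ⟩)) }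

end Pars

variable {X : Type*} [Group X]

/-- The main argument. -/
theorem pmin_main [Finite X] [Fact p.Prime] (hX : Cfsg.IsPMinimal p X) (K : Subgroup X) [K.Normal]
    (U : Sylow p ↥K) (D₀ : Pars p ↥K) :
    ∃ D : Pars p ↥K,
      IsCoatom (Subgroup.normalizer (((U : Subgroup ↥K).map K.subtype : Subgroup X) : Set X)) ∧
      ¬ D.NotTrans ∧ (∃ g : MulAut ↥K, D = D₀.transport g) ∧
      ∃ e : ℕ, D.atoms.ncard = p ^ e ∧ (D.atoms.ncard = 1 ∨ K ≠ ⊤) := by
  classical
  obtain ⟨g, hg⟩ := MulAction.exists_smul_eq ↥K D₀.U U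
  set D := D₀.transport (MulAut.conj g) with hD
  have hDU : (D.U : Subgroup ↥K) = U := by
    rw [← hg, Sylow.coe_subgroup_smul]
    rfl
  refine ⟨D, ?_⟩
  set U' : Subgroup X := (U : Subgroup ↥K).map K.subtype with hU'
  set N := Subgroup.normalizer (U' : Set X) with hN
  obtain ⟨S, hS⟩ := (U.2.map K.subtype).exists_le_sylow
  have hinf : (S : Subgroup X).subgroupOf K = (U : Subgroup ↥K) := by
    refine U.3 (S.2.comap_subtype) fun u hu => ?_
    exact hS ⟨u, hu, rfl⟩
  have hSN : (S : Subgroup X) ≤ N := by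
    intro s hs
    refine Subgroup.mem_normalizer_iff.2 fun x => ⟨?_, ?_⟩
    · rintro ⟨u, hu, rfl⟩
      refine ⟨⟨s * u * s⁻¹, (inferInstance : K.Normal).conj_mem _ u.2 s⟩, ?_, rfl⟩
      show (⟨s * u * s⁻¹, (inferInstance : K.Normal).conj_mem _ u.2 s⟩ : ↥K) ∈ (U : Subgroup ↥K)
      rw [← hinf]
      exact mul_mem (mul_mem hs (hS ⟨u, hu, rfl⟩)) (inv_mem hs)
    · rintro ⟨u, hu, e⟩
      have hx : x ∈ K := by
        have := (inferInstance : K.Normal).conj_mem _ u.2 s⁻¹
        change ((u : X)) = s * x * s⁻¹ at e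
        rw [e] at this
        simpa [mul_assoc] using this
      refine ⟨⟨x, hx⟩, ?_, rfl⟩
      show (⟨x, hx⟩ : ↥K) ∈ (U : Subgroup ↥K)
      rw [← hinf]
      show x ∈ (S : Subgroup X)
      have h1 : s * x * s⁻¹ ∈ (S : Subgroup X) := e ▸ hS ⟨u, hu, rfl⟩
      simpa [mul_assoc] using mul_mem (mul_mem (inv_mem hs) h1) hs
  have hfix : ∀ n ∈ N, D.Fixes (MulAut.conjNormal (H := K) n) := by
    intro n hn
    show (D.U : Subgroup ↥K).map _ = (D.U : Subgroup ↥K)
    rw [hDU]
    ext x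
    simp only [Subgroup.mem_map, MulEquiv.coe_toMonoidHom]
    refine ⟨?_, fun hx => ?_⟩
    · rintro ⟨u, hu, rfl⟩
      obtain ⟨v, hv, e⟩ := (Subgroup.mem_normalizer_iff.1 hn (u : X)).1 ⟨u, hu, rfl⟩
      rwa [show MulAut.conjNormal n u = v from Subtype.ext ((MulAut.conjNormal_apply n u).trans e.symm)]
    · obtain ⟨v, hv, e⟩ := (Subgroup.mem_normalizer_iff.1 (inv_mem hn) (x : X)).1 ⟨x, hx, rfl⟩
      refine ⟨v, hv, Subtype.ext ?_⟩
      change (v : X) = n⁻¹ * x * n⁻¹⁻¹ at e
      rw [MulAut.conjNormal_apply, e]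
      group
  have hB : N.subgroupOf K = D.B := by
    rw [D.B_eq, hDU]
    ext k
    rw [Subgroup.mem_subgroupOf, hN, Subgroup.mem_normalizer_iff, Subgroup.mem_normalizer_iff]
    constructor
    · intro h x
      refine ⟨fun hx => ?_, fun hx => ?_⟩
      · obtain ⟨v, hv, e⟩ := (h (x : X)).1 ⟨x, hx, rfl⟩
        rwa [show k * x * k⁻¹ = v from Subtype.ext e.symm]
      · obtain ⟨v, hv, e⟩ := (h (x : X)).2 ⟨_, hx, rfl⟩
        rwa [show x = v from Subtype.ext e.symm]
    · intro h x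
      constructor
      · rintro ⟨u, hu, rfl⟩
        exact ⟨k * u * k⁻¹, (h u).1 hu, rfl⟩
      · rintro ⟨u, hu, e⟩
        refine ⟨k⁻¹ * u * k, (h _).2 (by rw [show k * (k⁻¹ * u * k) * k⁻¹ = u by group]; exact hu), ?_⟩
        show ((k : X)⁻¹ * (u : X) * (k : X)) = x
        change (u : X) = _ at e
        rw [e]
        group
  have hNtop : N ≠ ⊤ := fun h => D.B_ne (by rw [← hB, h, Subgroup.top_subgroupOf])
  obtain ⟨M, ⟨hMc, hSM⟩, huniq⟩ := (hX S).2
  have key : ∀ H : Subgroup X, (S : Subgroup X) ≤ H → H ≠ ⊤ → H ≤ M := by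
    intro H hSH hH
    rcases eq_top_or_exists_le_coatom H with h | ⟨C, hC, hHC⟩
    · exact absurd h hH
    · exact huniq C ⟨hC, hSH.trans hHC⟩ ▸ hHC
  -- the images of an atom
  set orb : Subgroup ↥K → Set (Subgroup ↥K) := fun P =>
    {Q | ∃ s ∈ (S : Subgroup X), P.map (MulAut.conjNormal (H := K) s).toMonoidHom = Q} with horb
  have horb_sub : ∀ P ∈ D.atoms, orb P ⊆ D.atoms := by
    rintro P hP _ ⟨s, hs, rfl⟩
    exact D.map_atom (hfix s (hSN hs)) hP
  have hcomp : ∀ (P : Subgroup ↥K) (s t : X),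
      (P.map (MulAut.conjNormal (H := K) s).toMonoidHom).map (MulAut.conjNormal (H := K) t).toMonoidHom =
        P.map (MulAut.conjNormal (H := K) (t * s)).toMonoidHom := fun P s t => by
    rw [Subgroup.map_map, map_mul]
    rfl
  obtain ⟨P₀, hP₀, hfull⟩ : ∃ P ∈ D.atoms, orb P = D.atoms := by
    by_contra hcon
    push Not at hcon
    have hall : ∀ P ∈ D.atoms, P.map K.subtype ≤ M := by
      intro P hP
      set R : Subgroup ↥K := D.B ⊔ sSup (orb P) with hR
      have hRne : R ≠ ⊤ := D.proper _ (horb_sub P hP) (hcon P hP)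
      have hSR : ∀ s ∈ (S : Subgroup X), R.map (MulAut.conjNormal (H := K) s).toMonoidHom ≤ R := by
        intro s hs
        rw [hR, Subgroup.map_sup, D.map_B (hfix s (hSN hs))]
        refine sup_le_sup_left ?_ _
        rw [Subgroup.map_le_iff_le_comap]
        refine sSup_le ?_
        rintro _ ⟨t, ht, rfl⟩
        rw [← Subgroup.map_le_iff_le_comap, hcomp]
        exact le_sSup ⟨s * t, mul_mem hs ht, rfl⟩
      have hnorm : (S : Subgroup X) ≤ Subgroup.normalizer ((R.map K.subtype : Subgroup X) : Set X) := by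
        intro s hs
        have h1 : ∀ s ∈ (S : Subgroup X), ∀ x ∈ R.map K.subtype, s * x * s⁻¹ ∈ R.map K.subtype := by
          rintro s hs _ ⟨r, hr, rfl⟩
          exact ⟨MulAut.conjNormal s r, hSR s hs ⟨r, hr, rfl⟩, MulAut.conjNormal_apply s r⟩
        exact Subgroup.mem_normalizer_iff.2 fun x => ⟨h1 s hs x, fun hx => by
          simpa [mul_assoc] using h1 s⁻¹ (inv_mem hs) _ hx⟩
      have hne : R.map K.subtype ⊔ (S : Subgroup X) ≠ ⊤ := by
        intro htop
        apply hRne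
        rw [eq_top_iff]
        intro k _
        have hk : (k : X) ∈ ((R.map K.subtype ⊔ (S : Subgroup X) : Subgroup X) : Set X) := by
          rw [htop]; trivial
        rw [Subgroup.coe_mul_of_right_le_normalizer_left _ _ hnorm] at hk
        obtain ⟨_, ⟨r, hr, rfl⟩, s, hs, e⟩ := Set.mem_mul.1 hk
        have hsK : s ∈ K := by
          have : (r : X)⁻¹ * k ∈ K := mul_mem (inv_mem r.2) k.2
          rwa [← e, Subgroup.coe_subtype, inv_mul_cancel_left] at this
        have hs' : (⟨s, hsK⟩ : ↥K) ∈ D.B := D.U_le_B (by rw [hDU, ← hinf]; exact hs)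
        rw [show k = r * ⟨s, hsK⟩ from Subtype.ext e.symm]
        exact mul_mem hr (le_sup_left (α := Subgroup ↥K) hs')
      refine le_trans (Subgroup.map_mono ?_) (le_sup_left.trans (key _ le_sup_right hne))
      exact le_sup_of_le_right (le_sSup ⟨1, one_mem _, by rw [map_one]; exact Subgroup.map_id P⟩)
    have hKM : K ≤ M := by
      have h1 : (⊤ : Subgroup ↥K) ≤ M.subgroupOf K := by
        rw [← D.gen]
        refine sup_le ?_ (sSup_le fun P hP => (Subgroup.map_le_iff_le_comap).1 (hall P hP))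
        rw [← hB]
        exact Subgroup.comap_mono (key N hSN hNtop)
      intro x hx
      exact h1 (Subgroup.mem_top (⟨x, hx⟩ : ↥K))
    refine hMc.1 (eq_top_iff.2 ?_)
    rw [← Sylow.normalizer_sup_eq_top U]
    exact sup_le (key N hSN hNtop) hKM
  have htrans : ∀ P ∈ D.atoms, ∀ Q ∈ D.atoms, ∃ s ∈ (S : Subgroup X),
      P.map (MulAut.conjNormal (H := K) s).toMonoidHom = Q := by
    intro P hP Q hQ
    obtain ⟨s, hs, rfl⟩ := hfull.symm ▸ hP
    obtain ⟨t, ht, rfl⟩ := hfull.symm ▸ hQ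
    exact ⟨t * s⁻¹, mul_mem ht (inv_mem hs), by rw [hcomp, inv_mul_cancel_right]⟩
  refine ⟨⟨hNtop, fun H hNH => ?_⟩, ?_, ⟨_, hD⟩, ?_⟩
  · -- maximality
    by_contra hH
    have hNH' : N ≤ H := hNH.le
    set Hc := H.subgroupOf K with hHc
    have hBle : D.B ≤ Hc := hB ▸ Subgroup.comap_mono hNH'
    have hKN : ∀ x : X, ∃ k : ↥K, ∃ n ∈ N, x = k * n := fun x => by
      have hx : x ∈ ((K ⊔ N : Subgroup X) : Set X) := by
        rw [sup_comm, hN, hU', Sylow.normalizer_sup_eq_top U]; trivial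
      rw [Subgroup.normal_mul] at hx
      obtain ⟨k, hk, n, hn, e⟩ := Set.mem_mul.1 hx
      exact ⟨⟨k, hk⟩, n, hn, e.symm⟩
    have hne : D.B ≠ Hc := by
      intro h
      refine hNH.ne (le_antisymm hNH' fun x hx => ?_)
      obtain ⟨k, n, hn, rfl⟩ := hKN x
      have hk : k ∈ N.subgroupOf K := by
        rw [hB, h]
        show (k : X) ∈ H
        exact (Subgroup.mul_mem_cancel_right _ (hNH' hn)).1 hx
      exact mul_mem hk hn
    obtain ⟨P, hP, hPH⟩ := D.below Hc (lt_of_le_of_ne hBle hne)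
    apply hH
    have htop : ⊤ ≤ Hc := by
      rw [← D.gen]
      refine sup_le hBle (sSup_le fun Q hQ => ?_)
      obtain ⟨s, hs, rfl⟩ := htrans P hP Q hQ
      rw [Subgroup.map_le_iff_le_comap]
      intro x hx
      show ((MulAut.conjNormal s x : ↥K) : X) ∈ H
      rw [MulAut.conjNormal_apply]
      exact mul_mem (mul_mem (hNH' (hSN hs)) (hPH hx)) (inv_mem (hNH' (hSN hs)))
    rw [eq_top_iff]
    intro x _
    obtain ⟨k, n, hn, rfl⟩ := hKN x
    exact mul_mem (htop (Subgroup.mem_top k)) (hNH' hn)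
  · rintro ⟨P, hP, Q, hQ, h⟩
    obtain ⟨s, hs, e⟩ := htrans P hP Q hQ
    exact h _ (hfix s (hSN hs)) e
  · letI : MulAction ↥(S : Subgroup X) (Subgroup ↥K) :=
      { smul := fun s P => P.map (MulAut.conjNormal (H := K) (s : X)).toMonoidHom
        one_smul := fun P => by
          show P.map (MulAut.conjNormal (H := K) ((1 : ↥(S : Subgroup X)) : X)).toMonoidHom = P
          rw [OneMemClass.coe_one, map_one]
          exact Subgroup.map_id P
        mul_smul := fun s t P => (hcomp P t s).symm }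
    have horbit : MulAction.orbit ↥(S : Subgroup X) P₀ = D.atoms := by
      rw [← hfull]
      ext Q
      constructor
      · rintro ⟨s, rfl⟩; exact ⟨s, s.2, rfl⟩
      · rintro ⟨s, hs, rfl⟩; exact ⟨⟨s, hs⟩, rfl⟩
    obtain ⟨e, he⟩ := S.2.card_orbit P₀
    refine ⟨e, by rw [← he, ← horbit, ← Nat.card_coe_set_eq], ?_⟩
    by_cases hK : K = ⊤
    · left
      rw [Set.ncard_eq_one]
      refine ⟨P₀, Set.eq_singleton_iff_unique_mem.2 ⟨hP₀, fun Q hQ => ?_⟩⟩
      obtain ⟨s, hs, rfl⟩ := htrans P₀ hP₀ Q hQ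
      have hsK : s ∈ K := hK ▸ Subgroup.mem_top s
      have hsP : (⟨s, hsK⟩ : ↥K) ∈ P₀ := (D.lt P₀ hP₀).le (D.U_le_B (by rw [hDU, ← hinf]; exact hs))
      ext x
      simp only [Subgroup.mem_map, MulEquiv.coe_toMonoidHom]
      constructor
      · rintro ⟨y, hy, rfl⟩
        rw [show MulAut.conjNormal s y = ⟨s, hsK⟩ * y * ⟨s, hsK⟩⁻¹ from
          Subtype.ext (MulAut.conjNormal_apply s y)]
        exact mul_mem (mul_mem hsP hy) (inv_mem hsP)
      · intro hx
        refine ⟨⟨s, hsK⟩⁻¹ * x * ⟨s, hsK⟩, mul_mem (mul_mem (inv_mem hsP) hx) hsP, Subtype.ext ?_⟩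
        rw [MulAut.conjNormal_apply]
        simp [mul_assoc]
    · exact Or.inr hK

end Cfsg.Agent.H64.PMin
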