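import Cfsg.Agent.H64.PMin.Exclude
import Cfsg.Agent.H64.PMin.Exceptional
import Cfsg.Agent.H91.Overgroup.TitsInst
import Cfsg.Agent.H46.G2Two.Model
import Cfsg.Agent.H23.AutPSU.Main

/-!
# The derived groups of `G₂(2)` and `²F₄(2)`
-/

set_option autoImplicit false
set_option maxRecDepth 100000

namespace Cfsg.Agent.H64.PMin

open Cfsg Cfsg.Agent.H8 Cfsg.Agent.H91.Overgroup

section Index

variable {G : Type*} [Group G] [Finite G] (P : BNPair G) (K : Subgroup G)

/-- The intersection with `K` of a minimal parabolic. -/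
def meet1 (s : G) : Subgroup ↥K := (P.parabolic {s}).subgroupOf K

variable {P K}

theorem exists_mul_of_index_two (hK : K.index = 2) {c : G} (hc : c ∈ P.B) (hcK : c ∉ K) {Q : Subgroup G}
    (hQ : P.B ≤ Q) {g : G} (hg : g ∈ Q) : ∃ k ∈ K, k ∈ Q ∧ ∃ b ∈ P.B, g = k * b := by
  by_cases h : g ∈ K
  · exact ⟨g, h, hg, 1, one_mem _, (mul_one g).symm⟩
  · refine ⟨g * c⁻¹, (Subgroup.mul_mem_iff_of_index_two hK).2 (iff_of_false h fun h' => hcK (inv_mem_iff.1 h')),
      mul_mem hg (inv_mem (hQ hc)), c, hc, by group⟩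

/-- The exclusion criterion for a normal subgroup of index two. -/
theorem excluded_index_two (hK : K.index = 2) {c : G} (hc : c ∈ P.B) (hcK : c ∉ K)
    (hB : IsPGroup 2 ↥P.B) (hodd : ¬ 2 ∣ P.B.index) {s₀ s₁ : G} (hS : P.S = {s₀, s₁}) (hne : s₀ ≠ s₁)
    (hnn : Subgroup.normalizer (((P.B ⊓ K).subgroupOf K : Subgroup ↥K) : Set ↥K) ≠ ⊤)
    (hinv : ∀ φ : MulAut ↥K, ((P.B ⊓ K).subgroupOf K).map φ.toMonoidHom = (P.B ⊓ K).subgroupOf K →
      ∀ s ∈ P.S, (meet1 P K s).map φ.toMonoidHom = meet1 P K s) : Excluded 2 ↥K := by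
  haveI : K.Normal := Subgroup.normal_of_index_eq_two hK
  haveI : Fact (Nat.Prime 2) := ⟨Nat.prime_two⟩
  set U₀ : Subgroup ↥K := (P.B ⊓ K).subgroupOf K with hU₀
  have hs₀ : s₀ ∈ P.S := by rw [hS]; exact Set.mem_insert _ _
  have hs₁ : s₁ ∈ P.S := by rw [hS]; exact Set.mem_insert_of_mem _ rfl
  have hrel : K.relIndex P.B = 2 := by
    have hd : K.relIndex P.B ∣ 2 := hK ▸ Subgroup.relIndex_dvd_index_of_normal K P.B
    exact ((Nat.dvd_prime Nat.prime_two).1 hd).resolve_left fun h => hcK (Subgroup.relIndex_eq_one.1 h hc)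
  have hidx : U₀.index = P.B.index := by
    have h1 := Subgroup.relIndex_mul_index (inf_le_left : P.B ⊓ K ≤ P.B)
    have h2 := Subgroup.relIndex_mul_index (inf_le_right : P.B ⊓ K ≤ K)
    rw [Subgroup.inf_relIndex_left, hrel] at h1
    rw [← h1, hK] at h2
    show (P.B ⊓ K).relIndex K = P.B.index
    omega
  have hpU : IsPGroup 2 ↥U₀ := (hB.to_le inf_le_left).comap_subtype
  have hndvd : ¬ 2 ∣ U₀.index := hidx ▸ hodd
  have hUQ : ∀ s, U₀ ≤ meet1 P K s := fun s x hx => BN.B_le_parabolic _ (Subgroup.mem_inf.1 hx).1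
  have hbad : ∀ Q : Subgroup G, P.B ≤ Q → Q.subgroupOf K = ⊤ → Q = ⊤ := fun Q hQ h => eq_top_iff.2 fun g _ => by
    obtain ⟨k, hk, -, b, hb, rfl⟩ := exists_mul_of_index_two hK hc hcK (le_top : P.B ≤ ⊤) (Subgroup.mem_top g)
    exact mul_mem (h.symm ▸ Subgroup.mem_top (⟨k, hk⟩ : ↥K) : (⟨k, hk⟩ : ↥K) ∈ Q.subgroupOf K) (hQ hb)
  have hproper : ∀ s t, s ∈ P.S → t ∈ P.S → s ≠ t → meet1 P K s ≠ ⊤ := fun s t hs ht hst h => hst
    (BN.mem_of_mem_parabolic (Set.singleton_subset_iff.2 hs) ht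
      ((hbad _ (BN.B_le_parabolic _) h).symm ▸ Subgroup.mem_top t)).symm
  refine ⟨hpU.toSylow hndvd, meet1 P K s₀, meet1 P K s₁, hUQ _, hUQ _, hproper _ _ hs₀ hs₁ hne,
    hproper _ _ hs₁ hs₀ hne.symm, ?_, ?_, fun φ hφ => ⟨hinv φ hφ s₀ hs₀, hinv φ hφ s₁ hs₁⟩⟩
  · -- generation
    set H := (meet1 P K s₀ ⊔ meet1 P K s₁).map K.subtype with hH
    have hQH : ∀ s, s = s₀ ∨ s = s₁ → P.parabolic {s} ⊓ K ≤ H := by
      rintro s hs x ⟨hx, hxK⟩
      refine ⟨⟨x, hxK⟩, ?_, rfl⟩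
      rcases hs with rfl | rfl
      · exact Subgroup.mem_sup_left hx
      · exact Subgroup.mem_sup_right hx
    have hHK : H ≤ K := Subgroup.map_subtype_le _
    have hBH : P.B ≤ Subgroup.normalizer (H : Set G) := by
      have key : ∀ b ∈ P.B, ∀ x ∈ H, b * x * b⁻¹ ∈ H := by
        intro b hb
        have hle : ∀ s, s = s₀ ∨ s = s₁ → (meet1 P K s).map K.subtype ≤ H.comap (MulAut.conj b).toMonoidHom := by
          rintro s hs x ⟨y, hy, rfl⟩
          exact hQH s hs ⟨(P.parabolic {s}).mul_mem ((P.parabolic {s}).mul_mem (BN.B_le_parabolic _ hb) hy)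
            ((P.parabolic {s}).inv_mem (BN.B_le_parabolic _ hb)),
            (inferInstance : K.Normal).conj_mem y y.2 b⟩
        have hle' : H ≤ H.comap (MulAut.conj b).toMonoidHom := by
          refine le_of_eq_of_le (Subgroup.map_sup (meet1 P K s₀) (meet1 P K s₁) K.subtype) ?_
          exact sup_le (hle s₀ (Or.inl rfl)) (hle s₁ (Or.inr rfl))
        exact fun x hx => hle' hx
      intro b hb
      exact Subgroup.mem_normalizer_iff.2 fun x => ⟨key b hb x, fun h => by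
        simpa [mul_assoc] using key b⁻¹ (inv_mem hb) _ h⟩
    have hsup : H ⊔ P.B = ⊤ := eq_top_iff.2 <| by
      rw [← BN.parabolic_self (P := P)]
      refine sup_le le_sup_right ((Subgroup.closure_le _).2 fun s hs => ?_)
      obtain ⟨k, hk, hkQ, b, hb, e⟩ := exists_mul_of_index_two hK hc hcK (BN.B_le_parabolic ({s} : Set G))
        (BN.subset_parabolic _ rfl : s ∈ P.parabolic {s})
      rw [e]
      refine mul_mem (Subgroup.mem_sup_left (hQH s ?_ ⟨hkQ, hk⟩)) (Subgroup.mem_sup_right hb)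
      simpa [hS] using hs
    rw [eq_top_iff]
    intro x _
    have hx : (x : G) ∈ ((H ⊔ P.B : Subgroup G) : Set G) := by rw [hsup]; trivial
    rw [Subgroup.coe_mul_of_right_le_normalizer_left _ _ hBH] at hx
    obtain ⟨h, hh, b, hb, e⟩ := Set.mem_mul.1 hx
    have hbK : b ∈ K := by
      have : h⁻¹ * (x : G) ∈ K := mul_mem (inv_mem (hHK hh)) x.2
      rwa [← e, inv_mul_cancel_left] at this
    obtain ⟨y, hy, rfl⟩ := hh
    rw [show x = y * ⟨b, hbK⟩ from Subtype.ext e.symm]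
    exact mul_mem hy (Subgroup.mem_sup_left (hUQ s₀ ⟨hb, hbK⟩))
  · exact hnn

/-- A simple group of order divisible by an odd prime has no normal `2`-subgroup. -/
theorem normalizer_ne_top [IsSimpleGroup ↥K] (hB : IsPGroup 2 ↥P.B) (hbig : P.B ⊓ K ≠ ⊥) {r : ℕ} (hr : r.Prime)
    (hr2 : r ≠ 2) (hdvd : r ∣ Nat.card ↥K) :
    Subgroup.normalizer (((P.B ⊓ K).subgroupOf K : Subgroup ↥K) : Set ↥K) ≠ ⊤ := fun h => by
  have hp : IsPGroup 2 ↥((P.B ⊓ K).subgroupOf K) := (hB.to_le inf_le_left).comap_subtype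
  rcases IsSimpleGroup.eq_bot_or_eq_top_of_normal _ (Subgroup.normalizer_eq_top_iff.1 h) with h1 | h1
  · refine hbig ?_
    rwa [Subgroup.subgroupOf_eq_bot, disjoint_iff, inf_assoc, inf_idem] at h1
  · haveI : Fact (Nat.Prime 2) := ⟨Nat.prime_two⟩
    obtain ⟨n, hn⟩ := hp.exists_card_eq
    rw [h1, Subgroup.card_top] at hn
    exact hr2 ((Nat.prime_dvd_prime_iff_eq hr Nat.prime_two).1 (hr.dvd_of_dvd_pow (hn ▸ hdvd)))

end Index

section UThree

open Cfsg.Lie Cfsg.Agent.H46 Cfsg.Agent.H46.G2Two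

/-- The reflections of `G₂`. -/
theorem g2_simple_perm : (goodG2.sPerm ⟨0, by decide +kernel⟩ ⟨8, by decide +kernel⟩).val ≥ 6 ∧
    chevG2.simple 0 = 7 ∧ chevG2.simple 1 = 6 ∧ chevG2.rank = 2 := by
  decide +kernel

theorem g2_neg_perm : ∀ i : Fin chevG2.rank,
    (goodG2.sPerm i ⟨chevG2.simple i, goodG2.simple_lt i.2⟩).val < 6 := by
  decide +kernel

theorem g2_sign : ∀ r : Fin 12, r = 7 ∨ r = 8 →
    Equiv.Perm.sign (⟨fun j => ⟨tauN r j, (tau_check r j).1⟩, fun j => ⟨tauN r j, (tau_check r j).1⟩,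
      fun j => Fin.ext (tau_check r j).2.1, fun j => Fin.ext (tau_check r j).2.1⟩ : Equiv.Perm (Fin 63)) = -1 := by
  intro r hr
  rcases hr with rfl | rfl <;> decide +kernel

set_option maxHeartbeats 1600000 in
theorem excluded_psu_three_three {F : Type} [Field F] [Fintype F] (hF : Fintype.card F = 9) :
    Excluded 2 (PSU 3 F 3) := by
  classical
  haveI : Fact (Nat.Prime 2) := ⟨Nat.prime_two⟩
  haveI : Fact (Nat.Prime 3) := ⟨Nat.prime_three⟩
  have hE : Fintype.card (ZMod 2) = 2 := ZMod.card 2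
  obtain ⟨e⟩ := g2Two_equiv hE hF
  obtain ⟨ι, -⟩ := exists_zmod_hom hE
  have hcardG : Nat.card ↥(chevG2.group (ZMod 2)) = 12096 := by rw [S1059.result hE]; norm_num
  have hcardK : Nat.card ↥(commutator ↥(chevG2.group (ZMod 2))) = 6048 := by
    rw [Nat.card_congr e.toEquiv, card_psu33 hF]
  have hidx : (commutator ↥(chevG2.group (ZMod 2))).index = 2 := by
    have h := (commutator ↥(chevG2.group (ZMod 2))).card_mul_index
    rw [hcardG, hcardK] at h
    omega
  have hF2 : Fintype.card F = 3 ^ 2 := by rw [hF]; norm_num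
  haveI : IsSimpleGroup (PSU 3 F 3) := H3.isSimpleGroup_PSU hF2 le_rfl (by norm_num)
  haveI hsimple : IsSimpleGroup ↥(commutator ↥(chevG2.group (ZMod 2))) := e.isSimpleGroup_congr.2 inferInstance
  haveI : Finite (PSU 3 F 3) := Nat.finite_of_card_ne_zero (by rw [card_psu33 hF]; norm_num)
  have hr : 0 < chevG2.rank := by decide +kernel
  obtain ⟨hperm8, hs0, hs1, hrank⟩ := g2_simple_perm
  set D := chevPairOf goodG2 hr (F := ZMod 2) 2 with hD
  set K := commutator ↥(chevG2.group (ZMod 2)) with hK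
  -- parity of the root elements
  have hsign : ∀ r : Fin 12, r = 7 ∨ r = 8 → genG (F := ZMod 2) r ∉ K := by
    intro r hr' hmem
    have h1 := Abelianization.commutator_subset_ker (Equiv.Perm.sign.comp (psi hE ι)) hmem
    rw [MonoidHom.mem_ker, MonoidHom.comp_apply] at h1
    have hp : psi hE ι (genG r) = ⟨fun j => ⟨tauN r j, (tau_check r j).1⟩, fun j => ⟨tauN r j, (tau_check r j).1⟩,
        fun j => Fin.ext (tau_check r j).2.1, fun j => Fin.ext (tau_check r j).2.1⟩ :=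
      Equiv.ext fun j => Fin.ext (psi_gen hE ι r j)
    rw [hp, g2_sign r hr'] at h1
    exact absurd h1 (by decide)
  have hpos : ∀ r : ℕ, 6 ≤ r → r < 12 → chevG2.IsPosRoot r := fun r h1 h2 =>
    goodG2.isPosRoot_iff.2 ⟨by rw [show chevG2.nroots = 12 from by decide +kernel]; omega,
      by rw [show chevG2.nroots = 12 from by decide +kernel]; omega⟩
  have hxB : ∀ r : ℕ, 6 ≤ r → r < 12 → goodG2.xG r (1 : ZMod 2) ∈ D.P.B := fun r h1 h2 =>
    (goodG2.xg_mem_borel (hpos r h1 h2) 1 : _)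
  have hc : genG (F := ZMod 2) 7 ∈ D.P.B := hxB 7 (by norm_num) (by norm_num)
  have hcK : genG (F := ZMod 2) 7 ∉ K := hsign 7 (Or.inl rfl)
  have hBU : D.P.B = D.U := by
    refine le_antisymm (fun b hb => ?_) D.U_le
    obtain ⟨u, hu, t, ht, rfl⟩ := D.dec b hb
    have hd : (t : GL chevG2.Idx (ZMod 2)) ∈ chevG2.diagonalSubgroup (ZMod 2) := by
      rw [← goodG2.borel_inf_monomial]; exact ht
    obtain ⟨z, hz⟩ := goodG2.mem_diagonal.1 hd
    have : t = 1 := Subtype.ext (by rw [hz, Subsingleton.elim z 1, map_one]; rfl)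
    rwa [this, mul_one]
  obtain ⟨S, hSU⟩ := D.exists_sylow
  have hB : IsPGroup 2 ↥D.P.B := hBU ▸ D.isPGroup
  have hodd : ¬ 2 ∣ D.P.B.index := by rw [hBU, ← hSU]; exact S.not_dvd_index
  have hcore : D.P.B.normalCore = ⊥ := goodG2.normalCore_borel
  have hSset : D.P.S = {refl goodG2 ⟨0, hr⟩, refl goodG2 ⟨1, by omega⟩} := by
    rw [hD, ← range_refl (F := ZMod 2) (p := 2) goodG2 hr]
    ext x
    constructor
    · rintro ⟨i, rfl⟩
      have := i.2
      rcases Nat.lt_or_ge i.val 1 with h | h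
      · exact Or.inl (congrArg _ (Fin.ext (show i.val = 0 by omega)))
      · exact Or.inr (congrArg _ (Fin.ext (show i.val = 1 by omega)))
    · rintro (rfl | rfl) <;> exact Set.mem_range_self _
  refine excluded_congr e (excluded_index_two (P := D.P) hidx hc hcK hB hodd hSset
    (fun h => absurd (congrArg Fin.val (refl_injective (F := ZMod 2) goodG2 hr h)) (by norm_num))
    (normalizer_ne_top hB ?_ Nat.prime_three (by norm_num) (by rw [hcardK]; norm_num)) ?_)
  · intro hbot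
    have h1 : D.P.B.index * Nat.card ↥D.P.B = 12096 := by rw [mul_comm, D.P.B.card_mul_index, hcardG]
    have h2 : Nat.card ↥D.P.B = K.relIndex D.P.B := by
      rw [← Subgroup.relIndex_bot_left, ← hbot, Subgroup.inf_relIndex_left]
    have h3 : K.relIndex D.P.B ∣ K.index := Subgroup.relIndex_dvd_index_of_normal K D.P.B
    rw [hidx] at h3
    rw [← h2] at h3
    have h4 := Nat.le_of_dvd two_pos h3
    have h5 : 0 < Nat.card ↥D.P.B := Nat.card_pos
    exact hodd (by interval_cases (Nat.card ↥D.P.B) <;> omega)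
  intro φ hφ
  -- every automorphism comes from the whole group
  set Ψ : ↥(chevG2.group (ZMod 2)) →* MulAut ↥K := MulAut.conjNormal with hΨ
  have hker : Ψ.ker = ⊥ := by
    rcases IsSimpleGroup.eq_bot_or_eq_top_of_normal (Ψ.ker.subgroupOf K)
      (inferInstance : (Ψ.ker.subgroupOf K).Normal) with h | h
    · have h2 : Nat.card ↥Ψ.ker ∣ 2 := by
        have h3 := Subgroup.relIndex_dvd_index_of_normal K Ψ.ker
        rw [Subgroup.subgroupOf_eq_bot, disjoint_iff] at h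
        rw [hidx, ← Subgroup.inf_relIndex_left, h, Subgroup.relIndex_bot_left] at h3
        exact h3
      have hp : IsPGroup 2 ↥Ψ.ker := by
        rcases (Nat.dvd_prime Nat.prime_two).1 h2 with h3 | h3
        · exact IsPGroup.of_card (n := 0) (by rw [h3, pow_zero])
        · exact IsPGroup.of_card (n := 1) (by rw [h3, pow_one])
      have hle : Ψ.ker ≤ D.P.B := by
        have hsup : IsPGroup 2 ↥((S : Subgroup _) ⊔ Ψ.ker) := S.2.to_sup_of_normal_right hp
        rw [hBU, ← hSU, ← S.3 hsup le_sup_left]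
        exact le_sup_right
      exact le_bot_iff.1 (hcore ▸ Subgroup.normal_le_normalCore.2 hle)
    · exfalso
      have hcomm : ∀ a b : ↥K, a * b = b * a := fun a b => by
        have ha : (a : ↥(chevG2.group (ZMod 2))) ∈ Ψ.ker := Subgroup.mem_subgroupOf.1 (h ▸ Subgroup.mem_top a)
        have h1 := congrArg Subtype.val (DFunLike.congr_fun (MonoidHom.mem_ker.1 ha) b)
        rw [hΨ, MulAut.conjNormal_apply, MulAut.one_apply, mul_inv_eq_iff_eq_mul] at h1
        exact Subtype.ext h1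
      letI : CommGroup ↥K := { (inferInstance : Group ↥K) with mul_comm := hcomm }
      have hp : (Nat.card ↥K).Prime := IsSimpleGroup.prime_card
      rw [hcardK] at hp
      norm_num at hp
  have hsurj : Function.Surjective Ψ := by
    haveI : Finite (MulAut ↥K) := Finite.of_injective (fun θ : MulAut ↥K => (θ : ↥K → ↥K)) DFunLike.coe_injective
    refine ((Nat.bijective_iff_injective_and_card _).2 ⟨(MonoidHom.ker_eq_bot_iff Ψ).1 hker, ?_⟩).2
    rw [hcardG, Nat.card_congr (MulAut.congr e).toEquiv,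
      H23.AutPSU.card_aut (p := 3) (f := 1) (q := 3) le_rfl (by norm_num) hF2 le_rfl (by norm_num), card_psu33 hF]
    norm_num
  obtain ⟨g, rfl⟩ := hsurj φ
  -- the conjugating element normalises the Borel intersection, hence lies in the Borel subgroup
  have hgN : g ∈ Subgroup.normalizer ((D.P.B ⊓ K : Subgroup ↥(chevG2.group (ZMod 2))) : Set _) := by
    have hinj : ∀ x, g * x * g⁻¹ ∈ D.P.B ⊓ K ↔ x ∈ D.P.B ⊓ K := fun x => by
      constructor
      · intro hx
        have hm : (⟨g * x * g⁻¹, (Subgroup.mem_inf.1 hx).2⟩ : ↥K) ∈ (D.P.B ⊓ K).subgroupOf K := hx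
        rw [← hφ] at hm
        obtain ⟨u, hu, eu⟩ := hm
        have e2 : g * (u : ↥(chevG2.group (ZMod 2))) * g⁻¹ = g * x * g⁻¹ :=
          (MulAut.conjNormal_apply g u).symm.trans (congrArg Subtype.val eu)
        rwa [← mul_left_cancel (mul_right_cancel e2)]
      · intro hx
        have hm : (Ψ g) ⟨x, (Subgroup.mem_inf.1 hx).2⟩ ∈ (D.P.B ⊓ K).subgroupOf K := hφ ▸ ⟨_, hx, rfl⟩
        rwa [Subgroup.mem_subgroupOf, hΨ, MulAut.conjNormal_apply] at hm
    exact Subgroup.mem_normalizer_iff.2 fun x => (hinj x).symm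
  have hBN : D.P.B ≤ Subgroup.normalizer ((D.P.B ⊓ K : Subgroup ↥(chevG2.group (ZMod 2))) : Set _) :=
    fun b hb => Subgroup.mem_normalizer_iff.2 fun x =>
      ⟨fun hx => ⟨D.P.B.mul_mem (D.P.B.mul_mem hb hx.1) (D.P.B.inv_mem hb),
        (inferInstance : K.Normal).conj_mem x hx.2 b⟩, fun hx => by
        have h1 := D.P.B.mul_mem (D.P.B.mul_mem (D.P.B.inv_mem hb) hx.1) hb
        have h2 := (inferInstance : K.Normal).conj_mem _ hx.2 b⁻¹
        exact ⟨by simpa [mul_assoc] using h1, by simpa [mul_assoc] using h2⟩⟩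
  have hmon : ∀ i, (refl (F := ZMod 2) goodG2 i : GL chevG2.Idx (ZMod 2)) ∈ chevG2.monomialSubgroup (ZMod 2) :=
    refl_mem goodG2
  have hin : ∀ (i : Fin chevG2.rank) (r : Fin chevG2.nroots), 6 ≤ (goodG2.sPerm i r).val →
      refl goodG2 i * goodG2.xG r (1 : ZMod 2) * (refl goodG2 i)⁻¹ ∈ D.P.B := by
    intro i r h
    obtain ⟨c', hc'⟩ := goodG2.conj_xg_eq (hmon i) r
    show (refl (F := ZMod 2) goodG2 i : GL chevG2.Idx (ZMod 2)) * goodG2.xg r (1 : ZMod 2) *
      (refl (F := ZMod 2) goodG2 i : GL chevG2.Idx (ZMod 2))⁻¹ ∈ chevG2.borelSubgroup (ZMod 2)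
    rw [hc', perm_refl]
    exact goodG2.xg_mem_borel (hpos _ h (lt_of_lt_of_eq (goodG2.sPerm i r).2 (by decide +kernel))) _
  have hout : ∀ (i : Fin chevG2.rank),
      refl goodG2 i * goodG2.xG (chevG2.simple i) (1 : ZMod 2) * (refl goodG2 i)⁻¹ ∉ D.P.B := by
    intro i h
    obtain ⟨c', hc'⟩ := goodG2.conj_xg_eq (hmon i) ⟨chevG2.simple i, goodG2.simple_lt i.2⟩
    have h' : (refl (F := ZMod 2) goodG2 i : GL chevG2.Idx (ZMod 2)) * goodG2.xg (chevG2.simple i) (1 : ZMod 2) *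
        (refl (F := ZMod 2) goodG2 i : GL chevG2.Idx (ZMod 2))⁻¹ ∈ chevG2.borelSubgroup (ZMod 2) := h
    rw [show goodG2.xg (chevG2.simple i) (1 : ZMod 2) =
      goodG2.xg ((⟨chevG2.simple i, goodG2.simple_lt i.2⟩ : Fin chevG2.nroots) : ℕ) (1 : ZMod 2) from rfl,
      hc', perm_refl] at h'
    set t := goodG2.sPerm i ⟨chevG2.simple i, goodG2.simple_lt i.2⟩
    have hneg : chevG2.IsNegRoot t := by
      rcases goodG2.isPosRoot_or_isNegRoot t.2 with hp | hn
      · have h2 := (goodG2.isPosRoot_iff.1 hp).1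
        have h3 := g2_neg_perm i
        have h12 : chevG2.nroots = 12 := by decide +kernel
        omega
      · exact hn
    have h4 := (Subgroup.eq_bot_iff_forall _).1 (goodG2.borel_inf_neg (F := ZMod 2)) _
      ⟨h', goodG2.xg_mem_neg hneg _⟩
    exact (mul_ne_zero (Units.ne_zero c') one_ne_zero) ((goodG2.xg_eq_one_iff t.2 _).1 h4)
  have hx6 : goodG2.xG 6 (1 : ZMod 2) ∈ K := goodG2.perf_of_comm (a := 11) (b := 1) (by decide +kernel) 1
  have hgB : g ∈ D.P.B := by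
    rw [BN.eq_parabolic hBN] at hgN
    suffices h : ∀ s ∈ D.P.S, s ∉ Subgroup.normalizer
        ((D.P.B ⊓ K : Subgroup ↥(chevG2.group (ZMod 2))) : Set ↥(chevG2.group (ZMod 2))) by
      rw [Set.eq_empty_of_forall_notMem fun x (hx : x ∈ D.P.S ∩ _) => h x hx.1 hx.2] at hgN
      simpa [BNPair.parabolic] using hgN
    intro s hs hsN
    rw [hSset] at hs
    rcases hs with rfl | rfl
    · have hu : goodG2.xG 7 (1 : ZMod 2) * goodG2.xG 8 (1 : ZMod 2) ∈ D.P.B ⊓ K :=
        ⟨D.P.B.mul_mem (hxB 7 (by norm_num) (by norm_num)) (hxB 8 (by norm_num) (by norm_num)),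
          (Subgroup.mul_mem_iff_of_index_two hidx).2 (iff_of_false (hsign 7 (Or.inl rfl)) (hsign 8 (Or.inr rfl)))⟩
      have h := ((Subgroup.mem_normalizer_iff.1 hsN _).1 hu).1
      refine hout ⟨0, hr⟩ ?_
      rw [show chevG2.simple ((⟨0, hr⟩ : Fin chevG2.rank) : ℕ) = 7 from hs0]
      have h8 := hin ⟨0, hr⟩ ⟨8, by decide +kernel⟩ hperm8
      have h9 := D.P.B.mul_mem h (D.P.B.inv_mem h8)
      simpa [mul_assoc] using h9
    · refine hout ⟨1, by omega⟩ ?_
      rw [show chevG2.simple ((⟨1, by omega⟩ : Fin chevG2.rank) : ℕ) = 6 from hs1]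
      exact ((Subgroup.mem_normalizer_iff.1 hsN _).1 ⟨hxB 6 le_rfl (by norm_num), hx6⟩).1
  intro s hs
  refine Subgroup.eq_of_le_of_card_ge ?_ (le_of_eq (Subgroup.card_map_of_injective (Ψ g).injective).symm)
  rintro _ ⟨x, hx, rfl⟩
  show _ ∈ meet1 D.P K s
  have hgP : g ∈ D.P.parabolic {s} := BN.B_le_parabolic _ hgB
  rw [meet1, Subgroup.mem_subgroupOf, MulEquiv.coe_toMonoidHom, hΨ, MulAut.conjNormal_apply]
  exact mul_mem (mul_mem hgP hx) (inv_mem hgP)

end UThree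

section Tits

open Cfsg.Lie Cfsg.Agent.H46 Cfsg.Agent.H65.Twist

/-- The orders of the minimal parabolics of the groups of type `²F₄`. -/
theorem card_parabolic_f4 {K : Type*} [Field K] [Fintype K] [CharP K 2] {m : ℕ}
    (hK : Fintype.card K = 2 ^ (2 * m + 1)) (j : Fin 2) (a : ↥(f4Setup K hK).data.G1)
    (ha : (a : ↥(chevF4.group K)) = (f4Setup K hK).data.nS j) :
    Nat.card ↥((mapBN ((f4Setup K hK).data.bnPair (f4_hinj hK) (f4_hne hK))
      (g1Equiv (f4Setup K hK) (twistedF4 K (2 ^ m)) twistedF4_le rfl)).parabolic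
        {g1Equiv (f4Setup K hK) (twistedF4 K (2 ^ m)) twistedF4_le rfl a}) =
      Nat.card ↥(f4Setup K hK).data.B1 * (1 + Fintype.card K ^ f4Len j) := by
  classical
  haveI : Finite ↥(f4Setup K hK).data.G1 :=
    Finite.of_equiv _ (g1Equiv (f4Setup K hK) (twistedF4 K (2 ^ m)) twistedF4_le rfl).symm.toEquiv
  rw [← card_f4X1 hK j, ← card_parabolic_twist (f4Setup K hK).data (f4_hinj hK) (f4_hne hK) j a ha]
  set P₀ := (f4Setup K hK).data.bnPair (f4_hinj hK) (f4_hne hK)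
  set e := g1Equiv (f4Setup K hK) (twistedF4 K (2 ^ m)) twistedF4_le rfl
  have h : (mapBN P₀ e).parabolic {e a} = (P₀.parabolic {a}).map e.toMonoidHom := by
    simp only [BNPair.parabolic, mapBN, Subgroup.map_sup, MonoidHom.map_closure, Set.image_singleton,
      MulEquiv.coe_toMonoidHom]
  rw [h, Subgroup.card_map_of_injective e.injective]

set_option maxHeartbeats 1600000 in
/-- The derived group, over any field with two elements. -/
theorem excluded_tits_aux {K : Type*} [Field K] [Fintype K] [CharP K 2] (hK : Fintype.card K = 2 ^ (2 * 0 + 1))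
    (hidx : (commutator ↥(twistedF4 K (2 ^ 0))).index = 2)
    (hcardK : Nat.card ↥(commutator ↥(twistedF4 K (2 ^ 0))) = 2 ^ 11 * 8775)
    [IsSimpleGroup ↥(commutator ↥(twistedF4 K (2 ^ 0)))]
    (hx₀K : (⟨_, b2U_mem' 1 0⟩ : ↥(twistedF4 K (2 ^ 0))) ∉ commutator ↥(twistedF4 K (2 ^ 0))) :
    Excluded 2 ↥(commutator ↥(twistedF4 K (2 ^ 0))) := by
  classical
  set T := f4Setup K (m := 0) hK with hT
  set W := f4Table K (m := 0) hK with hW
  set e := g1Equiv T (twistedF4 K (2 ^ 0)) twistedF4_le rfl with he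
  set P := mapBN (T.data.bnPair (f4_hinj hK) (f4_hne hK)) e with hP
  have hB : P.B = (chevF4.borelSubgroup K ⊓ twistedF4 K (2 ^ 0)).subgroupOf
      (twistedF4 K (2 ^ 0)) := map_g1Equiv T _ twistedF4_le rfl _ T.B_inf_W
  have hH0 : T.data.H0 = ⊥ := by
    refine Subgroup.eq_bot_of_card_eq _ ?_
    rw [hT, card_f4H0, hK]
    norm_num
  have hU1 : ∀ {x : ↥(chevF4.group K)}, x ∈ T.data.U1 →
      (x : GL chevF4.Idx K) ∈ chevF4.borelSubgroup K := fun hx =>
    Subgroup.mem_sup_left (T.mem_U1.1 hx).1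
  have hBmem : ∀ g : ↥(twistedF4 K (2 ^ 0)), g ∈ P.B ↔
      (⟨(g : GL chevF4.Idx K), twistedF4_le g.2⟩ : ↥(chevF4.group K)) ∈ T.data.U1 := fun g => by
    rw [hB, Subgroup.mem_subgroupOf]
    refine ⟨fun h => ?_, fun h => ⟨hU1 h, g.2⟩⟩
    have h1 : (⟨(g : GL chevF4.Idx K), twistedF4_le g.2⟩ : ↥(chevF4.group K)) ∈ T.data.B1 :=
      T.B_inf_W ▸ Subgroup.mem_inf.2 ⟨h.1, g.2⟩
    obtain ⟨u, hu, t, ht, eq⟩ := T.data.B1_eq h1
    rw [hH0, Subgroup.mem_bot] at ht
    rw [eq, ht, mul_one]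
    exact hu
  -- the chosen element
  set x₀ : ↥(twistedF4 K (2 ^ 0)) := ⟨_, b2U_mem' 1 0⟩ with hx₀
  have hcls : (x₀ : GL chevF4.Idx K) ∈
      goodF4.posSub {r | chevF4.IsPosRoot r ∧ chevF4.InRootSub {i | i ∈ f4Jl 1} r} := b2U_class 1 0
  have hx₀B : x₀ ∈ P.B := (hBmem x₀).2 (b2U_mem_U1 hK 1 0)
  -- a monomial representative of a word, moving roots of the class
  let rep : List (Fin 2) → ↥(twistedF4 K (2 ^ 0)) := fun w =>
    ⟨(repW T w : GL chevF4.Idx K), by
      have h : repW T w ∈ T.W := T.G1_eq ▸ T.data.N0_le_G1 ((WeylTable.repW_mem (T := T)) w)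
      exact h⟩
  have hmon : ∀ w, (rep w : GL chevF4.Idx K) ∈ chevF4.monomialSubgroup K := fun w =>
    WeylTable.mon_of_mem ((WeylTable.repW_mem (T := T)) w)
  have hmove : ∀ (w : List (Fin 2)) (S : Set ℕ),
      (∀ r ∈ f4Cls 1, 24 ≤ appR f4Wn w r ∧ appR f4Wn w r ∈ S) →
      ((rep w * x₀ * (rep w)⁻¹ : ↥(twistedF4 K (2 ^ 0))) : GL chevF4.Idx K) ∈
        goodF4.posSub S := fun w S hw => by
    rw [Subgroup.coe_mul, Subgroup.coe_mul, Subgroup.coe_inv]
    refine conj_posSub_into goodF4 (hmon w) (fun r _ hr => ?_) hcls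
    have hr' : r.val ∈ f4Cls 1 := (f4_cls_root 1 r).2 ⟨hr.1, hr.2.2⟩
    have e1 : (goodF4.perm (rep w : GL chevF4.Idx K) r).val = appR f4Wn w r.val := W.perm_repW w r
    obtain ⟨h1, h2⟩ := hw _ hr'
    exact ⟨f4_pos (e1 ▸ h1), e1 ▸ h2⟩
  have hmoveB : ∀ w : List (Fin 2), (∀ r ∈ f4Cls 1, 24 ≤ appR f4Wn w r) →
      rep w * x₀ * (rep w)⁻¹ ∈ P.B := fun w hw => by
    rw [hB, Subgroup.mem_subgroupOf]
    exact ⟨Subgroup.mem_sup_left (goodF4.posSub_le_posUnipotent _
      (hmove w Set.univ fun r hr => ⟨hw r hr, trivial⟩)), SetLike.coe_mem _⟩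
  haveI : (commutator ↥(twistedF4 K (2 ^ 0))).Normal := inferInstance
  have hconjK : ∀ g, g * x₀ * g⁻¹ ∉ commutator ↥(twistedF4 K (2 ^ 0)) := fun g h => hx₀K (by
    simpa [mul_assoc] using (inferInstance : (commutator ↥(twistedF4 K (2 ^ 0))).Normal).conj_mem _ h g⁻¹)
  have hcardB : Nat.card ↥P.B = 2 ^ 12 := by
    have hBe : P.B = (chevF4.posUnipotent K ⊓ twistedF4 K (2 ^ 0)).subgroupOf
        (twistedF4 K (2 ^ 0)) := by
      ext g
      rw [hBmem, Subgroup.mem_subgroupOf, Subgroup.mem_inf]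
      refine ⟨fun h => ⟨(T.mem_U1.1 h).1, g.2⟩, fun h => T.mem_U1.2 ⟨h.1, T.W_fixed _ g.2⟩⟩
    rw [hBe, Nat.card_congr (Subgroup.subgroupOfEquivOfLe inf_le_right).toEquiv,
      f4_card_unipotent hK]
    norm_num
  have hgood : ∀ g : ↥(twistedF4 K (2 ^ 0)), (∃ x ∈ P.B, x ∉ commutator ↥(twistedF4 K (2 ^ 0)) ∧ g * x * g⁻¹ ∈ P.B) ∨
      Nat.card ↥(P.B ⊓ P.B.comap (MulAut.conj g).toMonoidHom) ≤ 8 := by
    intro g
    obtain ⟨m, hm, hgm⟩ := T.data.exists_cell (g := ⟨(g : GL chevF4.Idx K), twistedF4_le g.2⟩)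
      (T.G1_eq.symm ▸ (show (⟨(g : GL chevF4.Idx K), twistedF4_le g.2⟩ :
        ↥(chevF4.group K)) ∈ T.W from g.2))
    obtain ⟨d, hd⟩ := W.exists_perm hm
    obtain ⟨u, hu, h, hh, u', hu', eg⟩ := hgm
    rw [hH0, Subgroup.mem_bot] at hh
    have hmd : m = repW T (W.word d) := by
      have h1 : (repW T (W.word d))⁻¹ * m ∈ T.data.H0 := (WeylTable.mem_H0_iff
        (mul_mem (inv_mem ((WeylTable.repW_mem (T := T)) _)) hm)).2 (by
          rw [Subgroup.coe_mul, Subgroup.coe_inv, goodF4.perm_mul (inv_mem (WeylTable.mon_of_mem ((WeylTable.repW_mem (T := T)) _)))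
            (WeylTable.mon_of_mem hm), goodF4.perm_inv (WeylTable.mon_of_mem ((WeylTable.repW_mem (T := T)) _)), inv_mul_eq_one, hd]
          rfl)
      rw [hH0, Subgroup.mem_bot, inv_mul_eq_one] at h1
      exact h1.symm
    set a : ↥(twistedF4 K (2 ^ 0)) := ⟨(u : GL chevF4.Idx K),
      (T.G1_eq ▸ T.data.U1_le_G1 hu : u ∈ T.W)⟩ with ha
    set b : ↥(twistedF4 K (2 ^ 0)) := ⟨(u' : GL chevF4.Idx K),
      (T.G1_eq ▸ T.data.U1_le_G1 hu' : u' ∈ T.W)⟩ with hb
    have haB : a ∈ P.B := (hBmem a).2 hu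
    have hbB : b ∈ P.B := (hBmem b).2 hu'
    have hg : g = a * rep (f4Word d) * b := Subtype.ext (by
      have := congrArg (fun z : ↥(chevF4.group K) => (z : GL chevF4.Idx K)) eg
      simp only [hh, mul_one, hmd, Subgroup.coe_mul] at this
      exact this)
    rcases word_cases d with h1 | h1 | h1
    · refine Or.inl ⟨b⁻¹ * x₀ * b, mul_mem (mul_mem (inv_mem hbB) hx₀B) hbB, ?_, ?_⟩
      · simpa using hconjK b⁻¹
      · rw [hg, show a * rep (f4Word d) * b * (b⁻¹ * x₀ * b) * (a * rep (f4Word d) * b)⁻¹ =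
          a * (rep (f4Word d) * x₀ * (rep (f4Word d))⁻¹) * a⁻¹ by group]
        exact mul_mem (mul_mem haB (hmoveB _ h1)) (inv_mem haB)
    · set x₁ := rep [0] * x₀ * (rep [0])⁻¹ with hx₁
      refine Or.inl ⟨b⁻¹ * x₁ * b, mul_mem (mul_mem (inv_mem hbB) (hmoveB _ shift_case)) hbB, ?_, ?_⟩
      · rw [hx₁, show b⁻¹ * (rep [0] * x₀ * (rep [0])⁻¹) * b = (b⁻¹ * rep [0]) * x₀ * (b⁻¹ * rep [0])⁻¹ by group]
        exact hconjK _
      · have e0 : rep (0 :: f4Word d) = rep (f4Word d) * rep [0] := Subtype.ext (by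
          show ((repW T (f4Word d) * T.nS 0 : ↥(chevF4.group K)) : GL chevF4.Idx K) =
            (repW T (f4Word d) : GL chevF4.Idx K) * ((1 * T.nS 0 : ↥(chevF4.group K)) : _)
          rw [one_mul, Subgroup.coe_mul])
        rw [hg, hx₁, show a * rep (f4Word d) * b * (b⁻¹ * (rep [0] * x₀ * (rep [0])⁻¹) * b) *
          (a * rep (f4Word d) * b)⁻¹ =
          a * ((rep (f4Word d) * rep [0]) * x₀ * (rep (f4Word d) * rep [0])⁻¹) * a⁻¹ by group, ← e0]
        exact mul_mem (mul_mem haB (hmoveB _ h1)) (inv_mem haB)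
    · -- a long cell
      refine Or.inr ?_
      have hcard := W.card_U1w_repW (Fintype.card K) f4Len (card_f4X1 hK) (f4Word d)
        (f4_word_desc d)
      have hprod : Nat.card ↥(P.B ⊓ P.B.comap (MulAut.conj g).toMonoidHom) *
          Nat.card ↥(T.data.U1w (repW T (f4Word d))) ≤ Nat.card ↥T.data.U1 := by
        rw [← Nat.card_prod]
        refine Nat.card_le_card_of_injective (fun p =>
          (⟨u' * (⟨((p.1 : ↥(twistedF4 K (2 ^ 0))) : GL chevF4.Idx K), twistedF4_le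
            (p.1 : ↥(twistedF4 K (2 ^ 0))).2⟩ : ↥(chevF4.group K)) * u'⁻¹ * (p.2 : ↥(chevF4.group K)),
            mul_mem (mul_mem (mul_mem hu' ((hBmem _).1 p.1.2.1)) (inv_mem hu')) (T.data.mem_U1w.1 p.2.2).1⟩ :
            ↥T.data.U1)) ?_
        rintro ⟨⟨x, hx⟩, v, hv⟩ ⟨⟨y, hy⟩, w, hw⟩ hxy
        set n := repW T (f4Word d) with hn
        set ι := fun z : ↥(twistedF4 K (2 ^ 0)) =>
          (⟨(z : GL chevF4.Idx K), twistedF4_le z.2⟩ : ↥(chevF4.group K)) with hι
        have hxy' : u' * ι x * u'⁻¹ * v = u' * ι y * u'⁻¹ * w := congrArg Subtype.val hxy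
        have hz : v * w⁻¹ = u' * ι (x⁻¹ * y) * u'⁻¹ := by
          have : ι (x⁻¹ * y) = (ι x)⁻¹ * ι y := rfl
          rw [this, show u' * ((ι x)⁻¹ * ι y) * u'⁻¹ = (u' * ι x * u'⁻¹)⁻¹ * (u' * ι y * u'⁻¹) by group,
            mul_inv_eq_iff_eq_mul, show (u' * ι x * u'⁻¹)⁻¹ * (u' * ι y * u'⁻¹) * w =
              (u' * ι x * u'⁻¹)⁻¹ * (u' * ι y * u'⁻¹ * w) by group, ← hxy']
          group
        have h2 : n * (v * w⁻¹) * n⁻¹ ∈ T.data.V := by
          rw [show n * (v * w⁻¹) * n⁻¹ = (n * v * n⁻¹) * (n * w * n⁻¹)⁻¹ by group]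
          exact mul_mem (T.data.mem_U1w.1 hv).2 (inv_mem (T.data.mem_U1w.1 hw).2)
        have h3 : n * (v * w⁻¹) * n⁻¹ ∈ T.data.U := by
          have hq : g * (x⁻¹ * y) * g⁻¹ ∈ P.B := by
            have := mul_mem (inv_mem (show g * x * g⁻¹ ∈ P.B from hx.2)) (show g * y * g⁻¹ ∈ P.B from hy.2)
            simpa [mul_assoc] using this
          have hq' := (hBmem _).1 hq
          have e4 : ι (g * (x⁻¹ * y) * g⁻¹) = ι g * ι (x⁻¹ * y) * (ι g)⁻¹ := rfl
          change ι (g * (x⁻¹ * y) * g⁻¹) ∈ T.data.U1 at hq'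
          rw [e4, show ι g = u * (m * h) * u' from eg, hh, mul_one, hmd] at hq'
          have := mul_mem (mul_mem (inv_mem hu) hq') hu
          rw [hz]
          exact T.data.U1_le_U (by
            convert this using 1
            show n * (u' * ι (x⁻¹ * y) * u'⁻¹) * n⁻¹ = _
            rw [show W.word d = f4Word d from rfl, ← hn]
            group)
        have h4 : v = w := mul_inv_eq_one.1 (conj_eq_one_iff.1 (T.data.U_inf_V h3 h2))
        subst h4
        have h5 : ι x = ι y := by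
          have := mul_right_cancel hxy'
          exact mul_left_cancel (mul_right_cancel this)
        have h6 : x = y := Subtype.ext (congrArg (fun z : ↥(chevF4.group K) =>
          (z : GL chevF4.Idx K)) h5)
        subst h6
        rfl
      have hU : Nat.card ↥T.data.U1 = 2 ^ 12 := by rw [hT, card_f4U1, hK]; norm_num
      rw [hcard, hU, hK] at hprod
      have h9 : 2 ^ 9 ≤ (2 ^ (2 * 0 + 1)) ^ ((f4Word d).map f4Len).sum := by
        norm_num; exact Nat.pow_le_pow_right (by norm_num : (0:ℕ) < 2) h1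
      have h10 := (Nat.mul_le_mul_left _ h9).trans hprod
      omega

  haveI : Finite ↥(twistedF4 K (2 ^ 0)) := inferInstance
  set Kd := commutator ↥(twistedF4 K (2 ^ 0)) with hKd
  have hB2 : IsPGroup 2 ↥P.B := IsPGroup.of_card hcardB
  have hindexB : P.B.index = 8775 := by
    have h1 := P.B.card_mul_index
    rw [hcardB, ← Kd.card_mul_index, hidx, hcardK] at h1
    omega
  let s : Fin 2 → ↥(twistedF4 K (2 ^ 0)) := fun j => e ⟨T.data.nS j, T.data.N0_le_G1 (T.data.nS_mem_N0 j)⟩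
  have hS : P.S = {s 0, s 1} := by
    ext x
    constructor
    · rintro ⟨a, ⟨j, ha⟩, rfl⟩
      have : e a = s j := congrArg e (Subtype.ext ha)
      fin_cases j
      · exact Or.inl this
      · exact Or.inr this
    · rintro (rfl | rfl) <;> exact ⟨_, ⟨_, rfl⟩, rfl⟩
  have hcardP : ∀ j, Nat.card ↥(P.parabolic {s j}) = Nat.card ↥T.data.B1 * (1 + 2 ^ f4Len j) := fun j => by
    rw [hP, he, card_parabolic_f4 hK j _ rfl, hK]
    norm_num [hT]
  have hB1 : 0 < Nat.card ↥T.data.B1 := Nat.card_pos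
  have hsne : s 0 ≠ s 1 := fun h => by
    have h2 := hcardP 0
    rw [h, hcardP 1] at h2
    have h3 := Nat.eq_of_mul_eq_mul_left hB1 h2
    simp [f4Len] at h3
  have hsS : ∀ j, s j ∈ P.S := fun j => ⟨_, ⟨j, rfl⟩, rfl⟩
  refine excluded_index_two (P := P) hidx hx₀B hx₀K hB2 (by rw [hindexB]; norm_num) hS hsne
    (normalizer_ne_top hB2 ?_ Nat.prime_three (by norm_num)
      (by rw [hcardK]; exact (by norm_num : (3 : ℕ) ∣ 8775).trans (dvd_mul_left _ _))) ?_
  · intro hbot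
    have h1 := Subgroup.inf_relIndex_left (H := P.B) (K := Kd)
    rw [hbot, Subgroup.relIndex_bot_left, hcardB] at h1
    have h2 : Kd.relIndex P.B ∣ Kd.index := Subgroup.relIndex_dvd_index_of_normal Kd P.B
    rw [hidx, ← h1] at h2
    exact absurd (Nat.le_of_dvd two_pos h2) (by norm_num)
  intro φ hφ s' hs'
  -- overgroups of the Borel intersection come from parabolics
  have hover : ∀ M : Subgroup ↥Kd, (P.B ⊓ Kd).subgroupOf Kd ≤ M → M ≠ ⊤ →
      M = (P.B ⊓ Kd).subgroupOf Kd ∨ ∃ j, M = meet1 P Kd (s j) := by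
    intro M hUM hM
    set M₁ := M.map Kd.subtype with hM₁
    have hM₁K : M₁ ≤ Kd := Subgroup.map_subtype_le _
    have hVM₁ : P.B ⊓ Kd ≤ M₁ := fun x hx => ⟨⟨x, hx.2⟩, hUM hx, rfl⟩
    have hinv := conj_mem_of_good Kd P.B hidx hx₀B hx₀K hcardB hcardK hgood M₁ hM₁K hVM₁
    have hinvB : ∀ b ∈ P.B, ∀ m ∈ M₁, b * m * b⁻¹ ∈ M₁ := fun b hb m hm => by
      by_cases h : b ∈ Kd
      · exact M₁.mul_mem (M₁.mul_mem (hVM₁ ⟨hb, h⟩) hm) (M₁.inv_mem (hVM₁ ⟨hb, h⟩))
      · have h1 : b * x₀⁻¹ ∈ M₁ := hVM₁ ⟨P.B.mul_mem hb (P.B.inv_mem hx₀B),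
          (Subgroup.mul_mem_iff_of_index_two hidx).2 (iff_of_false h fun h' => hx₀K (inv_mem_iff.1 h'))⟩
        have := M₁.mul_mem (M₁.mul_mem h1 (hinv m hm)) (M₁.inv_mem h1)
        simpa [mul_assoc] using this
    have hBN : P.B ≤ Subgroup.normalizer (M₁ : Set ↥(twistedF4 K (2 ^ 0))) := fun b hb =>
      Subgroup.mem_normalizer_iff.2 fun m => ⟨hinvB b hb m, fun h => by
        simpa [mul_assoc] using hinvB b⁻¹ (inv_mem hb) _ h⟩
    have hback : M = (M₁ ⊔ P.B).subgroupOf Kd := by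
      refine le_antisymm (fun x hx => Subgroup.mem_sup_left (Subgroup.mem_map.2 ⟨x, hx, rfl⟩)) fun x hx => ?_
      have hx' : (x : ↥(twistedF4 K (2 ^ 0))) ∈ ((M₁ ⊔ P.B : Subgroup _) : Set ↥(twistedF4 K (2 ^ 0))) := hx
      rw [Subgroup.coe_mul_of_right_le_normalizer_left _ _ hBN] at hx'
      obtain ⟨m, ⟨y, hy, rfl⟩, b, hb, eb⟩ := Set.mem_mul.1 hx'
      have hbK : b ∈ Kd := by
        have : (y : ↥(twistedF4 K (2 ^ 0)))⁻¹ * x ∈ Kd := Kd.mul_mem (Kd.inv_mem y.2) x.2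
        rwa [← eb, Subgroup.coe_subtype, inv_mul_cancel_left] at this
      rw [show x = y * ⟨b, hbK⟩ from Subtype.ext eb.symm]
      exact M.mul_mem hy (hUM ⟨hb, hbK⟩)
    have hpar := BN.eq_parabolic (P := P) (le_sup_right : P.B ≤ M₁ ⊔ P.B)
    have hJ : P.S ∩ ((M₁ ⊔ P.B : Subgroup _) : Set _) ⊆ {s 0, s 1} := hS ▸ Set.inter_subset_left
    rcases Set.subset_pair_iff_eq.1 hJ with h | h | h | h
    · left
      rw [hback, hpar, h]
      ext x
      simp [BNPair.parabolic, Subgroup.mem_subgroupOf, x.2]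
    · exact Or.inr ⟨0, by rw [hback, hpar, h]; rfl⟩
    · exact Or.inr ⟨1, by rw [hback, hpar, h]; rfl⟩
    · exfalso
      refine hM ?_
      rw [hback, hpar, h, ← hS, BN.parabolic_self, Subgroup.top_subgroupOf]
  have hcardM : ∀ j, Nat.card ↥(meet1 P Kd (s j)) * 2 = Nat.card ↥T.data.B1 * (1 + 2 ^ f4Len j) := fun j => by
    rw [← hcardP j]
    have h1 : Kd.relIndex (P.parabolic {s j}) = 2 := by
      have hd : Kd.relIndex (P.parabolic {s j}) ∣ Kd.index := Subgroup.relIndex_dvd_index_of_normal Kd _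
      rw [hidx] at hd
      exact ((Nat.dvd_prime Nat.prime_two).1 hd).resolve_left fun h =>
        hx₀K (Subgroup.relIndex_eq_one.1 h (BN.B_le_parabolic _ hx₀B))
    have h2 := Subgroup.relIndex_mul_relIndex (⊥ : Subgroup _) (P.parabolic {s j} ⊓ Kd) (P.parabolic {s j}) bot_le
      inf_le_left
    rw [Subgroup.relIndex_bot_left, Subgroup.relIndex_bot_left, Subgroup.inf_relIndex_left, h1] at h2
    rw [← h2, meet1]
    congr 1
    rw [← Subgroup.card_subtype Kd, Subgroup.subgroupOf_map_subtype]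
  obtain ⟨j, rfl⟩ : ∃ j, s' = s j := by
    rw [hS] at hs'
    rcases hs' with h | h
    · exact ⟨0, h⟩
    · exact ⟨1, h⟩
  have hUQ : (P.B ⊓ Kd).subgroupOf Kd ≤ meet1 P Kd (s j) := fun x hx =>
    BN.B_le_parabolic _ (Subgroup.mem_inf.1 hx).1
  have hU' : (P.B ⊓ Kd).subgroupOf Kd ≤ (meet1 P Kd (s j)).map φ.toMonoidHom := hφ ▸ Subgroup.map_mono hUQ
  have hcard : Nat.card ↥((meet1 P Kd (s j)).map φ.toMonoidHom) = Nat.card ↥(meet1 P Kd (s j)) :=
    Subgroup.card_map_of_injective φ.injective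
  have hcardU : Nat.card ↥((P.B ⊓ Kd).subgroupOf Kd) * 2 = Nat.card ↥T.data.B1 := by
    have h1 : Nat.card ↥P.B = Nat.card ↥T.data.B1 := by
      rw [hP]
      show Nat.card ↥(Subgroup.map e.toMonoidHom _) = _
      rw [Subgroup.card_map_of_injective e.injective]
      exact Nat.card_congr (Subgroup.subgroupOfEquivOfLe T.data.B1_le_G1).toEquiv
    have h2 := Subgroup.relIndex_mul_relIndex (⊥ : Subgroup _) (P.B ⊓ Kd) P.B bot_le inf_le_left
    have h3 : Kd.relIndex P.B = 2 := by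
      have hd : Kd.relIndex P.B ∣ Kd.index := Subgroup.relIndex_dvd_index_of_normal Kd _
      rw [hidx] at hd
      exact ((Nat.dvd_prime Nat.prime_two).1 hd).resolve_left fun h => hx₀K (Subgroup.relIndex_eq_one.1 h hx₀B)
    rw [Subgroup.relIndex_bot_left, Subgroup.relIndex_bot_left, Subgroup.inf_relIndex_left, h3, h1] at h2
    rw [← h2, ← Subgroup.card_subtype Kd, Subgroup.subgroupOf_map_subtype, inf_assoc, inf_idem]
  have hlt : ∀ i : Fin 2, Nat.card ↥((P.B ⊓ Kd).subgroupOf Kd) < Nat.card ↥(meet1 P Kd (s i)) := fun i => by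
    have h1 := hcardM i
    have h2 : 2 ≤ 1 + 2 ^ f4Len i := by
      have := Nat.one_le_two_pow (n := f4Len i)
      omega
    have h3 := Nat.mul_le_mul_left (Nat.card ↥T.data.B1) h2
    omega
  have hne : (meet1 P Kd (s j)).map φ.toMonoidHom ≠ ⊤ := by
    intro h
    have h1 : Nat.card ↥(meet1 P Kd (s j)) = Nat.card ↥Kd := by rw [← hcard, h, Subgroup.card_top]
    have h2 := hcardM j
    rw [h1, hcardK] at h2
    have h3 : Nat.card ↥T.data.B1 = 2 ^ 12 := by
      have h4 : Nat.card ↥P.B = Nat.card ↥T.data.B1 := by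
        rw [hP]
        show Nat.card ↥(Subgroup.map e.toMonoidHom _) = _
        rw [Subgroup.card_map_of_injective e.injective]
        exact Nat.card_congr (Subgroup.subgroupOfEquivOfLe T.data.B1_le_G1).toEquiv
      rw [← h4, hcardB]
    rw [h3] at h2
    fin_cases j <;> simp [f4Len] at h2
  rcases hover _ hU' hne with h | ⟨i, h⟩
  · exact absurd (hcard ▸ congrArg (fun H : Subgroup ↥Kd => Nat.card ↥H) h) (Nat.ne_of_gt (hlt j))
  · have h1 : Nat.card ↥(meet1 P Kd (s i)) = Nat.card ↥(meet1 P Kd (s j)) := by rw [← hcard, h]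
    have h2 := hcardM i
    rw [h1, hcardM j] at h2
    have h3 := Nat.eq_of_mul_eq_mul_left hB1 h2
    have h4 : 2 ^ f4Len j = 2 ^ f4Len i := by omega
    have h5 := Nat.pow_right_injective le_rfl h4
    have hji : j = i := Fin.ext (by simp only [f4Len] at h5; omega)
    subst hji
    exact h

/-- The Tits group is excluded. -/
theorem excluded_tits : Excluded 2 TitsGroup := by
  haveI : IsSimpleGroup ↥(commutator ↥(twistedF4 (ZMod 2) (2 ^ 0))) := H55.Tits.titsData.simple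
  refine excluded_tits_aux (K := ZMod 2) zmod_two_card H55.Tits.commutator_index
    (H55.Tits.card_derived.trans (by norm_num)) ?_
  rw [← gen_eq_two]
  exact H55.Tits.titsData.notMem

end Tits

end Cfsg.Agent.H64.PMin
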